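import Mathlib
import Cfsg.Agent.Lib.MatConj.InvForm
import Cfsg.Agent.Lib.QF.Disc

/-!
Forms invariant under a unipotent endomorphism (Wall): the Gram forms on the heads of the Jordan
blocks determine the form in odd characteristic.
-/

set_option autoImplicit false

namespace H64.Wall

open Polynomial Module H65 Finset LinearMap

variable {F V : Type*} [Field F] [AddCommGroup V] [Module F V]
variable {ι : Type*} [Fintype ι] [DecidableEq ι] {d : ι → ℕ} (b : Basis (Σ k, Fin (d k)) F V)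
  (hd : ∀ k, 0 < d k)

/-- The span of the heads of the blocks of size `a`. -/
noncomputable def Emb (a : ℕ) : ({k // d k = a} → F) →ₗ[F] V :=
  Fintype.linearCombination F fun k => b ⟨k.1, ⟨0, hd k.1⟩⟩

/-- The head coordinates for the blocks of size `a`. -/
noncomputable def Prj (a : ℕ) : V →ₗ[F] ({k // d k = a} → F) :=
  LinearMap.pi fun k => b.coord ⟨k.1, ⟨0, hd k.1⟩⟩

/-- The map induced on the heads of the blocks of size `a`. -/
noncomputable def hdE (a : ℕ) (φ : End F V) : End F ({k // d k = a} → F) :=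
  Prj b hd a ∘ₗ φ ∘ₗ Emb b hd a

/-- The Gram form on the heads of the blocks of size `a`. -/
noncomputable def gram (N : End F V) (B : LinearMap.BilinForm F V) (a : ℕ) :
    LinearMap.BilinForm F ({k // d k = a} → F) :=
  B.compl₁₂ (Emb b hd a) ((N ^ (a - 1)) ∘ₗ Emb b hd a)

variable {b hd}

theorem emb_single {a : ℕ} (k : {k // d k = a}) :
    Emb b hd a (Pi.single k 1) = b ⟨k.1, ⟨0, hd k.1⟩⟩ := by
  simp [Emb]

theorem prj_emb (a : ℕ) (c : {k // d k = a} → F) : Prj b hd a (Emb b hd a c) = c := by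
  funext k
  simp only [Prj, Emb, LinearMap.pi_apply, Basis.coord_apply, Fintype.linearCombination_apply,
    map_sum, map_smul, Basis.repr_self, Finsupp.finsetSum_apply, Finsupp.smul_apply]
  rw [sum_eq_single k (fun l _ hl => by
    have : (l : ι) ≠ k := fun h => hl (Subtype.ext h)
    simp [this]) (by simp)]
  simp

omit [DecidableEq ι] in
theorem gram_apply (N : End F V) (B : LinearMap.BilinForm F V) (a : ℕ) (c c' : {k // d k = a} → F) :
    gram b hd N B a c c' = B (Emb b hd a c) ((N ^ (a - 1)) (Emb b hd a c')) := rfl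

variable {N u : End F V} {B : LinearMap.BilinForm F V}

omit [DecidableEq ι] in
theorem pow_emb (hb : IsJordanBasis b N) (a : ℕ) (c : {k // d k = a} → F) :
    (N ^ a) (Emb b hd a c) = 0 := by
  simp only [Emb, Fintype.linearCombination_apply, map_sum, map_smul]
  exact sum_eq_zero fun k _ => by rw [hb.pow_apply_eq_zero k.2.le, smul_zero]

theorem orth_left (hu : ∀ x y, B (u x) (u y) = B x y) {i : ℕ} {v : V} (hv : ((u - 1) ^ i) v = 0)
    (w : V) : B (((u - 1) ^ i) w) v = 0 := by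
  rw [form_sub_one_pow B hu, hv, map_zero, mul_zero]

theorem orth_right (hu : ∀ x y, B (u x) (u y) = B x y) {i : ℕ} {v : V} (hv : ((u - 1) ^ i) v = 0)
    (w : V) : B v (((u - 1) ^ i) w) = 0 :=
  orth_left (B := B.flip) (fun x y => hu y x) hv w

theorem exists_decomp (hb : IsJordanBasis b N) {j : ℕ} {v : V} (hv : (N ^ (j + 1)) v = 0) :
    ∃ y z, (N ^ j) y = 0 ∧ v = Emb b hd (j + 1) (Prj b hd (j + 1) v) + y + N z := by
  obtain ⟨z, hz⟩ := hb.sub_sum_mem_range hd v
  refine ⟨∑ k with d k ≠ j + 1, b.repr v ⟨k, ⟨0, hd k⟩⟩ • b ⟨k, ⟨0, hd k⟩⟩, z, ?_, ?_⟩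
  · rw [map_sum]
    refine sum_eq_zero fun k hk => ?_
    have hk' := (mem_filter.1 hk).2
    rcases le_or_gt (d k) j with h | h
    · rw [map_smul, hb.pow_apply_eq_zero h, smul_zero]
    · rw [← hb.repr_pow k ⟨0, hd k⟩ (j + 1) (by simp; omega), hv]; simp
  · rw [hz, ← sum_filter_add_sum_filter_not univ fun k => d k = j + 1,
      sum_subtype (p := fun k => d k = j + 1) (F := inferInstance) (univ.filter fun k => d k = j + 1)
        (by simp)]
    simp [Emb, Prj, Fintype.linearCombination_apply]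

theorem gram_eq (hb : IsJordanBasis b (u - 1)) (hu : ∀ x y, B (u x) (u y) = B x y) {a : ℕ}
    {v w : V} (hv : ((u - 1) ^ a) v = 0) (hw : ((u - 1) ^ a) w = 0) :
    B v (((u - 1) ^ (a - 1)) w) = gram b hd (u - 1) B a (Prj b hd a v) (Prj b hd a w) := by
  rcases a with _ | j
  · simp only [pow_zero, End.one_apply] at hv hw
    simp [hv, hw]
  obtain ⟨y, z, h1, h2⟩ := exists_decomp (hd := hd) hb hv
  obtain ⟨y', z', h1', h2'⟩ := exists_decomp (hd := hd) hb hw
  have h3 : ((u - 1) ^ 1 : End F V) (((u - 1) ^ j) w) = 0 := by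
    rw [← End.mul_apply, ← pow_add, add_comm, hw]
  have h4 := orth_left hu h3 z
  rw [pow_one] at h4
  rw [gram_apply, Nat.add_sub_cancel]
  conv_lhs => rw [h2]
  rw [map_add, map_add, LinearMap.add_apply, LinearMap.add_apply, orth_right hu h1, add_zero,
    h4, add_zero]
  conv_lhs => rw [h2']
  rw [map_add ((u - 1) ^ j), map_add ((u - 1) ^ j), h1', add_zero, map_add,
    ← End.mul_apply _ (u - 1), ← pow_succ,
    orth_right hu (pow_emb hb _ _), add_zero]

theorem gram_comp (hb : IsJordanBasis b (u - 1)) (hu : ∀ x y, B (u x) (u y) = B x y)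
    {φ ψ : End F V} (hφ : Commute φ (u - 1)) (hψ : Commute ψ (u - 1)) (a : ℕ) :
    gram b hd (u - 1) (B.comp φ ψ) a =
      (gram b hd (u - 1) B a).comp (hdE b hd a φ) (hdE b hd a ψ) := by
  refine LinearMap.ext₂ fun c c' => ?_
  have h : ∀ {φ : End F V}, Commute φ (u - 1) → ∀ c, ((u - 1) ^ a) (φ (Emb b hd a c)) = 0 :=
    fun hφ c => by rw [← End.mul_apply, ← (hφ.pow_right a).eq, End.mul_apply, pow_emb hb, map_zero]
  rw [gram_apply, BilinForm.comp_apply, ← End.mul_apply ψ, (hψ.pow_right _).eq, End.mul_apply,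
    gram_eq (hd := hd) hb hu (h hφ c) (h hψ c')]
  rfl

theorem flip_pow (hu : ∀ x y, B (u x) (u y) = B x y) {j : ℕ} (v : V) {w : V}
    (hw : ((u - 1) ^ (j + 1)) w = 0) : B (((u - 1) ^ j) v) w = (-1) ^ j * B v (((u - 1) ^ j) w) := by
  rw [pow_succ', End.mul_apply] at hw
  rw [form_sub_one_pow B hu, ← apply_pow_eq_of_sub_one hw j, form_pow_pow hu,
    apply_pow_eq_of_sub_one hw j]

omit [DecidableEq ι] in
theorem gram_symm (hb : IsJordanBasis b (u - 1)) (hu : ∀ x y, B (u x) (u y) = B x y) {ε : F}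
    (hε : ∀ x y, B y x = ε * B x y) (a : ℕ) (c c' : {k // d k = a} → F) :
    gram b hd (u - 1) B a c' c = ε * (-1) ^ (a - 1) * gram b hd (u - 1) B a c c' := by
  rcases a with _ | j
  · have : c = 0 := funext fun k => absurd k.2 (hd k.1).ne'
    simp [this]
  rw [gram_apply, gram_apply, hε, Nat.add_sub_cancel, flip_pow hu _ (pow_emb hb _ _), mul_assoc]

theorem gram_nondeg (hb : IsJordanBasis b (u - 1)) (hu : ∀ x y, B (u x) (u y) = B x y)
    (hB : B.Nondegenerate) (a : ℕ) : (gram b hd (u - 1) B a).Nondegenerate := by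
  have := Module.Finite.of_basis b
  refine BilinForm.Nondegenerate.ofSeparatingRight fun c hc => funext fun k => ?_
  obtain ⟨j, rfl⟩ : ∃ j, a = j + 1 := ⟨a - 1, by have := hd k.1; have := k.2; omega⟩
  have hjk : j < d k := by have := k.2; omega
  obtain ⟨w, hw⟩ := (B.toDual hB).surjective (b.coord ⟨k.1, ⟨j, hjk⟩⟩)
  have hw' : ∀ x, B w x = b.repr x ⟨k.1, ⟨j, hjk⟩⟩ := LinearMap.congr_fun hw
  have hu' : IsUnit u := by simpa using hb.isNilpotent.isUnit_add_one
  have h1 : ((u - 1) ^ (j + 1)) w = 0 := by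
    refine hB.1 _ fun x => ?_
    obtain ⟨x, rfl⟩ := ((End.isUnit_iff _).1 (hu'.pow (j + 1))).2 x
    have h2 := form_sub_one_pow B.flip (u := u) (u' := u) (fun x y => hu y x) (j + 1) x w
    have h3 : (b.coord ⟨k.1, ⟨j, hjk⟩⟩) ∘ₗ ((u - 1) ^ (j + 1)) = 0 := by
      refine b.ext fun ⟨l, i⟩ => ?_
      simp only [LinearMap.comp_apply, hb.pow_apply, Basis.coord_apply]
      by_cases hl : l = k.1
      · subst hl
        rw [dif_neg (by have := k.2; omega)]
        simp
      · split_ifs <;> simp [hl]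
    rw [BilinForm.flip_apply, hw', show b.repr _ _ = 0 from LinearMap.congr_fun h3 x, eq_comm,
      mul_eq_zero] at h2
    exact h2.resolve_left (by simp)
  have h2 := hb.repr_pow k.1 ⟨0, hd k.1⟩ j (by simpa using hjk) (Emb b hd _ c)
  simp only [zero_add] at h2
  have h3 := gram_eq (hd := hd) hb hu h1 (pow_emb (hd := hd) hb _ c)
  rw [prj_emb, hc, Nat.add_sub_cancel, hw', h2] at h3
  exact (congrFun (prj_emb _ c) k).symm.trans h3

theorem repr_pow_lt (hb : IsJordanBasis b N) (k : ι) (i : Fin (d k)) {m : ℕ} (h : i < m) (w : V) :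
    b.repr ((N ^ m) w) ⟨k, i⟩ = 0 := by
  obtain ⟨m, rfl⟩ : ∃ j, m = i + (j + 1) := ⟨m - i - 1, by omega⟩
  have := hb.repr_pow k ⟨0, i.pos⟩ i (by simp) (N ((N ^ m) w))
  simp only [zero_add] at this
  rw [pow_add, pow_succ', End.mul_apply, End.mul_apply, this, hb.repr_zero_apply]

theorem charpoly_eq_prod [FiniteDimensional F V] (hb : IsJordanBasis b N) {φ : End F V}
    (hφ : Commute φ N) {M : ℕ} (hM : ∀ k, d k < M) :
    φ.charpoly = ∏ a ∈ range M, (hdE b hd a φ).charpoly ^ a := by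
  let κ : (Σ k, Fin (d k)) → Lex (ℕᵒᵈ × ℕ) := fun x => toLex (OrderDual.toDual x.2.1, d x.1)
  have h1 : ∀ l (i : Fin (d l)), φ (b ⟨l, i⟩) = (N ^ (i : ℕ)) (φ (b ⟨l, ⟨0, hd l⟩⟩)) := fun l i => by
    rw [hb.eq_pow_apply hd, ← End.mul_apply, (hφ.pow_right _).eq, End.mul_apply]
  have h2 : ∀ k l i (hk : i < d k) (hl : i < d l), toMatrix b b φ ⟨k, ⟨i, hk⟩⟩ ⟨l, ⟨i, hl⟩⟩ =
      headMatrix b hd φ k l := fun k l i hk hl => by
    have := hb.repr_pow k ⟨0, hd k⟩ i (by simpa using hk) (φ (b ⟨l, ⟨0, hd l⟩⟩))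
    simp only [zero_add] at this
    rw [toMatrix_apply, h1]
    exact this
  have h3 : (toMatrix b b φ).BlockTriangular κ := by
    rintro ⟨k, i, hi⟩ ⟨l, j, hj⟩ h
    rcases Prod.Lex.toLex_lt_toLex.1 h with h | ⟨rfl, h⟩
    · rw [toMatrix_apply, h1]
      exact repr_pow_lt hb k ⟨i, hi⟩ h _
    · exact (h2 k l j hi hj).trans (hb.blockTriangular hd hφ h)
  have h4 : ∀ x, ((toMatrix b b φ).toSquareBlock κ (κ x)).charpoly = (hdE b hd (d x.1) φ).charpoly := by
    rintro ⟨k, i, hi⟩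
    let e : {l // d l = d k} ≃ {y // κ y = κ ⟨k, i, hi⟩} := Equiv.ofBijective
      (fun l => ⟨⟨l.1, i, hi.trans_eq l.2.symm⟩, by simp [κ, l.2]⟩) ⟨fun l l' h =>
        Subtype.ext (congrArg (·.1.1) h), fun ⟨⟨l, j, hj⟩, h⟩ => by
          obtain ⟨rfl, h⟩ := Prod.ext_iff.1 h
          exact ⟨⟨l, h⟩, rfl⟩⟩
    rw [← LinearMap.charpoly_toMatrix _ (Pi.basisFun F _), ← Matrix.charpoly_reindex e]
    congr 1
    ext x y
    obtain ⟨x, rfl⟩ := e.surjective x
    obtain ⟨y, rfl⟩ := e.surjective y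
    simp only [Matrix.reindex_apply, Matrix.submatrix_apply, Equiv.symm_apply_apply, toMatrix_apply,
      Pi.basisFun_repr, Pi.basisFun_apply, hdE, LinearMap.comp_apply, emb_single]
    exact h2 _ _ _ _ _
  rw [← LinearMap.charpoly_toMatrix _ b, h3.charpoly,
    prod_congr rfl (g := fun a => (hdE b hd (ofLex a).2 φ).charpoly) fun a ha => by
      obtain ⟨x, -, rfl⟩ := mem_image.1 ha
      exact h4 x, ← prod_fiberwise_of_maps_to (g := fun a => (ofLex a).2) (t := range M) fun a ha => by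
      obtain ⟨x, -, rfl⟩ := mem_image.1 ha
      exact mem_range.2 (hM _)]
  refine prod_congr rfl fun a _ => ?_
  rw [prod_congr rfl (g := fun _ => (hdE b hd a φ).charpoly) fun x hx => by rw [(mem_filter.1 hx).2],
    prod_const]
  by_cases h : ∃ k, d k = a
  · obtain ⟨k, rfl⟩ := h
    congr 1
    refine Eq.trans (card_bij (fun i _ => toLex (OrderDual.toDual i, d k)) (fun i hi => ?_)
      (fun i _ j _ h => (Prod.ext_iff.1 h).1) fun x hx => ?_).symm (card_range (d k))
    · exact mem_filter.2 ⟨mem_image.2 ⟨⟨k, i, mem_range.1 hi⟩, mem_univ _, rfl⟩, rfl⟩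
    · obtain ⟨a1, a2⟩ := mem_filter.1 hx
      obtain ⟨⟨l, i, hi⟩, -, rfl⟩ := mem_image.1 a1
      change d l = d k at a2
      exact ⟨i, mem_range.2 (a2 ▸ hi), by simp [κ, a2]⟩
  · have : IsEmpty {k // d k = a} := ⟨fun k => h ⟨k.1, k.2⟩⟩
    rw [← LinearMap.charpoly_toMatrix _ (Pi.basisFun F _), Matrix.charpoly_isEmpty]
    simp

theorem det_eq_prod [FiniteDimensional F V] (hb : IsJordanBasis b N) {φ : End F V}
    (hφ : Commute φ N) {M : ℕ} (hM : ∀ k, d k < M) :
    LinearMap.det φ = ∏ a ∈ range M, LinearMap.det (hdE b hd a φ) ^ a := by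
  have := congrArg (eval 0) (charpoly_eq_prod (hd := hd) hb hφ.neg_left hM)
  simpa [eval_prod, LinearMap.eval_charpoly, hdE] using this

theorem exists_lift (hb : IsJordanBasis b N) (P : ∀ a, End F ({k // d k = a} → F)) :
    ∃ φ : End F V, Commute φ N ∧ ∀ a, hdE b hd a φ = P a := by
  obtain ⟨φ, h1, h2⟩ := hb.exists_commute hd
    (fun k => Emb b hd (d k) (P (d k) (Pi.single ⟨k, rfl⟩ 1))) fun k => pow_emb hb _ _
  refine ⟨φ, h1, fun a => (Pi.basisFun F _).ext ?_⟩
  rintro ⟨k, rfl⟩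
  simp only [hdE, LinearMap.comp_apply, Pi.basisFun_apply, emb_single, h2, prj_emb]

theorem exists_left [FiniteDimensional F V] (hB : B.Nondegenerate) (B' : LinearMap.BilinForm F V) :
    ∃ s : End F V, ∀ x y, B (s x) y = B' x y :=
  ⟨_, fun x y => BilinForm.symmCompOfNondegenerate_left_apply B' hB y x⟩

theorem commute_left {B' : LinearMap.BilinForm F V} (hB : B.Nondegenerate) (hu' : IsUnit u)
    (hu : ∀ x y, B (u x) (u y) = B x y) (hu2 : ∀ x y, B' (u x) (u y) = B' x y) {s : End F V}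
    (hs : ∀ x y, B (s x) y = B' x y) : Commute s u := by
  refine LinearMap.ext fun x => sub_eq_zero.1 (hB.1 _ fun y => ?_)
  obtain ⟨y, rfl⟩ := ((End.isUnit_iff _).1 hu').2 y
  simp [hs, hu, hu2]

theorem exists_equiv_of_gram [Finite F] (h2 : (2 : F) ≠ 0) (hb : IsJordanBasis b (u - 1))
    {B' : LinearMap.BilinForm F V} (hB' : B'.Nondegenerate) {ε : F} (hε : ∀ x y, B y x = ε * B x y)
    (hε' : ∀ x y, B' y x = ε * B' x y) (hu : ∀ x y, B (u x) (u y) = B x y)
    (hu2 : ∀ x y, B' (u x) (u y) = B' x y) (P : ∀ a, End F ({k // d k = a} → F))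
    (hP : ∀ a, (gram b hd (u - 1) B a).comp (P a) (P a) = gram b hd (u - 1) B' a) :
    ∃ c : End F V, Commute u c ∧ ∀ x y, B (c x) (c y) = B' x y := by
  have := Module.Finite.of_basis b
  have hu' : IsUnit u := by simpa using hb.isNilpotent.isUnit_add_one
  obtain ⟨φ, h3, h4⟩ := exists_lift (hd := hd) hb P
  have h5 : Commute φ u := by simpa using h3.add_right (Commute.one_right φ)
  obtain ⟨s, hs⟩ := exists_left hB' (B.comp φ φ)
  have h6 := commute_left hB' hu' hu2 (fun x y => by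
    simp only [BilinForm.comp_apply]
    rw [← End.mul_apply φ, ← End.mul_apply φ, h5.eq, End.mul_apply, End.mul_apply, hu]) hs
  have h7 : Commute s (u - 1) := h6.sub_right (Commute.one_right s)
  have h8 : ∀ a, hdE b hd a (s - 1) = 0 := fun a => by
    have a1 := gram_comp (hd := hd) hb hu2 (h7.sub_left (Commute.one_left _)) (Commute.one_left _) a
    have a2 := gram_comp (hd := hd) hb hu h3 h3 a
    rw [h4, hP] at a2
    refine LinearMap.ext fun c => (gram_nondeg (hd := hd) hb hu2 hB' a).1 _ fun c' => ?_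
    have a3 := LinearMap.congr_fun₂ a1 c c'
    have a4 := LinearMap.congr_fun₂ a2 c c'
    simp only [BilinForm.comp_apply, hdE, LinearMap.comp_apply, End.one_apply, prj_emb] at a3 ⊢
    rw [← a3, gram_apply, BilinForm.comp_apply, LinearMap.sub_apply, map_sub, LinearMap.sub_apply,
      hs, sub_eq_zero]
    exact a4
  obtain ⟨n, hn⟩ : IsNilpotent (s - 1) := by
    refine ⟨∑ a ∈ range (univ.sup d + 1), finrank F ({k // d k = a} → F) * a, ?_⟩
    have := (s - 1).aeval_self_charpoly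
    rw [charpoly_eq_prod (hd := hd) hb (h7.sub_left (Commute.one_left _)) fun k =>
      Nat.lt_succ_of_le (le_sup (mem_univ k))] at this
    simpa only [h8, LinearMap.charpoly_zero, ← pow_mul, prod_pow_eq_pow_sum, map_pow, aeval_X]
      using this
  obtain ⟨p, hp⟩ := CharP.exists F
  have hp' : Fact p.Prime := ⟨CharP.char_is_prime F p⟩
  obtain ⟨m, hm⟩ : Odd (p ^ n) := (hp'.out.odd_of_ne_two (by
    rintro rfl
    exact h2 (by exact_mod_cast CharP.cast_eq_zero F 2))).pow
  have h9 : s ^ (2 * m + 1) = 1 := by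
    rcases subsingleton_or_nontrivial (End F V) with h | h
    · exact Subsingleton.elim _ _
    have := charP_of_injective_algebraMap (algebraMap F (End F V)).injective p
    rw [← hm, ← sub_add_cancel s 1, add_pow_char_pow_of_commute _ _ (Commute.one_right _),
      pow_eq_zero_of_le (Nat.lt_pow_self hp'.out.one_lt).le hn]
    simp
  have h10 : ∀ k x y, B' ((s ^ k) x) y = B' x ((s ^ k) y) := fun k => by
    induction k with
    | zero => simp
    | succ k ih =>
      intro x y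
      rw [pow_succ', End.mul_apply, hs, ← pow_succ', pow_succ, End.mul_apply, ← ih, hε', hs]
      exact hε _ _
  refine ⟨φ * s ^ m, h5.symm.mul_right (h6.symm.pow_right m), fun x y => ?_⟩
  rw [End.mul_apply, End.mul_apply, ← BilinForm.comp_apply, ← hs, ← h10, ← End.mul_apply,
    ← End.mul_apply, ← pow_succ, ← pow_add, show m + 1 + m = 2 * m + 1 by ring, h9, End.one_apply]

end H64.Wall
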