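import Mathlib
import Cfsg.Agent.Lib.Wall.Unip
import Cfsg.Agent.Lib.MatConj.Split
import Cfsg.Agent.Lib.Wall.Dual

/-!
Wall's invariants of the forms preserved by a given endomorphism (odd characteristic).
-/

set_option autoImplicit false

namespace H64.Wall

open Polynomial Module H65 H64.CN Finset LinearMap QuadraticMap
open scoped Classical

variable {F V : Type*} [Field F] [AddCommGroup V] [Module F V]

/-- A non-degenerate `ε`-symmetric form preserved by `x`. -/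
structure Good (ε : F) (x : End F V) (B : LinearMap.BilinForm F V) : Prop where
  nd : B.Nondegenerate
  sym : ∀ v w, B w v = ε * B v w
  inv : ∀ v w, B (x v) (x w) = B v w

theorem Good.isUnit [FiniteDimensional F V] {ε : F} {x : End F V} {B : LinearMap.BilinForm F V}
    (h : Good ε x B) : IsUnit x := H66.isUnit_of_preserves h.nd h.inv

theorem polar_tq {B : LinearMap.BilinForm F V} (hs : ∀ v w, B w v = B v w) :
    polarBilin (BilinMap.toQuadraticMap B) = (2 : F) • B := LinearMap.ext₂ fun v w => by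
  rw [polarBilin_apply_apply, BilinMap.polar_toQuadraticMap, hs v w]
  simp [two_mul]

theorem nondeg_smul {B : LinearMap.BilinForm F V} (hB : B.Nondegenerate) {c : F} (hc : c ≠ 0) :
    (c • B).Nondegenerate :=
  ⟨fun x h => hB.1 x fun y => by simpa [hc] using h y, fun x h => hB.2 x fun y => by
    simpa [hc] using h y⟩

theorem gramDet_tq {B : LinearMap.BilinForm F V} (hs : ∀ v w, B w v = B v w) {ι : Type*} [Fintype ι]
    [DecidableEq ι] (b : Basis ι F V) : H66.gramDet (BilinMap.toQuadraticMap B) b =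
      2 ^ Fintype.card ι * (LinearMap.BilinForm.toMatrix b B).det := by
  rw [← Matrix.det_smul, ← map_smul, ← polar_tq hs, H66.gramDet]
  congr 1
  ext i j
  exact (LinearMap.BilinForm.toMatrix_apply b (polarBilin (BilinMap.toQuadraticMap B)) i j).symm

theorem exists_nonsq [Finite F] (h2 : (2 : F) ≠ 0) : ∃ α : F, ¬ IsSquare α :=
  FiniteField.exists_nonsquare fun h => h2 (by
    have := ringChar.Nat.cast_ringChar (R := F)
    rw [h] at this
    exact_mod_cast this)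

theorem exists_congr_symm [Finite F] [FiniteDimensional F V] (h2 : (2 : F) ≠ 0)
    {B B' : LinearMap.BilinForm F V} (hB : B.Nondegenerate) (hB' : B'.Nondegenerate)
    (hs : ∀ v w, B w v = B v w) (hs' : ∀ v w, B' w v = B' v w) {ι : Type*} [Fintype ι]
    [DecidableEq ι] (b : Basis ι F V)
    (h : IsSquare ((LinearMap.BilinForm.toMatrix b B').det * (LinearMap.BilinForm.toMatrix b B).det)) :
    ∃ P : V ≃ₗ[F] V, ∀ v w, B (P v) (P w) = B' v w := by
  obtain ⟨P, hP⟩ := H66.exists_equiv_of_isSquare_gramDet h2 (Q := BilinMap.toQuadraticMap B')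
    (Q' := BilinMap.toQuadraticMap B) (polar_tq hs' ▸ nondeg_smul hB' h2)
    (polar_tq hs ▸ nondeg_smul hB h2) rfl b b (by
      rw [gramDet_tq hs, gramDet_tq hs', mul_mul_mul_comm]
      exact (IsSquare.mul_self _).mul h)
  refine ⟨P, fun v w => mul_left_cancel₀ h2 ?_⟩
  have := H66.polar_map_of_isometry P.toLinearMap hP v w
  rwa [← polarBilin_apply_apply, ← polarBilin_apply_apply, polar_tq hs, polar_tq hs'] at this

theorem exists_val [Finite F] [FiniteDimensional F V] (h2 : (2 : F) ≠ 0)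
    {B : LinearMap.BilinForm F V} (hB : B.Nondegenerate) (hs : ∀ v w, B w v = B v w)
    (hV : 2 ≤ finrank F V) (c : F) : ∃ v, B v v = c := by
  obtain ⟨α, hα⟩ := exists_nonsq h2
  obtain ⟨n, hn⟩ : ∃ n, finrank F V = n + 1 + 1 := ⟨finrank F V - 2, by omega⟩
  obtain ⟨b, h1, h3, h4⟩ := H28.exists_basis_one_or_nonsquare h2 B (fun x y => hs y x) hB.1 hn α hα
  have h5 : (0 : Fin (n + 2)) ≠ Fin.last (n + 1) := (Fin.last_pos).ne
  obtain ⟨s, t, h⟩ := H28.exists_binary_repr h2 one_ne_zero (b := B (b (Fin.last _)) (b (Fin.last _)))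
    (by rcases h4 with h | h <;> rw [h]; exacts [one_ne_zero, by rintro rfl; simp at hα]) c
  refine ⟨s • b 0 + t • b (Fin.last _), ?_⟩
  simp only [map_add, map_smul, LinearMap.add_apply, LinearMap.smul_apply, smul_eq_mul, h1 _ _ h5,
    h1 _ _ h5.symm, h3 _ h5]
  linear_combination h

/-- All non-zero values of the Gram forms of odd level have prescribed square class. -/
def SP (κ : ℕ → Prop) (N : End F V) (B : LinearMap.BilinForm F V) : Prop :=
  ∀ a, Odd a → ∀ w, (N ^ a) w = 0 → B w ((N ^ (a - 1)) w) ≠ 0 →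
    (IsSquare (B w ((N ^ (a - 1)) w)) ↔ κ a)

theorem SP.restrict {κ : ℕ → Prop} {N : End F V} {B : LinearMap.BilinForm F V} (h : SP κ N B)
    {U : Submodule F V} {N' : End F U} (hN : ∀ v, (N' v : V) = N v) : SP κ N' (B.restrict U) := by
  intro a ha w hw
  have h1 : ∀ j, ((N' ^ j) w : V) = (N ^ j) w := fun j => intertwine_pow U.subtype hN j w
  simp only [BilinForm.restrict_apply, domRestrict_apply, h1]
  exact h a ha w (by rw [← h1, hw]; rfl)

theorem unip_pkg [Fintype F] [FiniteDimensional F V] (h2 : (2 : F) ≠ 0) {ε : F}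
    (hε : ε = 1 ∨ ε = -1) {u : End F V} (hN : IsNilpotent (u - 1)) :
    ∃ (t : ℕ) (d : Fin t → ℕ) (δ : LinearMap.BilinForm F V → ℕ → Fin 2), (∀ k, 0 < d k) ∧
      (∀ j, finrank F (ker ((u - 1) ^ j)) = ∑ k, min (d k) j) ∧
      (∀ B B', Good ε u B → Good ε u B' → δ B = δ B' →
        ∃ c, Commute u c ∧ ∀ v w, B (c v) (c w) = B' v w) ∧
      (∀ B a, δ B a ≠ 0 → ε * (-1) ^ (a - 1) = 1 ∧ 0 < #{k | d k = a}) ∧
      (∀ B a, Good ε u B → ε * (-1) ^ (a - 1) ≠ 1 → Even #{k | d k = a}) ∧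
      (ε = 1 → ∀ B B' s M, Good ε u B → Good ε u B' → (∀ v w, B (s v) w = B' v w) →
        finrank F V < M → quadraticChar F (LinearMap.det s) =
          (-1) ^ ∑ a ∈ range M, ((δ B a : ℕ) + δ B' a)) ∧
      (ε = 1 → ∀ κ B, Good ε u B → SP κ (u - 1) B → (∀ a, Odd a → #{k | d k = a} ≤ 1) ∧
        ∀ B', Good ε u B' → SP κ (u - 1) B' → δ B = δ B') := by
  obtain ⟨t, d, hd, hs⟩ := exists_nilModel hN
  obtain ⟨b, hb⟩ := hs.exists_isJordanBasis
  let D : LinearMap.BilinForm F V → ℕ → F := fun B a =>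
    (LinearMap.BilinForm.toMatrix (Pi.basisFun F _) (gram b hd (u - 1) B a)).det
  have hD : ∀ B a, Good ε u B → D B a ≠ 0 := fun B a hB =>
    (BilinForm.nondegenerate_iff_det_ne_zero _).1 (gram_nondeg hb hB.inv hB.nd a)
  have hD0 : ∀ B a, #{k | d k = a} = 0 → D B a = 1 := fun B a h => by
    have : IsEmpty {k // d k = a} := Fintype.card_eq_zero_iff.1 ((Fintype.card_subtype _).trans h)
    exact Matrix.det_isEmpty
  have h1 : ∀ a : ℕ, ε * (-1) ^ a ≠ 1 → ε * (-1) ^ a = -1 := fun a => by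
    rcases hε with rfl | rfl <;> rcases neg_one_pow_eq_or F a with h | h <;> simp [h]
  have halt : ∀ B a, Good ε u B → ε * (-1) ^ (a - 1) ≠ 1 → (gram b hd (u - 1) B a).IsAlt :=
    fun B a hB h c => by
      have := gram_symm (hd := hd) hb hB.inv hB.sym a c c
      rw [h1 _ h] at this
      exact (mul_eq_zero.1 (by linear_combination this)).resolve_left h2
  have hsym : ∀ B a, Good ε u B → ε * (-1) ^ (a - 1) = 1 → ∀ c c',
      gram b hd (u - 1) B a c' c = gram b hd (u - 1) B a c c' := fun B a hB h c c' => by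
    rw [gram_symm hb hB.inv hB.sym, h, one_mul]
  let δ : LinearMap.BilinForm F V → ℕ → Fin 2 := fun B a =>
    if ε * (-1) ^ (a - 1) = 1 ∧ ¬ IsSquare (D B a) then 1 else 0
  have hδ : ∀ B a, Good ε u B → ε * (-1) ^ (a - 1) = 1 →
      quadraticChar F (D B a) = (-1) ^ (δ B a : ℕ) := fun B a hB h => by
    by_cases h' : IsSquare (D B a)
    · simp [δ, h', (quadraticChar_one_iff_isSquare (hD B a hB)).2 h']
    · simp [δ, h, h', quadraticChar_neg_one_iff_not_isSquare.2 h']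
  refine ⟨t, d, δ, hd, fun j => by rw [(hs.pow j).finrank_ker, finrank_ker_nilModel_pow],
    fun B B' hB hB' h => ?_, fun B a h => ?_, fun B a hB h => ?_, ?_, ?_⟩
  · have : ∀ a, ∃ P, (gram b hd (u - 1) B a).comp P P = gram b hd (u - 1) B' a := fun a => by
      have a1 := gram_nondeg (hd := hd) hb hB.inv hB.nd a
      have a2 := gram_nondeg (hd := hd) hb hB'.inv hB'.nd a
      by_cases ha : ε * (-1) ^ (a - 1) = 1
      · obtain ⟨P, hP⟩ := exists_congr_symm h2 a1 a2 (hsym B a hB ha) (hsym B' a hB' ha)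
          (Pi.basisFun F _) (by
            refine (quadraticChar_one_iff_isSquare (mul_ne_zero (hD B' a hB') (hD B a hB))).1 ?_
            rw [map_mul, hδ B a hB ha, hδ B' a hB' ha, h, ← pow_add, ← two_mul, pow_mul]; simp)
        exact ⟨P, LinearMap.ext₂ hP⟩
      · obtain ⟨P, hP⟩ := H66.exists_equiv_alt _ _ a1 a2 (halt B a hB ha) (halt B' a hB' ha) rfl
        exact ⟨P, LinearMap.ext₂ hP⟩
    choose P hP using this
    exact exists_equiv_of_gram h2 hb hB'.nd hB.sym hB'.sym hB.inv hB'.inv P hP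
  · simp only [δ, ne_eq, ite_eq_right_iff, one_ne_zero, imp_false, not_not] at h
    exact ⟨h.1, Nat.pos_of_ne_zero fun h0 => h.2 (hD0 B a h0 ▸ IsSquare.one)⟩
  · simpa [Fintype.card_subtype] using GoodForm.even_finrank (⟨(gram_nondeg hb hB.inv hB.nd a).1,
      fun _ => halt B a hB h, fun h => absurd h (by decide)⟩ : GoodForm true _)
  · rintro rfl B B' s M hB hB' hs hM
    have a1 : Commute s (u - 1) :=
      (commute_left hB.nd hB.isUnit hB.inv hB'.inv hs).sub_right (Commute.one_right s)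
    rw [det_eq_prod (hd := hd) hb a1 (M := M) fun k => lt_of_le_of_lt (by
      rw [finrank_eq_card_basis b, Fintype.card_sigma]
      simpa using single_le_sum (f := d) (fun _ _ => Nat.zero_le _) (mem_univ k)) hM, map_prod,
      ← prod_pow_eq_pow_sum]
    refine prod_congr rfl fun a _ => ?_
    have a2 := gram_comp (hd := hd) hb hB.inv a1 (Commute.one_left _) a
    have a3 : D B' a = LinearMap.det (hdE b hd a s) * D B a := by
      rw [show B.comp s 1 = B' from LinearMap.ext₂ hs, show hdE b hd a 1 = 1 from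
        LinearMap.ext (prj_emb (b := b) (hd := hd) a)] at a2
      simp only [D, a2, LinearMap.BilinForm.toMatrix_comp (Pi.basisFun F _) (Pi.basisFun F _), Matrix.det_mul,
        Matrix.det_transpose, LinearMap.det_toMatrix, map_one, mul_one]
    have a4 : LinearMap.det (hdE b hd a s) ≠ 0 := left_ne_zero_of_mul (a3 ▸ hD B' a hB')
    rcases Nat.even_or_odd a with ha | ha
    · have : ∀ B, δ B a = 0 := fun B => if_neg fun h => by
        rcases a with _ | a
        · exact h.2 (hD0 B 0 (by simp [fun k => (hd k).ne']) ▸ IsSquare.one)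
        · rw [Nat.add_sub_cancel, (Nat.odd_add_one.not.1 (Nat.not_odd_iff_even.2 ha) |>
            not_not.1 |> fun h => (Nat.even_add_one.1 ha |> Nat.not_even_iff_odd.1)).neg_one_pow] at h
          exact h2 (by linear_combination -h.1)
      obtain ⟨a, rfl⟩ := ha
      rw [this, this, pow_add, ← _root_.sq, quadraticChar_sq_one' (pow_ne_zero _ a4)]
      rfl
    · have a5 : (1 : F) * (-1) ^ (a - 1) = 1 := by
        rw [(Nat.Odd.sub_odd ha odd_one).neg_one_pow, one_mul]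
      obtain ⟨a, rfl⟩ := ha
      rw [pow_add (-1), ← hδ B _ hB a5, ← hδ B' _ hB' a5, a3, pow_succ, pow_mul', map_mul, map_mul,
        quadraticChar_sq_one' (pow_ne_zero _ a4), mul_left_comm, ← _root_.sq,
        quadraticChar_sq_one (hD B _ hB), one_mul, mul_one]
  · rintro rfl κ B hB hS
    have a5 : ∀ a, Odd a → (1 : F) * (-1) ^ (a - 1) = 1 := fun a ha => by
      rw [(Nat.Odd.sub_odd ha odd_one).neg_one_pow, one_mul]
    have a1 : ∀ a, Odd a → #{k | d k = a} ≤ 1 := fun a ha => by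
      by_contra h
      have a2 := exists_val h2 (gram_nondeg (hd := hd) hb hB.inv hB.nd a) (hsym B a hB (a5 a ha))
        (by simp only [finrank_fintype_fun_eq_card, Fintype.card_subtype]; omega)
      obtain ⟨α, hα⟩ := exists_nonsq h2
      obtain ⟨v, hv⟩ := a2 1
      obtain ⟨w, hw⟩ := a2 α
      have a3 := hS a ha _ (pow_emb (hd := hd) hb a v)
      have a4 := hS a ha _ (pow_emb (hd := hd) hb a w)
      rw [← gram_apply] at a3 a4
      rw [hv] at a3
      rw [hw] at a4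
      exact hα ((a4 (by rintro rfl; simp at hα)).2 ((a3 one_ne_zero).1 IsSquare.one))
    refine ⟨a1, fun B' hB' hS' => funext fun a => if_congr (and_congr_right fun ha => not_congr ?_)
      rfl rfl⟩
    by_cases h : #{k | d k = a} = 0
    · rw [hD0 B a h, hD0 B' a h]
    obtain ⟨k, hk⟩ := card_ne_zero.1 h
    have a2 : Odd a := by
      have := hd k
      have := (mem_filter.1 hk).2
      by_contra h'
      rw [(Nat.Even.sub_odd (by omega) (Nat.not_odd_iff_even.1 h') odd_one).neg_one_pow] at ha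
      exact h2 (by linear_combination -ha)
    have : Subsingleton {k // d k = a} := Fintype.card_le_one_iff_subsingleton.1
      ((Fintype.card_subtype _).trans_le (a1 a a2))
    have a3 : ∀ B, Good 1 u B → SP κ (u - 1) B → (IsSquare (D B a) ↔ κ a) := fun B hB hS => by
      have a4 := hD B a hB
      simp only [D] at a4 ⊢
      rw [Matrix.det_eq_elem_of_subsingleton _ ⟨k, (mem_filter.1 hk).2⟩,
        LinearMap.BilinForm.toMatrix_apply] at a4 ⊢
      exact hS a a2 _ (pow_emb hb a _) a4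
    rw [a3 B hB hS, a3 B' hB' hS']

theorem fitting [FiniteDimensional F V] (f : End F V) {c : F} (hc : c * c = 1) :
    ∃ (U U' : Submodule F V), IsCompl U U' ∧
      (∀ s : End F V, Commute s f → (∀ u ∈ U, s u ∈ U) ∧ ∀ u ∈ U', s u ∈ U') ∧
      (∀ B : LinearMap.BilinForm F V, (∀ v w, B (f v) (f w) = B v w) →
        ∀ u ∈ U, ∀ w ∈ U', B u w = 0 ∧ B w u = 0) ∧
      (∃ n : ℕ, ∀ u ∈ U, ((c • f - 1) ^ n) u = 0) ∧ ∀ u ∈ U', (c • f - 1) u = 0 → u = 0 := by
  obtain ⟨n, h1, h2⟩ := ((LinearMap.eventually_isCompl_ker_pow_range_pow (c • f - 1)).and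
    (Filter.eventually_gt_atTop 0)).exists
  refine ⟨_, _, h1, fun s hs => ?_, fun B hB u hu w hw => ?_, ⟨n, fun u hu => hu⟩,
    fun u hu h => Submodule.disjoint_def.1 h1.disjoint _
      ((c • f - 1).iterateKer.monotone (show 1 ≤ n from h2) h) hu⟩
  · have h3 := ((hs.smul_right c).sub_right (Commute.one_right s)).pow_right n
    refine ⟨fun u hu => ?_, ?_⟩
    · rw [LinearMap.mem_ker] at hu ⊢
      rw [← End.mul_apply, ← h3.eq, End.mul_apply, hu, map_zero]
    · rintro _ ⟨v, rfl⟩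
      exact ⟨s v, by rw [← End.mul_apply, ← h3.eq, End.mul_apply]⟩
  · obtain ⟨w, rfl⟩ := hw
    have h3 : ∀ v w, B ((c • f) v) ((c • f) w) = B v w := fun v w => by
      simp [hB, ← mul_assoc, hc]
    exact ⟨orth_right h3 hu w, orth_left h3 hu w⟩

theorem finrank_ker_restrict {ψ : End F V} {U U' : Submodule F V} (h : IsCompl U U')
    (hU : ∀ u ∈ U, ψ u ∈ U) (hU' : ∀ u ∈ U', ψ u ∈ U') (hi : ∀ u ∈ U', ψ u = 0 → u = 0)
    {ψ' : End F U} (h' : ∀ u, (ψ' u : V) = ψ u) (j : ℕ) :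
    finrank F (ker (ψ ^ j)) = finrank F (ker (ψ' ^ j)) := by
  have h1 : ∀ u, ((ψ' ^ j) u : V) = (ψ ^ j) u := intertwine_pow U.subtype h' j
  have h2 : ∀ u ∈ U', (ψ ^ j) u = 0 → u = 0 := by
    induction j with
    | zero => simp
    | succ j ih =>
      exact fun u hu h0 => hi u hu (ih (intertwine_pow U.subtype h' j) _ (hU' u hu) (by
        rwa [pow_succ] at h0))
  have h3 : ker (ψ ^ j) ≤ U := fun v hv => by
    obtain ⟨a, b, rfl, -⟩ := Submodule.existsUnique_add_of_isCompl h v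
    rw [mem_ker, map_add, add_eq_zero_iff_eq_neg] at hv
    have h4 := End.pow_apply_mem_of_forall_mem j hU' _ b.2
    rw [h2 b b.2 (Submodule.disjoint_def.1 h.disjoint _ (by
      rw [← neg_mem_iff, ← hv]
      exact End.pow_apply_mem_of_forall_mem j hU _ a.2) h4), add_zero]
    exact a.2
  rw [← (Submodule.comapSubtypeEquivOfLe h3).finrank_eq,
    show Submodule.comap U.subtype (ker (ψ ^ j)) = ker (ψ' ^ j) by ext u; simp [← h1]]

theorem card_eq_rootMultiplicity {x : End F V} {u : ℕ → F[X]} (hu : Has x u) {c : F}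
    (hc : c * c = 1) {t : ℕ} {d : Fin t → ℕ} (hd : ∀ k, 0 < d k)
    (h : ∀ j, finrank F (ker ((c • x - 1) ^ j)) = ∑ k, min (d k) j) (a : ℕ) :
    #{k | d k = a} = rootMultiplicity c (u a) := by
  rw [rootMultiplicity_eq_multiplicity, if_neg (hu.monic a).ne_zero]
  obtain ⟨t', p, e, hp, hm, he, hs, hu⟩ := hu
  rw [hu, multiplicity_eq_of_emultiplicity_eq_some
    (emult_prod _ p hp hm (irreducible_X_sub_C c) (monic_X_sub_C c)), filter_comm]
  rcases Nat.eq_zero_or_pos a with rfl | ha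
  · simp [fun k => (hd k).ne', fun k => (he k).ne']
  refine card_filter_eq_of_sum_min _ d _ e (fun j => ?_) a ha
  have := kerDim_model_irred_pow p e hp hm (irreducible_X_sub_C c) (monic_X_sub_C c) j
  rw [natDegree_X_sub_C, mul_one, ← hs.kerDim_eq, kerDim] at this
  rw [← this, ← h, show c • x - 1 = c • aeval x (X - C c) by
    simp [smul_sub, Algebra.algebraMap_eq_smul_one, smul_smul, hc], _root_.smul_pow,
    LinearMap.ker_smul _ _ (pow_ne_zero _ (left_ne_zero_of_mul_eq_one hc)), map_pow]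

theorem step [Fintype F] [FiniteDimensional F V] (h2 : (2 : F) ≠ 0) {ε : F}
    (hε : ε = 1 ∨ ε = -1) (x : End F V) {c : F} (hc : c * c = 1) :
    ∃ (U : Submodule F V) (y : End F U) (t : ℕ) (d : Fin t → ℕ)
      (δ : LinearMap.BilinForm F V → ℕ → Fin 2), (∀ v, (y v : V) = x v) ∧
      (∀ v, (c • y - 1) v = 0 → v = 0) ∧
      (∀ j, finrank F (ker ((-c • x - 1) ^ j)) = finrank F (ker ((-c • y - 1) ^ j))) ∧
      (∀ B, Good ε x B → Good ε y (B.restrict U)) ∧ (∀ k, 0 < d k) ∧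
      (∀ j, finrank F (ker ((c • x - 1) ^ j)) = ∑ k, min (d k) j) ∧
      (∀ B B', Good ε x B → Good ε x B' → δ B = δ B' →
        (∃ g, Commute y g ∧ ∀ v w : U, B (g v) (g w) = B' v w) →
        ∃ g, Commute x g ∧ ∀ v w, B (g v) (g w) = B' v w) ∧
      (∀ B a, δ B a ≠ 0 → ε * (-1) ^ (a - 1) = 1 ∧ 0 < #{k | d k = a}) ∧
      (∀ B a, Good ε x B → ε * (-1) ^ (a - 1) ≠ 1 → Even #{k | d k = a}) ∧
      (ε = 1 → ∀ B B' s M, Good ε x B → Good ε x B' → (∀ v w, B (s v) w = B' v w) →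
        finrank F V < M → ∃ s' : End F U, (∀ v w : U, B (s' v) w = B' v w) ∧
          quadraticChar F (LinearMap.det s) =
          (-1) ^ (∑ a ∈ range M, ((δ B a : ℕ) + δ B' a)) * quadraticChar F (LinearMap.det s')) ∧
      (ε = 1 → ∀ κ B, Good ε x B → SP κ (c • x - 1) B → (∀ a, Odd a → #{k | d k = a} ≤ 1) ∧
        ∀ B', Good ε x B' → SP κ (c • x - 1) B' → δ B = δ B') := by
  obtain ⟨U, U', h1, h3, h4, ⟨n, h5⟩, h6⟩ := fitting x hc
  obtain ⟨hU, hU'⟩ := h3 x (Commute.refl x)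
  have hN : IsNilpotent (c • x.restrict hU - 1) := ⟨n, LinearMap.ext fun v => Subtype.ext
    ((intertwine_pow U.subtype (g := c • x - 1) (fun _ => rfl) n v).trans (h5 _ v.2))⟩
  obtain ⟨t, d, δ, hd, a1, a2, a3, a4, a5, a6⟩ := unip_pkg h2 hε hN
  have g1 : ∀ B, Good ε x B → Good ε (c • x.restrict hU) (B.restrict U) := fun B hB =>
    ⟨H66.nondegenerate_restrict_of_isCompl B hB.nd h1 (h4 B hB.inv), fun v w => hB.sym _ _,
      fun v w => by simp [hB.inv, ← mul_assoc, hc]⟩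
  have g2 : ∀ κ B, SP κ (c • x - 1) B → SP κ (c • x.restrict hU - 1) (B.restrict U) :=
    fun κ B h => h.restrict fun _ => rfl
  have i1 : ∀ e : F, (∀ u ∈ U, (e • x - 1) u ∈ U) ∧ ∀ u ∈ U', (e • x - 1) u ∈ U' := fun e =>
    h3 _ (((Commute.refl x).smul_left e).sub_left (Commute.one_left x))
  refine ⟨U', x.restrict hU', t, d, fun B => δ (B.restrict U), fun _ => rfl,
    fun v hv => Subtype.ext (h6 _ v.2 (congrArg Subtype.val hv)), fun j => ?_, fun B hB =>
    ⟨H66.nondegenerate_restrict_of_isCompl B hB.nd h1.symm fun u hu w hw =>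
      (h4 B hB.inv w hw u hu).symm, fun v w => hB.sym _ _, fun v w => hB.inv _ _⟩, hd, fun j => ?_,
    fun B B' hB hB' h ⟨g, b1, b2⟩ => ?_, fun B => a3 _, fun B a hB => a4 _ a (g1 B hB),
    fun h B B' s M hB hB' hs hM => ?_, fun h κ B hB hS => ?_⟩
  · refine finrank_ker_restrict h1.symm (i1 _).2 (i1 _).1 (fun v hv h0 => ?_) (fun _ => rfl) j
    have b1 : IsUnit (c • x.restrict hU - 1 + (2 : F) • 1) := by
      have := hN.isUnit_add_left_of_commute ((IsUnit.mk0 _ h2).map (algebraMap F (End F U)))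
        (Algebra.commutes _ _).symm
      rwa [add_comm, Algebra.algebraMap_eq_smul_one] at this
    refine congrArg Subtype.val ((injective_iff_map_eq_zero _).1 ((End.isUnit_iff _).1 b1).1
      ⟨v, hv⟩ (Subtype.ext ?_))
    have : (c • x - 1 + (2 : F) • 1) v = -((-c • x - 1) v) := by simp [two_smul, add_comm]
    exact this.trans (by rw [h0, neg_zero]; rfl)
  · rw [← a1]
    exact finrank_ker_restrict h1 (i1 _).1 (i1 _).2 h6 (fun _ => rfl) j
  · obtain ⟨g', b3, b4⟩ := a2 _ _ (g1 B hB) (g1 B' hB') h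
    obtain ⟨k, b5, b6, -⟩ := H66.exists_commute_equiv_forms_glue B B' x h1 hU hU' (h4 B hB.inv)
      (h4 B' hB'.inv) g' (by simpa [smul_smul, hc] using b3.smul_left c) b4 g b1 b2
    exact ⟨k, b5, b6⟩
  · obtain ⟨b1, b2⟩ := h3 s (commute_left hB.nd hB.isUnit hB.inv hB'.inv hs)
    refine ⟨s.restrict b2, fun v w => hs _ _, ?_⟩
    rw [← a5 h _ _ (s.restrict b1) M (g1 B hB) (g1 B' hB') (fun v w => hs _ _)
      (U.finrank_le.trans_lt hM), ← map_mul, ← LinearMap.det_prodMap,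
      (similar_of_isCompl b1 b2 h1).det_eq]
  · obtain ⟨b1, b2⟩ := a6 h κ _ (g1 B hB) (g2 κ B hS)
    exact ⟨b1, fun B' hB' hS' => b2 _ (g1 B' hB') (g2 κ B' hS')⟩

/-- Admissible discriminant data at the eigenvalue `c`; the symmetric levels are `≡ r mod 2`. -/
structure Adm (r : ℕ) (c : F) (u : ℕ → F[X]) (δ : ℕ → Fin 2) : Prop where
  pos : ∀ a, δ a ≠ 0 → a % 2 = r ∧ 0 < rootMultiplicity c (u a)
  ev : ∀ a, a % 2 ≠ r → Even (rootMultiplicity c (u a))

theorem adm_of (h2 : (2 : F) ≠ 0) {ε c : F} {r : ℕ} (hε : ε = 1 ∧ r = 1 ∨ ε = -1 ∧ r = 0)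
    {u : ℕ → F[X]} {δ : ℕ → Fin 2} (h0 : u 0 = 1)
    (h1 : ∀ a, δ a ≠ 0 → ε * (-1) ^ (a - 1) = 1 ∧ 0 < rootMultiplicity c (u a))
    (h3 : ∀ a, ε * (-1) ^ (a - 1) ≠ 1 → Even (rootMultiplicity c (u a))) : Adm r c u δ := by
  have h4 : (-1 : F) ≠ 1 := fun h => h2 (by linear_combination -h)
  have key : ∀ a, ε * (-1) ^ a = 1 ↔ (a + 1) % 2 = r := fun a => by
    rcases hε with ⟨rfl, rfl⟩ | ⟨rfl, rfl⟩
    · rw [one_mul, neg_one_pow_eq_one_iff_even h4, Nat.even_iff]; omega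
    · rw [← pow_succ', neg_one_pow_eq_one_iff_even h4, Nat.even_iff]
  have h5 : rootMultiplicity c (u 0) = 0 := by rw [h0, ← C_1, rootMultiplicity_C]
  refine ⟨fun a ha => ⟨?_, (h1 a ha).2⟩, fun a ha => ?_⟩ <;> rcases a with _ | a
  · exact absurd (h1 0 ha).2 (by simp [h5])
  · exact (key a).1 (h1 _ ha).1
  · simp [h5]
  · exact h3 _ (mt (key a).1 ha)

theorem chi_det_eq_one [Fintype F] [FiniteDimensional F V] {B B' : LinearMap.BilinForm F V}
    {s g : End F V} (hB' : B'.Nondegenerate) (hB : B.Nondegenerate)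
    (hs : ∀ v w, B (s v) w = B' v w) (hg : ∀ v w, B (g v) (g w) = B' v w) :
    quadraticChar F (LinearMap.det s) = 1 := by
  let b := Module.finBasis F V
  have h1 := congrArg Matrix.det (LinearMap.BilinForm.toMatrix_comp b b B s 1)
  have h2 := congrArg Matrix.det (LinearMap.BilinForm.toMatrix_comp b b B g g)
  rw [show B.comp s 1 = B' from LinearMap.ext₂ hs] at h1
  rw [show B.comp g g = B' from LinearMap.ext₂ hg] at h2
  simp only [Matrix.det_mul, Matrix.det_transpose, LinearMap.det_toMatrix, map_one, mul_one] at h1 h2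
  rw [h2, mul_right_comm] at h1
  rw [← mul_right_cancel₀ ((BilinForm.nondegenerate_iff_det_ne_zero b).1 hB) h1, ← _root_.sq,
    quadraticChar_sq_one' ((LinearMap.isUnit_iff_isUnit_det _).1
      (H66.isUnit_of_preserves hB' hg)).ne_zero]

theorem isUnit_sq_sub_one [FiniteDimensional F V] {z : End F V} (h1 : ∀ v, (z - 1) v = 0 → v = 0)
    (h2 : ∀ v, ((-1 : F) • z - 1) v = 0 → v = 0) : IsUnit (z * z - 1) := by
  rw [show z * z - 1 = (z - 1) * (z + 1) by noncomm_ring]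
  refine IsUnit.mul ?_ ?_ <;> rw [LinearMap.isUnit_iff_ker_eq_bot, LinearMap.ker_eq_bot']
  · exact h1
  · exact fun v hv => h2 v (by rw [neg_one_smul, ← neg_add', LinearMap.neg_apply, hv, neg_zero])

theorem exists_inv [Fintype F] [FiniteDimensional F V] (h2 : (2 : F) ≠ 0) {ε : F} {r : ℕ}
    (hε : ε = 1 ∧ r = 1 ∨ ε = -1 ∧ r = 0) {x : End F V} {u : ℕ → F[X]} (hu : Has x u) :
    ∃ δ₁ δ₂ : LinearMap.BilinForm F V → ℕ → Fin 2,
      (∀ B B', Good ε x B → Good ε x B' → δ₁ B = δ₁ B' → δ₂ B = δ₂ B' →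
        ∃ g, Commute x g ∧ ∀ v w, B (g v) (g w) = B' v w) ∧
      (∀ B, Good ε x B → Adm r 1 u (δ₁ B) ∧ Adm r (-1) u (δ₂ B)) ∧
      (ε = 1 → ∀ B B' (g : End F V) M, Good ε x B → Good ε x B' → (∀ v w, B (g v) (g w) = B' v w) →
        finrank F V < M → Even (∑ a ∈ range M, ((δ₁ B a : ℕ) + δ₁ B' a) +
          ∑ a ∈ range M, ((δ₂ B a : ℕ) + δ₂ B' a))) ∧
      (ε = 1 → ∀ κ B, Good ε x B → SP κ (x - 1) B → SP κ (-x - 1) B →
        (∀ a, Odd a → rootMultiplicity 1 (u a) ≤ 1 ∧ rootMultiplicity (-1) (u a) ≤ 1) ∧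
        ∀ B', Good ε x B' → SP κ (x - 1) B' → SP κ (-x - 1) B' → δ₁ B = δ₁ B' ∧ δ₂ B = δ₂ B') := by
  have hε' : ε = 1 ∨ ε = -1 := hε.imp (·.1) (·.1)
  obtain ⟨U, y, t, d, δ, a1, a2, a3, a4, a5, a6, a7, a8, a9, a10, a11⟩ := step h2 hε' x (one_mul 1)
  obtain ⟨U', z, t', d', δ', b1, b2, -, b4, b5, b6, b7, b8, b9, b10, b11⟩ :=
    step h2 hε' y (c := -1) (by simp)
  have c1 := card_eq_rootMultiplicity hu (one_mul 1) a5 a6
  have c2 := card_eq_rootMultiplicity hu (c := -1) (by simp) b5 fun j => (a3 j).trans (b6 j)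
  simp only [c1] at a8 a9 a11
  simp only [c2] at b8 b9 b11
  have c3 : IsUnit (z * z - 1) := isUnit_sq_sub_one
    (fun v hv => Subtype.ext (a2 _ (by simpa [b1] using congrArg Subtype.val hv))) b2
  have c4 : ∀ B B', Good ε x B → Good ε x B' → ∃ g, IsUnit g ∧ Commute z g ∧ ∀ v w : U',
      (B.restrict U) (g v) (g w) = (B'.restrict U) v w := fun B B' hB hB' =>
    H66.exists_commute_equiv_forms _ _ (b4 _ (a4 _ hB)).nd (b4 _ (a4 _ hB')).nd (b4 _ (a4 _ hB)).sym
      (b4 _ (a4 _ hB')).sym z (b4 _ (a4 _ hB)).inv (b4 _ (a4 _ hB')).inv c3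
  have c6 : ∀ κ B, SP κ (-x - 1) B → SP κ ((-1 : F) • y - 1) (B.restrict U) := fun κ B h =>
    h.restrict fun v => by simp [a1]
  refine ⟨δ, fun B => δ' (B.restrict U), fun B B' hB hB' h h' => a7 B B' hB hB' h
    (b7 _ _ (a4 B hB) (a4 B' hB') h' ((c4 B B' hB hB').imp fun _ h => h.2)), fun B hB =>
    ⟨adm_of h2 hε hu.zero (a8 B) fun a => a9 B a hB, adm_of h2 hε hu.zero (b8 _)
      fun a => b9 _ a (a4 B hB)⟩, fun h B B' g M hB hB' hg hM => ?_, fun h κ B hB hS hS' => ?_⟩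
  · obtain ⟨s, hs⟩ := exists_left hB.nd B'
    obtain ⟨s', d1, d2⟩ := a10 h B B' s M hB hB' hs hM
    obtain ⟨s'', d3, d4⟩ := b10 h _ _ s' M (a4 B hB) (a4 B' hB') d1 (U.finrank_le.trans_lt hM)
    obtain ⟨g', -, -, d5⟩ := c4 B B' hB hB'
    rw [d4, chi_det_eq_one hB'.nd hB.nd hs hg, chi_det_eq_one (b4 _ (a4 _ hB')).nd
      (b4 _ (a4 _ hB)).nd d3 d5, mul_one, ← pow_add] at d2
    exact (neg_one_pow_eq_one_iff_even (by decide)).1 d2.symm
  · obtain ⟨d1, d2⟩ := a11 h κ B hB (by rwa [one_smul])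
    obtain ⟨d3, d4⟩ := b11 h κ _ (a4 B hB) (c6 κ B hS')
    exact ⟨fun a ha => ⟨d1 a ha, d3 a ha⟩, fun B' hB' e1 e2 =>
      ⟨d2 B' hB' (by rwa [one_smul]), d4 _ (a4 B' hB') (c6 κ B' e2)⟩⟩

theorem Good.du_eq [Finite F] [FiniteDimensional F V] {ε : F} {x : End F V}
    {B : LinearMap.BilinForm F V} (h : Good ε x B) {u : ℕ → F[X]} (hu : Has x u) (k : ℕ) :
    du (RingHom.id F) (u k) = u k := by
  let b := Module.finBasis F V
  refine du_eq_of_pres (A := toMatrix b b x) (P := LinearMap.BilinForm.toMatrix b B) (fun _ => rfl)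
    ((Matrix.isUnit_iff_isUnit_det _).2 ((BilinForm.nondegenerate_iff_det_ne_zero b).1 h.nd).isUnit)
    ?_ (hu.of_similar (similar_toMatrix _ _).symm) k
  exact (LinearMap.BilinForm.toMatrix_comp b b B x x).symm.trans
    (congrArg _ (LinearMap.ext₂ h.inv))

/-- Wall's data for isometries in dimension `N`. -/
structure WD (r N : ℕ) (u : ℕ → F[X]) (δ₁ δ₂ : ℕ → Fin 2) : Prop where
  isD : IsD N u
  du : ∀ k, du (RingHom.id F) (u k) = u k
  one : Adm r 1 u δ₁
  neg : Adm r (-1) u δ₂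

theorem exists_data [Fintype F] [FiniteDimensional F V] (h2 : (2 : F) ≠ 0) {ε : F} {r : ℕ}
    (hε : ε = 1 ∧ r = 1 ∨ ε = -1 ∧ r = 0) {B : LinearMap.BilinForm F V} (hB : B.Nondegenerate)
    (hs : ∀ v w, B w v = ε * B v w) {G : Type*} [Group G] (ρ : G →* End F V)
    (hρ : Function.Injective ρ) (h1 : ∀ g v w, B (ρ g v) (ρ g w) = B v w)
    (h3 : ∀ f : End F V, (∀ v w, B (f v) (f w) = B v w) → ∃ g, ρ g = f) :
    ∃ (u : ConjClasses G → ℕ → F[X]) (δ₁ δ₂ : ConjClasses G → ℕ → Fin 2),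
      (∀ C C', u C = u C' → δ₁ C = δ₁ C' → δ₂ C = δ₂ C' → C = C') ∧
      (∀ C, WD r (finrank F V) (u C) (δ₁ C) (δ₂ C)) ∧
      (ε = 1 → ∀ C C' M, u C = u C' → finrank F V < M →
        Even (∑ a ∈ range M, ((δ₁ C a : ℕ) + δ₁ C' a) + ∑ a ∈ range M, ((δ₂ C a : ℕ) + δ₂ C' a))) ∧
      (ε = 1 → ∀ κ C, (∀ g, ConjClasses.mk g = C → SP κ (ρ g - 1) B ∧ SP κ (-ρ g - 1) B) →
        (∀ a, Odd a → rootMultiplicity 1 (u C a) ≤ 1 ∧ rootMultiplicity (-1) (u C a) ≤ 1) ∧
        ∀ C', (∀ g, ConjClasses.mk g = C' → SP κ (ρ g - 1) B ∧ SP κ (-ρ g - 1) B) →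
          u C = u C' → C = C') := by
  choose o ho using fun C : ConjClasses G => ConjClasses.mk_surjective C
  choose u hu using fun C => exists_has (ρ (o C))
  have : ∀ w : ℕ → F[X], ∃ x : End F V, (∃ C, u C = w) → Has x w := fun w => by
    by_cases h : ∃ C, u C = w
    · obtain ⟨C, rfl⟩ := h
      exact ⟨_, fun _ => hu C⟩
    · exact ⟨0, fun h' => absurd h' h⟩
  choose x hx using this
  choose e he using fun C => (hx _ ⟨C, rfl⟩).similar (hu C)
  choose u' hu' using fun w => exists_has (x w)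
  choose δ₁ δ₂ a1 a2 a3 a4 using fun w => exists_inv h2 hε (hu' w)
  have g0 : ∀ C, u' (u C) = u C := fun C => (hu' _).unique (hx _ ⟨C, rfl⟩)
  have g1 : ∀ C, Good ε (x (u C)) (B.comp (e C) (e C)) := fun C =>
    ⟨⟨fun v h => (e C).map_eq_zero_iff.1 (hB.1 _ fun w => by simpa using h ((e C).symm w)),
      fun v h => (e C).map_eq_zero_iff.1 (hB.2 _ fun w => by simpa using h ((e C).symm w))⟩,
      fun v w => hs _ _, fun v w => by simp [he, h1]⟩
  have g2 : ∀ C C', u C = u C' → δ₁ (u C) (B.comp (e C) (e C)) =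
      δ₁ (u C') (B.comp (e C') (e C')) → δ₂ (u C) (B.comp (e C) (e C)) =
      δ₂ (u C') (B.comp (e C') (e C')) → C = C' := fun C C' h b1 b2 => by
    have b3 := g1 C'
    have b4 := he C'
    simp only [← h] at b1 b2 b3 b4
    obtain ⟨g, b5, b6⟩ := a1 _ _ _ (g1 C) b3 b1 b2
    obtain ⟨k, hk⟩ := h3 (e C ∘ₗ g ∘ₗ (e C').symm) fun v w => by simpa using b6 ((e C').symm v) ((e C').symm w)
    rw [← ho C, ← ho C', eq_comm, ConjClasses.mk_eq_mk_iff_isConj, isConj_iff]
    refine ⟨k, mul_inv_eq_iff_eq_mul.2 (hρ (LinearMap.ext fun v => ?_))⟩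
    obtain ⟨v, rfl⟩ := (e C').surjective v
    simp only [map_mul, hk, End.mul_apply, ← b4, LinearMap.comp_apply, LinearEquiv.coe_coe,
      LinearEquiv.symm_apply_apply, ← he]
    exact congrArg _ (LinearMap.congr_fun b5.eq v).symm
  have g3 : ∀ κ C (p : End F V → End F V), (∀ f g : End F V, (∀ v, e C (f v) = g (e C v)) →
      ∀ v, e C (p f v) = p g (e C v)) → SP κ (p (ρ (o C))) B →
      SP κ (p (x (u C))) (B.comp (e C) (e C)) := fun κ C p hp h a ha w hw => by
    have := fun j => intertwine_pow (e C).toLinearMap (hp _ _ (he C)) j w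
    simp only [BilinForm.comp_apply, this]
    exact h a ha _ (by rw [← this, hw, map_zero])
  have g4 := fun κ C => g3 κ C (· - 1) fun f g h v => by simp [h]
  have g5 := fun κ C => g3 κ C (-· - 1) fun f g h v => by simp [h]
  refine ⟨u, fun C => δ₁ (u C) (B.comp (e C) (e C)), fun C => δ₂ (u C) (B.comp (e C) (e C)),
    g2, fun C => ⟨(hx _ ⟨C, rfl⟩).isD ((LinearMap.isUnit_iff_isUnit_det _).1 (g1 C).isUnit).ne_zero,
      (g1 C).du_eq (hx _ ⟨C, rfl⟩), g0 C ▸ (a2 _ _ (g1 C)).1, g0 C ▸ (a2 _ _ (g1 C)).2⟩,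
    fun h C C' M h' hM => ?_, fun h κ C hC => ?_⟩
  · have b3 := g1 C'
    simp only [← h'] at b3 ⊢
    exact a3 _ h _ _ ((e C').trans (e C).symm).toLinearMap M (g1 C) b3 (fun v w => by simp) hM
  · obtain ⟨b1, b2⟩ := a4 _ h κ _ (g1 C) (g4 κ C (hC _ (ho C)).1) (g5 κ C (hC _ (ho C)).2)
    refine ⟨g0 C ▸ b1, fun C' hC' h' => ?_⟩
    have b3 := g1 C'
    have b4 := g4 κ C' (hC' _ (ho C')).1
    have b5 := g5 κ C' (hC' _ (ho C')).2
    simp only [← h'] at b3 b4 b5
    obtain ⟨b6, b7⟩ := b2 _ b3 b4 b5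
    exact g2 C C' h' (by simpa only [← h'] using b6) (by simpa only [← h'] using b7)

end H64.Wall
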