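import Mathlib

/-!
Bounds for the coefficients of generating functions given by infinite products.
-/

set_option autoImplicit false

namespace H64.Wall

open Finset

theorem count_le {ι L α : Type*} [DecidableEq ι] (I : Finset ι) {i0 : ι} (A : ι → Finset L)
    (d : ι → L → ℕ) {x C : ℝ} (hx : 0 < x) (n : ℕ)
    (h0 : ∀ j, #{l ∈ A i0 | d i0 l = j} * x ^ j ≤ C) (T : Finset α) (φ : α → ι → L)
    (hφ : ∀ t ∈ T, ∀ t' ∈ T, φ t i0 = φ t' i0 → (∀ i ∈ I, φ t i = φ t' i) → t = t')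
    (hA0 : ∀ t ∈ T, φ t i0 ∈ A i0) (hA : ∀ t ∈ T, ∀ i ∈ I, φ t i ∈ A i)
    (hd : ∀ t ∈ T, d i0 (φ t i0) + ∑ i ∈ I, d i (φ t i) = n) :
    #T * x ^ n ≤ C * ∏ i ∈ I, ∑ l ∈ A i, x ^ d i l := by
  classical
  rw [prod_sum, mul_sum, card_eq_sum_card_fiberwise (f := fun t i (_ : i ∈ I) => φ t i) (s := T)
    (t := I.pi A) fun t ht => mem_coe.2 (mem_pi.2 (hA t ht)), Nat.cast_sum, sum_mul]
  refine sum_le_sum fun g _ => ?_
  have hC : 0 ≤ C := le_trans (by positivity) (h0 0)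
  rcases ({t ∈ T | (fun i (_ : i ∈ I) => φ t i) = g} : Finset α).eq_empty_or_nonempty with
    h | ⟨t0, ht0⟩
  · rw [h, card_empty, Nat.cast_zero, zero_mul]; positivity
  obtain ⟨a1, rfl⟩ := mem_filter.1 ht0
  rw [← hd t0 a1, pow_add, ← mul_assoc, prod_attach I fun i => x ^ d i (φ t0 i),
    prod_pow_eq_pow_sum]
  refine mul_le_mul_of_nonneg_right (le_trans ?_ (h0 (d i0 (φ t0 i0)))) (by positivity)
  refine mul_le_mul_of_nonneg_right (Nat.cast_le.2 ?_) (by positivity)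
  have e : ∀ t ∈ ({t ∈ T | (fun i (_ : i ∈ I) => φ t i) = fun i _ => φ t0 i} : Finset α),
      ∀ i ∈ I, φ t i = φ t0 i := fun t ht i hi => congrFun (congrFun (mem_filter.1 ht).2 i) hi
  refine card_le_card_of_injOn (fun t => φ t i0) (fun t ht => ?_) fun t ht t' ht' h => ?_
  · have b1 := hd t (mem_filter.1 ht).1
    have b2 := hd t0 a1
    rw [sum_congr rfl fun i hi => by rw [e t ht i hi]] at b1
    exact mem_coe.2 (mem_filter.2 ⟨hA0 t (mem_filter.1 ht).1, show d i0 (φ t i0) = _ by omega⟩)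
  · exact hφ t (mem_filter.1 ht).1 t' (mem_filter.1 ht').1 h fun i hi =>
      (e t ht i hi).trans (e t' ht' i hi).symm

theorem sum_pow_le {L : Type*} (A : Finset L) (d : L → ℕ) (a : ℕ → ℝ) {y S : ℝ} (hy : 0 ≤ y)
    (ha : ∀ j, #{l ∈ A | d l = j} ≤ a j) (hS : ∀ N, ∑ j ∈ range N, a j * y ^ j ≤ S) :
    ∑ l ∈ A, y ^ d l ≤ S := by
  classical
  refine le_trans ?_ (hS (A.sup d + 1))
  rw [← sum_fiberwise_of_maps_to (g := d) (t := range (A.sup d + 1))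
    fun l hl => mem_range.2 (Nat.lt_succ_of_le (le_sup hl))]
  refine sum_le_sum fun j _ => ?_
  rw [sum_congr rfl (g := fun _ => y ^ j) fun l hl => by rw [(mem_filter.1 hl).2], sum_const,
    nsmul_eq_mul]
  exact mul_le_mul_of_nonneg_right (ha j) (by positivity)

theorem geom_le {r : ℝ} (h0 : 0 ≤ r) (h1 : r < 1) (N : ℕ) : ∑ j ∈ range N, r ^ j ≤ (1 - r)⁻¹ := by
  rw [← tsum_geometric_of_lt_one h0 h1]
  exact (summable_geometric_of_lt_one h0 h1).sum_le_tsum _ fun _ _ => by positivity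

theorem prod_le_tail (f : ℕ → ℝ) (c x : ℝ) (hc : 0 ≤ c) (hx : 0 ≤ x) {a K : ℕ} (haK : a ≤ K)
    (h1 : ∀ k, a ≤ k → 1 ≤ f k)
    (hf : ∀ k, K ≤ k → f k * (1 + c * x ^ (k + 1)) ≤ 1 + c * x ^ k) (n : ℕ) :
    ∏ k ∈ Ico a n, f k ≤ (∏ k ∈ Ico a K, f k) * (1 + c * x ^ K) := by
  have h2 : ∀ n, 0 ≤ ∏ k ∈ Ico a n, f k := fun n =>
    prod_nonneg fun k hk => zero_le_one.trans (h1 k (mem_Ico.1 hk).1)
  have h3 : ∀ n, ∏ k ∈ Ico a n, f k ≤ (∏ k ∈ Ico a n, f k) * (1 + c * x ^ n) := fun n =>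
    le_mul_of_one_le_right (h2 n) (le_add_of_nonneg_right (by positivity))
  rcases le_total n K with h | h
  · refine le_trans ?_ (h3 K)
    exact prod_le_prod_of_subset_of_one_le (Ico_subset_Ico_right h)
      (fun k hk => zero_le_one.trans (h1 k (mem_Ico.1 hk).1)) fun k hk _ => h1 k (mem_Ico.1 hk).1
  · refine (h3 n).trans ?_
    induction n, h using Nat.le_induction with
    | base => exact le_rfl
    | succ n h ih =>
      rw [prod_Ico_succ_top (haK.trans h), mul_assoc]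
      exact (mul_le_mul_of_nonneg_left (hf n h) (h2 n)).trans ih

/-- The bound for products of factors `(1 + y) ^ a / (1 - y)`. -/
theorem prod_le_num (g : ℝ → ℝ) (x x0 c : ℝ) (hx : 0 ≤ x) (hx0 : x ≤ x0) (hx1 : x0 ≤ 1) (hc : 0 ≤ c)
    {a K : ℕ} (haK : a ≤ K) (hg : ∀ y z, 0 ≤ y → y ≤ z → z ≤ x0 ^ a → 1 ≤ g y ∧ g y ≤ g z)
    (hf : ∀ y, 0 ≤ y → y ≤ x0 ^ K → g y * (1 + c * (y * x0)) ≤ 1 + c * y) (n : ℕ) :
    ∏ k ∈ Ico a n, g (x ^ k) ≤ (∏ k ∈ Ico a K, g (x0 ^ k)) * (1 + c * x0 ^ K) := by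
  have h0 := hx.trans hx0
  have h1 : ∀ k, a ≤ k → 1 ≤ g (x ^ k) ∧ g (x ^ k) ≤ g (x0 ^ k) := fun k hk =>
    hg _ _ (by positivity) (pow_le_pow_left₀ hx hx0 k) (pow_le_pow_of_le_one h0 hx1 hk)
  refine le_trans (prod_le_prod (fun k hk => zero_le_one.trans (h1 k (mem_Ico.1 hk).1).1)
    fun k hk => (h1 k (mem_Ico.1 hk).1).2) ?_
  exact prod_le_tail (fun k => g (x0 ^ k)) c x0 hc h0 haK (fun k hk => (h1 k hk).1.trans (h1 k hk).2)
    (fun k hk => pow_succ x0 k ▸ hf _ (by positivity) (pow_le_pow_of_le_one h0 hx1 hk)) n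

end H64.Wall
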