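import Mathlib
import Cfsg.Agent.Lib.Wall.Inv
import Cfsg.Agent.Lib.Wall.Seq

/-!
Counting Wall's data for symplectic and orthogonal groups in odd characteristic.
-/

set_option autoImplicit false

namespace H64.Wall

open Polynomial H64.CN Finset
open scoped Classical

theorem card_le_of_tail {ι L α : Type*} (I : Finset ι) (A : ι → Finset L) (w : ι → L → ℝ) {C : ℝ}
    (hC : 0 ≤ C) (hw : ∀ i l, 0 ≤ w i l) (T : Finset α) (φ : α → ι → L)
    (hA : ∀ t ∈ T, ∀ i ∈ I, φ t i ∈ A i)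
    (h : ∀ t0 ∈ T, ∀ S ⊆ T, (∀ t ∈ S, ∀ i ∈ I, φ t i = φ t0 i) →
      #S ≤ C * ∏ i ∈ I, w i (φ t0 i)) :
    #T ≤ C * ∏ i ∈ I, ∑ l ∈ A i, w i l := by
  rw [prod_sum, mul_sum, card_eq_sum_card_fiberwise (f := fun t i (_ : i ∈ I) => φ t i) (s := T)
    (t := I.pi A) fun t ht => mem_coe.2 (mem_pi.2 (hA t ht)), Nat.cast_sum]
  refine sum_le_sum fun g _ => ?_
  rcases ({t ∈ T | (fun i (_ : i ∈ I) => φ t i) = g} : Finset α).eq_empty_or_nonempty with
    h1 | ⟨t0, ht0⟩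
  · rw [h1, card_empty, Nat.cast_zero]
    exact mul_nonneg hC (prod_nonneg fun _ _ => hw _ _)
  obtain ⟨a1, rfl⟩ := mem_filter.1 ht0
  rw [prod_attach I fun i => w i (φ t0 i)]
  exact h t0 a1 _ (filter_subset _ _) fun t ht i hi => congrFun (congrFun (mem_filter.1 ht).2 i) hi

variable {F : Type*} [Field F]

/-- Monic palindromic polynomials of even degree. -/
structure Pal (h : F[X]) : Prop where
  monic : h.Monic
  rev : h.reverse = h
  ev : Even h.natDegree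

theorem du_X_sub_C {c : F} (hc : c * c = 1) : du (RingHom.id F) (X - C c) = X - C c := by
  have e : (X : F[X]).reverse = C 1 := by rw [← one_mul X, reverse_mul_X, ← C_1, reverse_C]
  rw [du_apply, Polynomial.map_id, sub_eq_add_neg, ← C_neg, reverse_add_C, e, natDegree_X]
  simp only [coeff_add, coeff_X_zero, coeff_C_zero, zero_add, RingHom.id_apply, pow_one]
  rw [mul_add, ← mul_assoc, ← C_mul, ← C_mul, inv_mul_cancel₀ (neg_ne_zero.2
    (left_ne_zero_of_mul_eq_one hc)), mul_one, inv_neg, ← eq_inv_of_mul_eq_one_left hc, C_1, one_mul,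
    add_comm]

theorem exists_core (h2 : (2 : F) ≠ 0) {f : F[X]} (hm : f.Monic) (hd : du (RingHom.id F) f = f) :
    ∃ w, Pal w ∧ w.eval 1 ≠ 0 ∧ w.eval (-1) ≠ 0 ∧
      f = (X - C 1) ^ rootMultiplicity 1 f * ((X - C (-1)) ^ rootMultiplicity (-1) f * w) := by
  obtain ⟨f1, e1, n1⟩ := exists_eq_pow_rootMultiplicity_mul_and_not_dvd f hm.ne_zero 1
  have hf1 : f1.Monic := ((monic_X_sub_C 1).pow _).of_mul_monic_left (e1 ▸ hm)
  obtain ⟨w, e2, n2⟩ := exists_eq_pow_rootMultiplicity_mul_and_not_dvd f1 hf1.ne_zero (-1)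
  have hw : w.Monic := ((monic_X_sub_C (-1)).pow _).of_mul_monic_left (e2 ▸ hf1)
  have e3 : rootMultiplicity (-1) f = rootMultiplicity (-1) f1 := by
    conv_lhs => rw [e1]
    rw [rootMultiplicity_mul (e1 ▸ hm.ne_zero), rootMultiplicity_eq_zero, zero_add]
    simp only [IsRoot, eval_pow, eval_sub, eval_X, eval_C]
    exact pow_ne_zero _ fun h => h2 (by linear_combination -h)
  rw [← e3] at e2
  have n3 : w.eval 1 ≠ 0 := fun h => n1 (e2 ▸ (dvd_iff_isRoot.2 h).mul_left _)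
  have n4 : w.eval (-1) ≠ 0 := fun h => n2 (dvd_iff_isRoot.2 h)
  rw [e2] at e1
  have h1 : du (RingHom.id F) w = w := by
    rw [e1, map_mul, map_mul, map_pow, map_pow, du_X_sub_C (one_mul 1), du_X_sub_C (by simp)] at hd
    exact mul_left_cancel₀ ((monic_X_sub_C _).pow _).ne_zero
      (mul_left_cancel₀ ((monic_X_sub_C _).pow _).ne_zero hd)
  have h3 : ∀ c : F, c * c = 1 → w.eval c ≠ 0 → (w.coeff 0)⁻¹ * c ^ w.natDegree = 1 := fun c hc h => by
    have := congrArg (aeval c) h1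
    rw [du_apply, map_mul, Polynomial.map_id, H72.Cls.aeval_reverse hc, aeval_C, coe_aeval_eq_eval,
      mul_left_comm] at this
    exact (mul_eq_left₀ h).1 this
  have h4 : w.coeff 0 = 1 := by simpa using h3 1 (one_mul 1) n3
  refine ⟨w, ⟨hw, by simpa [du_apply, h4] using h1, ?_⟩, n3, n4, e1⟩
  simpa [h4, neg_one_pow_eq_one_iff_even (R := F) fun h => h2 (by linear_combination -h)]
    using h3 (-1) (by simp) n4

theorem Pal.mul {f g : F[X]} (hf : Pal f) (hg : Pal g) : Pal (f * g) :=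
  ⟨hf.monic.mul hg.monic, by rw [reverse_mul_of_domain, hf.rev, hg.rev],
    hf.monic.natDegree_mul hg.monic ▸ hf.ev.add hg.ev⟩

theorem pal_pow {c : F} (hc : c * c = 1) (a : ℕ) : Pal ((X - C c) ^ (2 * a)) := by
  refine ⟨(monic_X_sub_C c).pow _, ?_, by simp⟩
  have := congrArg (· ^ (2 * a)) (du_X_sub_C hc)
  simp only [← map_pow] at this
  rw [du_apply, Polynomial.map_id] at this
  simpa [coeff_zero_eq_eval_zero, pow_mul, _root_.sq, hc] using this

/-- The extra letters. -/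
abbrev E4 := Fin 2 × Fin 2 × Fin 2 × Fin 2

/-- The degree of an extra letter. -/
def sz (e : E4) : ℕ := e.1 + e.2.1 + (e.2.2.1 + e.2.2.2)

theorem exists_letter (h2 : (2 : F) ≠ 0) {r N : ℕ} {u : ℕ → F[X]} {δ₁ δ₂ : ℕ → Fin 2}
    (h : WD r N u δ₁ δ₂) (k : ℕ) : ∃ (p : F[X]) (e : E4), Pal p ∧ e.1 = δ₁ k ∧ e.2.2.1 = δ₂ k ∧
      u k = (X - C 1) ^ ((e.1 : ℕ) + e.2.1) * ((X - C (-1)) ^ ((e.2.2.1 : ℕ) + e.2.2.2) * p) ∧
      (k % 2 ≠ r → e = 0) ∧ (rootMultiplicity 1 (u k) ≤ 1 → p.eval 1 ≠ 0) ∧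
      (rootMultiplicity 1 (u k) = 0 → rootMultiplicity (-1) (u k) = 0 → e = 0) := by
  obtain ⟨w, h1, h3, -, h4⟩ := exists_core h2 (h.isD.monic k) (h.du k)
  have key : ∀ {c : F} {δ : ℕ → Fin 2}, Adm r c u δ → ∃ (e : Fin 2) (a : ℕ),
      rootMultiplicity c (u k) = δ k + e + 2 * a ∧ (k % 2 ≠ r → δ k = 0 ∧ e = 0) := fun {c δ} h => by
    have a1 := h.pos k
    have a2 := h.ev k
    have a3 := (δ k).2
    rw [Nat.even_iff] at a2
    refine ⟨⟨(rootMultiplicity c (u k) - δ k) % 2, Nat.mod_lt _ two_pos⟩,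
      (rootMultiplicity c (u k) - δ k) / 2, ?_, fun hk => ?_⟩ <;> simp only [Ne, Fin.ext_iff] at * <;>
      omega
  obtain ⟨e, a, a1, a2⟩ := key h.one
  obtain ⟨e', a', b1, b2⟩ := key h.neg
  refine ⟨(X - C 1) ^ (2 * a) * ((X - C (-1)) ^ (2 * a') * w), (δ₁ k, e, δ₂ k, e'),
    (pal_pow (one_mul 1) a).mul ((pal_pow (by simp) a').mul h1), rfl, rfl, by
      rw [h4, a1, b1]; ring, fun hk => by simp [a2 hk, b2 hk], fun hk => ?_, fun c1 c2 => ?_⟩
  · obtain rfl : a = 0 := by omega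
    simpa [h3] using fun h : (1 + 1 : F) = 0 => absurd (one_add_one_eq_two.symm.trans h) h2
  · simp only [Prod.ext_iff, Fin.ext_iff, Prod.fst_zero, Prod.snd_zero, Fin.val_zero]
    omega

variable [Fintype F]

theorem finite_pal (N : ℕ) : {p : F[X] | Pal p ∧ p.natDegree ≤ N}.Finite := by
  have : Finite (degreeLT F (N + 1)) := Finite.of_equiv _ (degreeLTEquiv F (N + 1)).toEquiv.symm
  refine (Set.toFinite (degreeLT F (N + 1) : Set F[X])).subset fun h hh => ?_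
  rw [SetLike.mem_coe, mem_degreeLT]
  exact degree_le_natDegree.trans_lt (by exact_mod_cast Nat.lt_succ_of_le hh.2)

variable (F) in
/-- The palindromic polynomials of degree `2 m`. -/
noncomputable def PalF (m : ℕ) : Finset F[X] := {p ∈ (finite_pal (2 * m)).toFinset | p.natDegree = 2 * m}

theorem mem_PalF {m : ℕ} {p : F[X]} : p ∈ PalF F m ↔ Pal p ∧ p.natDegree = 2 * m := by
  simp only [PalF, mem_filter, Set.Finite.mem_toFinset, Set.mem_setOf_eq]
  exact ⟨fun h => ⟨h.1.1, h.2⟩, fun h => ⟨⟨h.1, h.2.le⟩, h.2⟩⟩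

theorem card_PalF (m : ℕ) : #(PalF F m) = Fintype.card F ^ m := by
  rw [← Nat.card_eq_finsetCard, Nat.card_congr (Equiv.subtypeEquivRight
    (q := (· ∈ {f : F[X] | (f.Monic ∧ f.natDegree = 2 * m) ∧ f.reverse = f})) fun p => mem_PalF.trans
    ⟨fun h => ⟨⟨h.1.monic, h.2⟩, h.1.rev⟩, fun h => ⟨⟨h.1.1, h.2, h.1.2 ▸ even_two_mul m⟩, h.1.2⟩⟩)]
  rcases m with _ | m
  · rw [pow_zero, Nat.card_eq_one_iff_exists]
    refine ⟨⟨1, ⟨monic_one, by simp⟩, by rw [← C_1, reverse_C]⟩, fun f => Subtype.ext ?_⟩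
    exact (f.2.1.1.natDegree_eq_zero).1 f.2.1.2
  refine (H72.Cls.card_monic (2 * m + 1) _
    (fun x => x.1 = 1 ∧ ∀ j, x.2 j.rev = x.2 j) fun f hf hd => ?_).trans ?_
  · have : f.coeff (2 * m + 1 + 1) = 1 := hd ▸ hf.coeff_natDegree
    rw [H72.Cls.reverse_eq_iff hd hd.le, this]
    exact ⟨fun h => h.2, fun h => ⟨h.1.symm, h⟩⟩
  rw [Nat.card_congr (Equiv.subtypeProdEquivProd (p := fun x : F => x = 1)
      (q := fun w : Fin (2 * m + 1) → F => ∀ j, w j.rev = w j)), Nat.card_prod,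
    Nat.card_unique, one_mul, ← Nat.card_eq_fintype_card, ← Nat.card_fin (m + 1), ← Nat.card_fun]
  exact Nat.card_congr
    { toFun := fun w j => w.1 ⟨j, by omega⟩
      invFun := fun u => ⟨fun j => u ⟨min j (2 * m - j), by omega⟩, fun j =>
        congrArg u (Fin.ext (by have := j.2; simp only [Fin.val_rev]; omega))⟩
      left_inv := fun w => Subtype.ext (funext fun j => by
        have := j.2
        rcases le_total j.1 m with h | h
        · exact congrArg w.1 (Fin.ext (by simp; omega))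
        · exact (congrArg w.1 (Fin.ext (by simp [Fin.val_rev]; omega))).trans (w.2 j))
      right_inv := fun u => funext fun j => congrArg u (Fin.ext (by have := j.2; simp; omega)) }

theorem card_pal_le (S : Finset F[X]) (i : ℕ) (h : ∀ p ∈ S, Pal p ∧ p.natDegree = 2 * i) :
    #S ≤ Fintype.card F ^ i := card_PalF (F := F) i ▸ card_le_card fun p hp => mem_PalF.2 (h p hp)

theorem card_pair_le (S : Finset (F[X] × F[X])) (i : ℕ) (h : ∀ p ∈ S, Pal p.1 ∧ Pal p.2 ∧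
    p.1.eval 1 ≠ 0 ∧ p.1.natDegree + 2 * p.2.natDegree = 2 * i) : #S ≤ Fintype.card F ^ i := by
  have h1 : ∀ j, #{p ∈ PalF F (j + 1) | p.eval 1 ≠ 0} + Fintype.card F ^ j ≤
      Fintype.card F ^ (j + 1) := fun j => by
    rw [← card_PalF, ← card_PalF, ← card_filter_add_card_filter_not (s := PalF F (j + 1))
      (fun p => p.eval 1 ≠ 0), add_le_add_iff_left]
    refine card_le_card_of_injOn (fun p => (X - C 1) ^ (2 * 1) * p) (fun p hp => ?_)
      fun p _ p' _ h => mul_left_cancel₀ ((monic_X_sub_C _).pow _).ne_zero h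
    obtain ⟨a1, a2⟩ := mem_PalF.1 hp
    refine mem_coe.2 (mem_filter.2 ⟨mem_PalF.2 ⟨(pal_pow (one_mul 1) 1).mul a1, ?_⟩, by simp⟩)
    rw [((monic_X_sub_C _).pow _).natDegree_mul a1.monic, a2, natDegree_pow, natDegree_X_sub_C]
    ring
  let g : ℕ → ℤ := fun l => if 2 * l ≤ i then Fintype.card F ^ (i - l) else 0
  have h2 : (#S : ℤ) ≤ ∑ l ∈ range (i + 1), (g l - g (l + 1)) := by
    rw [card_eq_sum_card_fiberwise (f := fun p => p.2.natDegree / 2) (t := range (i + 1))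
      fun p hp => by have := (h p hp).2.2.2; simp; omega, Nat.cast_sum]
    refine sum_le_sum fun l _ => ?_
    by_cases hl : 2 * l ≤ i
    swap
    · rw [filter_false_of_mem fun p hp => by have := (h p hp).2.2.2; omega]
      simp only [g, if_neg hl, if_neg (show ¬ 2 * (l + 1) ≤ i by omega)]; simp
    obtain ⟨j, rfl⟩ := Nat.exists_eq_add_of_le hl
    have h3 : #{p ∈ S | p.2.natDegree / 2 = l} ≤ #{p ∈ PalF F j | p.eval 1 ≠ 0} *
        Fintype.card F ^ l := by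
      rw [← card_PalF, ← card_product]
      refine card_le_card fun p hp => ?_
      obtain ⟨a1, a2⟩ := mem_filter.1 hp
      obtain ⟨b1, b2, b3, b4⟩ := h p a1
      have := Nat.even_iff.1 b2.ev
      exact mem_product.2 ⟨mem_filter.2 ⟨mem_PalF.2 ⟨b1, by omega⟩, b3⟩, mem_PalF.2 ⟨b2, by omega⟩⟩
    refine (Nat.cast_le.2 h3).trans ?_
    simp only [g, if_pos hl, show 2 * l + j - l = j + l by omega]
    split_ifs with h4
    · obtain ⟨j, rfl⟩ : ∃ k, j = k + 1 := ⟨j - 1, by omega⟩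
      rw [show 2 * l + (j + 1) - (l + 1) = j + l by omega, pow_add, pow_add _ j l, ← sub_mul,
        Nat.cast_mul, Nat.cast_pow]
      refine mul_le_mul_of_nonneg_right (le_sub_iff_add_le.2 ?_) (by positivity)
      exact_mod_cast h1 j
    · rw [sub_zero, pow_add, ← Nat.cast_pow, ← Nat.cast_pow, ← Nat.cast_mul, Nat.cast_le,
        ← card_PalF j]
      exact Nat.mul_le_mul_right _ (card_filter_le _ _)
  rw [sum_range_sub'] at h2
  simp only [g, if_neg (show ¬ 2 * (i + 1) ≤ i by omega), mul_zero, Nat.zero_le, if_true,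
    sub_zero, Nat.sub_zero] at h2
  exact_mod_cast h2

/-- A rational number slightly larger than `3 ^ (-1 / 2)`. -/
noncomputable def x1 : ℝ := 0.5774

theorem x1_pos : 0 < x1 := by norm_num [x1]

theorem level_le {α β : Type*} {q : ℕ} (hq : 3 ≤ q) (P : β → Prop) (dg : β → ℕ)
    (hP : ∀ (S : Finset β) i, (∀ p ∈ S, P p ∧ dg p = 2 * i) → #S ≤ q ^ i)
    (hev : ∀ p, P p → Even (dg p)) (A : Finset E4) (S : Finset α) (p : α → β) (e : α → E4)
    (hi : ∀ t ∈ S, ∀ t' ∈ S, p t = p t' → e t = e t' → t = t') {m j r : ℕ} (hr : r ≤ 1)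
    (h : ∀ t ∈ S, P (p t) ∧ e t ∈ A ∧ dg (p t) + sz (e t) + j = 2 * m + r) :
    #S * x1 ^ r ≤ (∑ e ∈ A with (sz e + j) % 2 = r, x1 ^ sz e) * (q ^ m * x1 ^ j) := by
  rw [card_eq_sum_card_fiberwise (f := e) (t := {e ∈ A | (sz e + j) % 2 = r}) fun t ht => by
    have := h t ht
    have := Nat.even_iff.1 (hev _ this.1)
    simp only [coe_filter, Set.mem_setOf_eq]; exact ⟨by tauto, by omega⟩, Nat.cast_sum, sum_mul,
    sum_mul]
  refine sum_le_sum fun a ha => ?_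
  rcases ({t ∈ S | e t = a} : Finset α).eq_empty_or_nonempty with h1 | ⟨t0, ht0⟩
  · rw [h1, card_empty, Nat.cast_zero, zero_mul]; have := x1_pos; positivity
  obtain ⟨a1, rfl⟩ := mem_filter.1 ht0
  obtain ⟨i, hi'⟩ := hev _ (h t0 a1).1
  obtain ⟨l, rfl⟩ : ∃ l, m = i + l := ⟨m - i, by have := (h t0 a1).2.2; omega⟩
  have a2 : #{t ∈ S | e t = e t0} ≤ q ^ i := by
    rw [← card_image_of_injOn (f := p) fun t ht t' ht' h' => hi t (mem_filter.1 ht).1 t'
      (mem_filter.1 ht').1 h' ((mem_filter.1 ht).2.trans (mem_filter.1 ht').2.symm)]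
    refine hP _ i fun a ha => ?_
    obtain ⟨t, ht, rfl⟩ := mem_image.1 ha
    have b1 := h t (mem_filter.1 ht).1
    have b2 := (h t0 a1).2.2
    rw [(mem_filter.1 ht).2] at b1
    exact ⟨b1.1, by omega⟩
  have a3 : (1 : ℝ) ≤ (q * x1 ^ 2) ^ l := one_le_pow₀ (by
    have : (3 : ℝ) ≤ q := by exact_mod_cast hq
    norm_num [x1]; linarith)
  have := x1_pos
  calc _ ≤ (q : ℝ) ^ i * x1 ^ r * (q * x1 ^ 2) ^ l := le_trans (mul_le_mul_of_nonneg_right
        (by exact_mod_cast a2) (by positivity)) (le_mul_of_one_le_right (by positivity) a3)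
    _ = q ^ (i + l) * x1 ^ (2 * l + r) := by ring
    _ = _ := by rw [show 2 * l + r = sz (e t0) + j by have := (h t0 a1).2.2; omega]; ring

theorem count_main (hq : 3 ≤ Fintype.card F) {α : Type*} (T : Finset α) (H : α → ℕ → F[X])
    (E : α → ℕ → E4) (A : ℕ → Finset E4) {a n r : ℕ} (ha : 2 ≤ a) (hr : r ≤ 1) {C : ℝ} (hC : 0 ≤ C)
    (hH : ∀ t ∈ T, ∀ k, Pal (H t k)) (hE : ∀ t ∈ T, ∀ k, E t k ∈ A k)
    (hd : ∀ t ∈ T, ∀ M, 2 * n + r < M →
      ∑ k ∈ range M, k * ((H t k).natDegree + sz (E t k)) = 2 * n + r)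
    (h : ∀ S ⊆ T, ∀ m j, (∀ t ∈ S, ∀ t' ∈ S, ∀ k, a ≤ k → H t k = H t' k ∧ E t k = E t' k) →
      (∀ t ∈ S, ∑ k ∈ range a, k * ((H t k).natDegree + sz (E t k)) + j = 2 * m + r) →
      #S ≤ C * (Fintype.card F ^ m * x1 ^ j)) :
    ∃ M, #T ≤ C * Fintype.card F ^ n * ((∏ k ∈ Ico a M, (1 - 3 * (3⁻¹ : ℝ) ^ k)⁻¹) *
      ∏ k ∈ Ico a M, ∑ e ∈ A k, (x1 ^ k) ^ sz e) := by
  set q := Fintype.card F
  have hq' : (3 : ℝ) ≤ q := by exact_mod_cast hq
  have hx := x1_pos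
  have h1 : ∀ t ∈ T, ∀ k, k * ((H t k).natDegree + sz (E t k)) ≤ 2 * n + r := fun t ht k =>
    hd t ht (2 * n + r + k + 1) (by omega) ▸ single_le_sum
      (f := fun k => k * ((H t k).natDegree + sz (E t k))) (fun _ _ => Nat.zero_le _) (by simp)
  refine ⟨2 * n + r + a + 1, (card_le_of_tail (Ico a (2 * n + r + a + 1))
    (fun k => (finite_pal (F := F) (2 * n + r)).toFinset ×ˢ A k)
    (fun k l => ((q : ℝ)⁻¹ ^ k) ^ (l.1.natDegree / 2) * (x1 ^ k) ^ sz l.2) (C := C * q ^ n)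
    (by positivity) (fun _ _ => by positivity) T (fun t k => (H t k, E t k)) (fun t ht k hk => ?_)
    fun t0 ht0 S hS hS' => ?_).trans ?_⟩
  · refine mem_product.2 ⟨(Set.Finite.mem_toFinset _).2 ⟨hH t ht k, ?_⟩, hE t ht k⟩
    have := h1 t ht k
    have := (mem_Ico.1 hk).1
    nlinarith
  · have h2 : ∀ t ∈ T, ∑ k ∈ range a, k * ((H t k).natDegree + sz (E t k)) +
        ∑ k ∈ Ico a (2 * n + r + a + 1), k * sz (E t k) +
        2 * ∑ k ∈ Ico a (2 * n + r + a + 1), k * ((H t k).natDegree / 2) = 2 * n + r := fun t ht => by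
      rw [add_assoc, mul_sum, ← sum_add_distrib, sum_congr (s₁ := Ico a _) rfl
        (g := fun k => k * ((H t k).natDegree + sz (E t k))) fun k _ => by
          rw [mul_left_comm, Nat.two_mul_div_two_of_even (hH t ht k).ev]; ring,
        sum_range_add_sum_Ico _ (by omega), hd t ht _ (by omega)]
    obtain ⟨m, hm⟩ : ∃ m, n = m + ∑ k ∈ Ico a (2 * n + r + a + 1), k * ((H t0 k).natDegree / 2) :=
      Nat.exists_eq_add_of_le' (by have := h2 t0 ht0; omega)
    refine (h S hS m (∑ k ∈ Ico a (2 * n + r + a + 1), k * sz (E t0 k))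
      (fun t ht t' ht' k hk => ?_) fun t ht => ?_).trans (le_of_eq ?_)
    · obtain ⟨a1, a2⟩ := And.intro (hS ht) (hS' t ht)
      obtain ⟨b1, b2⟩ := And.intro (hS ht') (hS' t' ht')
      by_cases hk' : k < 2 * n + r + a + 1
      · exact Prod.ext_iff.1 ((a2 k (mem_Ico.2 ⟨hk, hk'⟩)).trans (b2 k (mem_Ico.2 ⟨hk, hk'⟩)).symm)
      have : ∀ t ∈ T, H t k = 1 ∧ E t k = 0 := fun t ht => by
        have c1 : (H t k).natDegree + sz (E t k) = 0 := by
          by_contra c1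
          have := h1 t ht k
          have := Nat.le_mul_of_pos_right k (Nat.pos_of_ne_zero c1)
          omega
        refine ⟨(hH t ht k).monic.natDegree_eq_zero.1 (by omega), ?_⟩
        simp only [sz, Prod.ext_iff, Fin.ext_iff, Prod.fst_zero, Prod.snd_zero, Fin.val_zero] at c1 ⊢
        omega
      rw [(this t a1).1, (this t a1).2, (this t' b1).1, (this t' b1).2]
      exact ⟨rfl, rfl⟩
    · have a3 := h2 t (hS ht)
      rw [sum_congr (s₁ := Ico a _) rfl (g := fun k => k * sz (E t0 k)) fun k hk => by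
        rw [show E t k = E t0 k from congrArg (·.2) (hS' t ht k hk)],
        sum_congr (s₁ := Ico a _) rfl (f := fun k => k * ((H t k).natDegree / 2))
          (g := fun k => k * ((H t0 k).natDegree / 2)) fun k hk => by
        rw [show H t k = H t0 k from congrArg (·.1) (hS' t ht k hk)]] at a3
      omega
    · simp only [prod_mul_distrib, ← pow_mul, prod_pow_eq_pow_sum]
      generalize ∑ k ∈ Ico a (2 * n + r + a + 1), k * ((H t0 k).natDegree / 2) = s at hm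
      rw [hm, pow_add, inv_pow]
      field_simp
  · rw [← prod_mul_distrib]
    refine mul_le_mul_of_nonneg_left (prod_le_prod (fun _ _ => by positivity) fun k hk => ?_)
      (by positivity)
    rw [sum_product]
    simp only [← mul_sum, ← sum_mul]
    refine mul_le_mul_of_nonneg_right ?_ (by positivity)
    obtain ⟨k, rfl⟩ : ∃ j, k = j + 1 + 1 := ⟨k - 2, by have := (mem_Ico.1 hk).1; omega⟩
    have a1 : (q : ℝ) * (q : ℝ)⁻¹ ^ (k + 1 + 1) ≤ 3 * 3⁻¹ ^ (k + 1 + 1) := by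
      rw [pow_succ', pow_succ' (3⁻¹ : ℝ), mul_inv_cancel_left₀ (by positivity),
        mul_inv_cancel_left₀ (by positivity)]
      gcongr
    have a2 : (3 : ℝ) * 3⁻¹ ^ (k + 1 + 1) < 1 := by
      rw [pow_succ', mul_inv_cancel_left₀ (by positivity)]
      exact pow_lt_one₀ (by positivity) (by norm_num) k.succ_ne_zero
    refine sum_pow_le _ (fun p : F[X] => p.natDegree / 2) (fun j => q ^ j) (by positivity)
      (fun j => ?_) fun N => ?_
    · exact_mod_cast card_pal_le _ j fun p hp => by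
        have := ((Set.Finite.mem_toFinset _).1 (mem_filter.1 hp).1).1
        exact ⟨this, by rw [← (mem_filter.1 hp).2, Nat.two_mul_div_two_of_even this.ev]⟩
    · simp only [← mul_pow]
      exact (geom_le (by positivity) (a1.trans_lt a2) N).trans (inv_anti₀ (by linarith) (by linarith))

theorem num_geom (M : ℕ) : ∏ k ∈ Ico 3 M, (1 - 3 * (3⁻¹ : ℝ) ^ k)⁻¹ ≤ 1.1903 ∧
    ∏ k ∈ Ico 2 M, (1 - 3 * (3⁻¹ : ℝ) ^ k)⁻¹ ≤ 1.7855 := by
  have key : ∀ a, 2 ≤ a → a ≤ 10 → ∏ k ∈ Ico a M, (1 - 3 * (3⁻¹ : ℝ) ^ k)⁻¹ ≤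
      (∏ k ∈ Ico a 10, (1 - 3 * (3⁻¹ : ℝ) ^ k)⁻¹) * (1 + 5 * 3⁻¹ ^ 10) := fun a h1 h2 =>
    prod_le_num (fun y => (1 - 3 * y)⁻¹) _ _ 5 (by positivity) le_rfl (by norm_num) (by norm_num) h2
      (fun y z hy hz hz' => by
        have : z ≤ 3⁻¹ ^ 2 := hz'.trans (pow_le_pow_of_le_one (by positivity) (by norm_num) h1)
        exact ⟨(one_le_inv₀ (by linarith)).2 (by linarith), inv_anti₀ (by linarith) (by linarith)⟩)
      (fun y hy hy' => by
        rw [inv_mul_le_iff₀ (by linarith)]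
        nlinarith) M
  refine ⟨(key 3 (by norm_num) (by norm_num)).trans ?_, (key 2 le_rfl (by norm_num)).trans ?_⟩ <;>
    simp only [prod_Ico_eq_prod_range, prod_range_succ, prod_range_zero] <;> norm_num

theorem num_par (r : ℕ) {a : ℕ} (ha : a ≤ 16) (M : ℕ) :
    ∏ k ∈ Ico a M, (if k % 2 = r then 1 + x1 ^ k else 1) ≤
    (∏ k ∈ Ico a 16, if k % 2 = r then 1 + x1 ^ k else 1) * (1 + 2.5 * x1 ^ 16) := by
  have := x1_pos
  refine prod_le_tail _ _ _ (by norm_num) this.le ha (fun k _ => by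
    split_ifs; exacts [le_add_of_nonneg_right (by positivity), le_rfl]) (fun k hk => ?_) M
  have h1 : x1 ^ k ≤ x1 ^ 16 := pow_le_pow_of_le_one this.le (by norm_num [x1]) hk
  have h2 : 0 < x1 ^ k := by positivity
  rw [pow_succ]
  generalize x1 ^ k = y at *
  norm_num [x1] at h1 ⊢
  split_ifs <;> nlinarith

theorem num_even (M : ℕ) : ∏ k ∈ Ico 2 M, (if k % 2 = 0 then 1 + x1 ^ k else 1) ≤ 1.566 := by
  refine (num_par 0 (by norm_num) M).trans ?_
  simp only [prod_Ico_eq_prod_range, prod_range_succ, prod_range_zero]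
  norm_num [x1]

theorem num_odd (M : ℕ) : ∏ k ∈ Ico 2 M, (if k % 2 = 1 then 1 + x1 ^ k else 1) ≤ 1.311 ∧
    ∏ k ∈ Ico 3 M, (if k % 2 = 1 then 1 + x1 ^ k else 1) ≤ 1.311 := by
  refine ⟨(num_par 1 (by norm_num) M).trans ?_, (num_par 1 (by norm_num) M).trans ?_⟩ <;>
    simp only [prod_Ico_eq_prod_range, prod_range_succ, prod_range_zero] <;> norm_num [x1]

section Data

variable {α : Type*} {T : Finset α} {u : α → ℕ → F[X]} {δ₁ δ₂ : α → ℕ → Fin 2} {r N : ℕ}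

omit [Fintype F] in
theorem exists_letters (h2 : (2 : F) ≠ 0) (hW : ∀ t ∈ T, WD r N (u t) (δ₁ t) (δ₂ t))
    (hi : ∀ t ∈ T, ∀ t' ∈ T, u t = u t' → δ₁ t = δ₁ t' → δ₂ t = δ₂ t' → t = t') :
    ∃ (H : α → ℕ → F[X]) (E : α → ℕ → E4), (∀ t ∈ T, ∀ k, Pal (H t k)) ∧
      (∀ t ∈ T, ∀ M, N < M → ∑ k ∈ range M, k * ((H t k).natDegree + sz (E t k)) = N) ∧
      (∀ t ∈ T, ∀ t' ∈ T, (∀ k, 1 ≤ k → H t k = H t' k ∧ E t k = E t' k) → t = t') ∧
      ∀ t ∈ T, ∀ k, (E t k).1 = δ₁ t k ∧ (E t k).2.2.1 = δ₂ t k ∧ (k % 2 ≠ r → E t k = 0) ∧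
        (rootMultiplicity 1 (u t k) ≤ 1 → (H t k).eval 1 ≠ 0) ∧
        (rootMultiplicity 1 (u t k) = 0 → rootMultiplicity (-1) (u t k) = 0 → E t k = 0) := by
  choose! H E a1 a2 a3 a4 a5 using fun t ht k => exists_letter h2 (hW t ht) k
  refine ⟨H, E, a1, fun t ht M hM => ?_, fun t ht t' ht' h => ?_,
    fun t ht k => ⟨a2 t ht k, a3 t ht k, a5 t ht k⟩⟩
  · rw [← (hW t ht).isD.sum M hM]
    refine sum_congr rfl fun k _ => ?_
    rw [a4 t ht k, ((monic_X_sub_C _).pow _).natDegree_mul (((monic_X_sub_C _).pow _).mul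
      (a1 t ht k).monic), ((monic_X_sub_C _).pow _).natDegree_mul (a1 t ht k).monic, natDegree_pow,
      natDegree_pow, natDegree_X_sub_C, natDegree_X_sub_C, sz]
    ring
  · have h0 : ∀ t ∈ T, E t 0 = 0 := fun t ht => (a5 t ht 0).2.2
      (by rw [(hW t ht).isD.zero, ← C_1, rootMultiplicity_C])
      (by rw [(hW t ht).isD.zero, ← C_1, rootMultiplicity_C])
    have h1 : ∀ k, E t k = E t' k := fun k => by
      rcases k with _ | k
      · rw [h0 t ht, h0 t' ht']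
      · exact (h _ (by omega)).2
    refine hi t ht t' ht' (funext fun k => ?_) (funext fun k => by rw [← a2 t ht, ← a2 t' ht', h1])
      (funext fun k => by rw [← a3 t ht, ← a3 t' ht', h1])
    rcases k with _ | k
    · rw [(hW t ht).isD.zero, (hW t' ht').isD.zero]
    · rw [a4 t ht, a4 t' ht', h1, (h _ (by omega)).1]

theorem sum_sz (f : ℕ → ℝ) : ∑ e : E4, f (sz e) = f 0 + 4 * f 1 + 6 * f 2 + 4 * f 3 + f 4 := by
  simp only [Fintype.sum_prod_type, Fin.sum_univ_two, sz]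
  norm_num
  ring

theorem sum_sz' (f : ℕ → ℝ) :
    ∑ e : E4 with e.1 = 0 ∧ e.2.2.1 = 0, f (sz e) = f 0 + 2 * f 1 + f 2 := by
  simp only [sum_filter, Fintype.sum_prod_type, Fin.sum_univ_two, sz]
  norm_num
  ring

theorem prod_ite_le (r : ℕ) (A : Finset E4) (s : ℕ) (h : ∀ y : ℝ, ∑ e ∈ A, y ^ sz e = (1 + y) ^ s)
    {a M : ℕ} {c : ℝ} (hc : ∏ k ∈ Ico a M, (if k % 2 = r then 1 + x1 ^ k else 1) ≤ c) :
    ∏ k ∈ Ico a M, ∑ e ∈ (if k % 2 = r then A else {0}), (x1 ^ k) ^ sz e ≤ c ^ s := by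
  have := x1_pos
  refine le_trans (le_of_eq ?_) (pow_le_pow_left₀ (prod_nonneg fun _ _ => by positivity) hc s)
  rw [← prod_pow]
  refine prod_congr rfl fun k _ => ?_
  split_ifs
  exacts [h _, by simp [sz]]

/-- The common part of the counts in which only the first level is treated exactly. -/
theorem count_one (hq : 3 ≤ Fintype.card F) (h2 : (2 : F) ≠ 0) {n s : ℕ} (hs : s ≤ 1)
    (hW : ∀ t ∈ T, WD r (2 * n + s) (u t) (δ₁ t) (δ₂ t))
    (hi : ∀ t ∈ T, ∀ t' ∈ T, u t = u t' → δ₁ t = δ₁ t' → δ₂ t = δ₂ t' → t = t')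
    (A : Finset E4) (hA : A = univ ∨ A = {0} ∧ ∀ t ∈ T, ∀ k, k % 2 = r →
      rootMultiplicity 1 (u t k) = 0 ∧ rootMultiplicity (-1) (u t k) = 0) {C c : ℝ}
    (hC : ∀ j, ∑ e ∈ (if 1 % 2 = r then A else {0}) with (sz e + j) % 2 = s, x1 ^ sz e ≤ C * x1 ^ s)
    (hc : ∀ M, ∏ k ∈ Ico 2 M, ∑ e ∈ (if k % 2 = r then A else {0}), (x1 ^ k) ^ sz e ≤ c) :
    #T ≤ C * 1.7855 * c * Fintype.card F ^ n := by
  obtain ⟨H, E, a1, a2, a3, a4⟩ := exists_letters h2 hW hi
  have hx := x1_pos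
  have hC0 : 0 ≤ C := nonneg_of_mul_nonneg_left ((sum_nonneg fun _ _ => by positivity).trans (hC 0))
    (by positivity)
  have hE : ∀ t ∈ T, ∀ k, E t k ∈ if k % 2 = r then A else {0} := fun t ht k => by
    split_ifs with h
    · rcases hA with rfl | ⟨rfl, hA⟩
      · exact mem_univ _
      · exact mem_singleton.2 ((a4 t ht k).2.2.2.2 (hA t ht k h).1 (hA t ht k h).2)
    · exact mem_singleton.2 ((a4 t ht k).2.2.1 h)
  obtain ⟨M, hM⟩ := count_main hq T H E (fun k => if k % 2 = r then A else {0}) (a := 2) le_rfl hs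
      hC0 a1 hE a2 fun S hS m j b1 b2 => by
    refine le_of_mul_le_mul_right ((level_le (m := m) (j := j) hq Pal natDegree card_pal_le (fun _ h => h.ev) _ S
      (H · 1) (E · 1) (fun t ht t' ht' c1 c2 => a3 t (hS ht) t' (hS ht') fun k hk => ?_) hs
      fun t ht => ⟨a1 t (hS ht) 1, hE t (hS ht) 1, by simpa [sum_range_succ] using b2 t ht⟩).trans ?_)
      (pow_pos hx s)
    · rcases hk.eq_or_lt with rfl | hk
      exacts [⟨c1, c2⟩, b1 t ht t' ht' k hk]
    · rw [mul_right_comm]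
      exact mul_le_mul_of_nonneg_right (hC j) (by positivity)
  refine hM.trans ?_
  rw [mul_right_comm, mul_assoc C 1.7855]
  exact mul_le_mul_of_nonneg_right (mul_le_mul_of_nonneg_left (mul_le_mul (num_geom M).2 (hc M)
    (prod_nonneg fun _ _ => by positivity) (by norm_num)) hC0) (by positivity)

theorem count_sp (hq : 3 ≤ Fintype.card F) (h2 : (2 : F) ≠ 0) {n : ℕ}
    (hW : ∀ t ∈ T, WD 0 (2 * n) (u t) (δ₁ t) (δ₂ t))
    (hi : ∀ t ∈ T, ∀ t' ∈ T, u t = u t' → δ₁ t = δ₁ t' → δ₂ t = δ₂ t' → t = t') :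
    5 * #T ≤ 54 * Fintype.card F ^ n := by
  have := count_one hq h2 zero_le_one hW hi univ (Or.inl rfl) (C := 1) (fun j => by
    simp only [sum_filter]; simp [sz]; split_ifs <;> simp)
    fun M => prod_ite_le 0 univ 4 (fun y => by rw [sum_sz (y ^ ·)]; ring) (num_even M)
  have h : (0 : ℝ) ≤ Fintype.card F ^ n := by positivity
  exact_mod_cast (by linarith : (5 : ℝ) * #T ≤ 54 * Fintype.card F ^ n)

theorem count_o (hq : 3 ≤ Fintype.card F) (h2 : (2 : F) ≠ 0) {n s : ℕ} (hs : s ≤ 1)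
    (hW : ∀ t ∈ T, WD 1 (2 * n + s) (u t) (δ₁ t) (δ₂ t))
    (hi : ∀ t ∈ T, ∀ t' ∈ T, u t = u t' → δ₁ t = δ₁ t' → δ₂ t = δ₂ t' → t = t') :
    (#T : ℝ) ≤ (if s = 0 then 16.42 else 28.43) * Fintype.card F ^ n := by
  have := count_one hq h2 hs hW hi univ (Or.inl rfl) (C := if s = 0 then 3.1115 else 5.39)
    (fun j => by
      rw [if_pos rfl, sum_filter, sum_sz fun a => if (a + j) % 2 = s then x1 ^ a else 0]
      rcases Nat.mod_two_eq_zero_or_one j with h | h <;> interval_cases s <;>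
        simp only [Nat.add_mod _ j, h] <;> norm_num [x1])
    fun M => prod_ite_le 1 univ 4 (fun y => by rw [sum_sz (y ^ ·)]; ring) (num_odd M).1
  refine this.trans (mul_le_mul_of_nonneg_right ?_ (by positivity))
  split_ifs <;> norm_num

theorem count_o' (hq : 3 ≤ Fintype.card F) (h2 : (2 : F) ≠ 0) {n s : ℕ} (hs : s ≤ 1)
    (hW : ∀ t ∈ T, WD 1 (2 * n + s) (u t) (δ₁ t) (δ₂ t))
    (hi : ∀ t ∈ T, ∀ t' ∈ T, u t = u t' → δ₁ t = δ₁ t' → δ₂ t = δ₂ t' → t = t')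
    (h : ∀ t ∈ T, ∀ k, k % 2 = 1 →
      rootMultiplicity 1 (u t k) = 0 ∧ rootMultiplicity (-1) (u t k) = 0) :
    (#T : ℝ) ≤ (if s = 0 then 1.7855 else 0) * Fintype.card F ^ n := by
  interval_cases s
  · simpa using count_one hq h2 zero_le_one hW hi {0} (Or.inr ⟨rfl, h⟩) (C := 1) (c := 1) (fun j => by
      simp only [sum_filter]; simp [sz]; split_ifs <;> simp) fun M => by simp [sz]
  obtain ⟨H, E, a1, a2, -, a4⟩ := exists_letters h2 hW hi
  rw [eq_empty_of_forall_notMem (s := T) fun t ht => ?_]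
  · simp
  refine Nat.not_even_two_mul_add_one n (a2 t ht _ (Nat.lt_succ_self _) ▸ even_sum _ fun k _ => ?_)
  have : E t k = 0 := by
    by_cases hk : k % 2 = 1
    exacts [(a4 t ht k).2.2.2.2 (h t ht k hk).1 (h t ht k hk).2, (a4 t ht k).2.2.1 hk]
  rw [this]
  exact (a1 t ht k).ev.mul_left _

theorem count_split (hq : 3 ≤ Fintype.card F) (h2 : (2 : F) ≠ 0) {n : ℕ}
    (hW : ∀ t ∈ T, WD 1 (2 * n + 1) (u t) (δ₁ t) (δ₂ t))
    (hi : ∀ t ∈ T, ∀ t' ∈ T, u t = u t' → t = t')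
    (h : ∀ t ∈ T, rootMultiplicity 1 (u t 1) ≤ 1) : (#T : ℝ) ≤ 4.73 * Fintype.card F ^ n := by
  obtain ⟨H, E, a1, a2, a3, a4⟩ := exists_letters (δ₁ := 0) (δ₂ := 0) h2 (fun t ht =>
    ⟨(hW t ht).isD, (hW t ht).du, ⟨by simp, (hW t ht).one.ev⟩, by simp, (hW t ht).neg.ev⟩)
    fun t ht t' ht' h _ _ => hi t ht t' ht' h
  have hx := x1_pos
  have hE : ∀ t ∈ T, ∀ k, E t k ∈ if k % 2 = 1 then ({e : E4 | e.1 = 0 ∧ e.2.2.1 = 0} : Finset E4)
      else {0} := fun t ht k => by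
    split_ifs with h
    · exact mem_filter.2 ⟨mem_univ _, (a4 t ht k).1, (a4 t ht k).2.1⟩
    · exact mem_singleton.2 ((a4 t ht k).2.2.1 h)
  obtain ⟨M, hM⟩ := count_main hq T H E _ (a := 3) (C := 2.31) (by norm_num) le_rfl (by norm_num)
    a1 hE a2 fun S hS m j b1 b2 => by
    have c0 : ∀ t ∈ S, E t 2 = 0 := fun t ht => (a4 t (hS ht) 2).2.2.1 (by norm_num)
    refine le_of_mul_le_mul_right ((level_le (m := m) (j := j) hq
      (fun p : F[X] × F[X] => Pal p.1 ∧ Pal p.2 ∧ p.1.eval 1 ≠ 0)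
      (fun p => p.1.natDegree + 2 * p.2.natDegree) (fun S i h => card_pair_le S i fun p hp => by
        have := h p hp; tauto) (fun _ h => h.1.ev.add (even_two_mul _)) _ S
      (fun t => (H t 1, H t 2)) (E · 1) (fun t ht t' ht' c1 c2 => a3 t (hS ht) t' (hS ht')
      fun k hk => ?_) le_rfl fun t ht => ⟨⟨a1 t (hS ht) 1, a1 t (hS ht) 2,
        (a4 t (hS ht) 1).2.2.2.1 (h t (hS ht))⟩, hE t (hS ht) 1, ?_⟩).trans ?_) (pow_pos hx 1)
    · rcases hk.eq_or_lt with rfl | hk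
      · exact ⟨congrArg (·.1) c1, c2⟩
      rcases (Nat.succ_le_of_lt hk).eq_or_lt with rfl | hk
      exacts [⟨congrArg (·.2) c1, (c0 t ht).trans (c0 t' ht').symm⟩, b1 t ht t' ht' k hk]
    · have := b2 t ht
      simp only [sum_range_succ, sum_range_zero, c0 t ht, show sz 0 = 0 from rfl] at this
      simp only
      omega
    · rw [mul_right_comm]
      refine mul_le_mul_of_nonneg_right ?_ (by positivity)
      rw [if_pos rfl, sum_filter, sum_sz' fun a => if (a + j) % 2 = 1 then x1 ^ a else 0]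
      rcases Nat.mod_two_eq_zero_or_one j with h | h <;>
        simp only [Nat.add_mod _ j, h] <;> norm_num [x1]
  have a5 := prod_ite_le 1 _ 2 (fun y => by rw [sum_sz' (y ^ ·)]; ring) (num_odd M).2
  refine hM.trans ?_
  rw [mul_right_comm]
  refine mul_le_mul_of_nonneg_right (le_trans (mul_le_mul_of_nonneg_left (mul_le_mul (num_geom M).1
    a5 (prod_nonneg fun _ _ => by positivity) (by norm_num)) (by norm_num)) (by norm_num))
    (by positivity)

theorem count_half (hq : 3 ≤ Fintype.card F) (h2 : (2 : F) ≠ 0) {n s : ℕ} (hs : s ≤ 1)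
    (hW : ∀ t ∈ T, WD 1 (2 * n + s) (u t) (δ₁ t) (δ₂ t))
    (hi : ∀ t ∈ T, ∀ t' ∈ T, u t = u t' → δ₁ t = δ₁ t' → δ₂ t = δ₂ t' → t = t')
    (hp : ∀ t t' M, u t = u t' → 2 * n + s < M →
      Even (∑ a ∈ range M, ((δ₁ t a : ℕ) + δ₁ t' a) + ∑ a ∈ range M, ((δ₂ t a : ℕ) + δ₂ t' a))) :
    2 * (#T : ℝ) ≤ (if s = 0 then 19 else 28.43) * Fintype.card F ^ n := by
  let P : (ℕ → F[X]) → Prop := fun w => ∀ k, k % 2 = 1 →
    rootMultiplicity 1 (w k) = 0 ∧ rootMultiplicity (-1) (w k) = 0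
  have : ∀ w, ¬ P w → ∃ (i₁ i₂ : ℕ → Fin 2) (k : ℕ),
      (∀ a, i₁ a ≠ 0 → a % 2 = 1 ∧ 0 < rootMultiplicity 1 (w a)) ∧
      (∀ a, i₂ a ≠ 0 → a % 2 = 1 ∧ 0 < rootMultiplicity (-1) (w a)) ∧
      ∀ M, k < M → ∑ a ∈ range M, (i₁ a : ℕ) + ∑ a ∈ range M, (i₂ a : ℕ) = 1 := fun w hw => by
    simp only [P, not_forall, not_and_or] at hw
    have key : ∀ k M, k < M → ∑ a ∈ range M, ((Pi.single k 1 : ℕ → Fin 2) a : ℕ) = 1 :=
      fun k M h => by rw [sum_eq_single k (fun b _ hb => by simp [hb]) (by simp [h])]; simp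
    have key' : ∀ k a, (Pi.single k 1 : ℕ → Fin 2) a ≠ 0 → a = k := fun k a h =>
      by_contra fun h' => h (by simp [h'])
    obtain ⟨k, hk, h | h⟩ := hw
    · exact ⟨Pi.single k 1, 0, k, fun a ha => key' k a ha ▸ ⟨hk, Nat.pos_of_ne_zero h⟩, by simp,
        fun M hM => by simp [key k M hM]⟩
    · exact ⟨0, Pi.single k 1, k, by simp, fun a ha => key' k a ha ▸ ⟨hk, Nat.pos_of_ne_zero h⟩,
        fun M hM => by simp [key k M hM]⟩
  choose! i₁ i₂ k0 a1 a2 a3 using this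
  have b1 := count_o' (T := {t ∈ T | P (u t)}) hq h2 hs (fun t ht => hW t (mem_filter.1 ht).1)
    (fun t ht t' ht' => hi t (mem_filter.1 ht).1 t' (mem_filter.1 ht').1)
    fun t ht => (mem_filter.1 ht).2
  have key : ∀ {c : F} {w : ℕ → F[X]} {δ i : ℕ → Fin 2}, Adm 1 c w δ →
      (∀ a, i a ≠ 0 → a % 2 = 1 ∧ 0 < rootMultiplicity c (w a)) → Adm 1 c w (δ + i) :=
    fun {c w δ i} h h' => ⟨fun a ha => by
      by_cases h0 : δ a = 0
      exacts [h' a (by simpa [h0] using ha), h.pos a h0], h.ev⟩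
  have key2 : ∀ t t', ¬ P (u t) → u t = u t' → δ₁ t + i₁ (u t) = δ₁ t' → δ₂ t + i₂ (u t) = δ₂ t' →
      False := fun t t' ht c1 c2 c3 => by
    have c4 := hp t t' (2 * n + s + k0 (u t) + 1) c1 (by omega)
    have c5 := a3 _ ht (2 * n + s + k0 (u t) + 1) (by omega)
    have c6 : ∀ (δ i : ℕ → Fin 2) M, (∑ a ∈ range M, ((δ a : ℕ) + (δ + i) a)) % 2 =
        (∑ a ∈ range M, (i a : ℕ)) % 2 := fun δ i M => by
      rw [sum_nat_mod, sum_nat_mod _ _ fun a => (i a : ℕ)]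
      congr 1
      refine sum_congr rfl fun a _ => ?_
      rw [Pi.add_apply]
      generalize δ a = x
      generalize i a = y
      revert x y
      decide
    rw [← c2, ← c3, Nat.even_iff, Nat.add_mod, c6, c6, ← Nat.add_mod, c5] at c4
    exact absurd c4 (by decide)
  have b2 := count_o (T := T.disjSum {t ∈ T | ¬ P (u t)}) (u := Sum.elim u u)
    (δ₁ := Sum.elim δ₁ fun t => δ₁ t + i₁ (u t)) (δ₂ := Sum.elim δ₂ fun t => δ₂ t + i₂ (u t)) hq h2 hs
    (by
      rintro (t | t) ht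
      · exact hW t (inl_mem_disjSum.1 ht)
      · obtain ⟨c1, c2⟩ := mem_filter.1 (inr_mem_disjSum.1 ht)
        exact ⟨(hW t c1).isD, (hW t c1).du, key (hW t c1).one (a1 _ c2), key (hW t c1).neg (a2 _ c2)⟩)
    (by
      rintro (t | t) ht (t' | t') ht' c1 c2 c3 <;>
        simp only [Sum.elim_inl, Sum.elim_inr, inl_mem_disjSum, inr_mem_disjSum, mem_filter] at *
      · rw [hi t ht t' ht' c1 c2 c3]
      · exact (key2 t' t ht'.2 c1.symm c2.symm c3.symm).elim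
      · exact (key2 t t' ht.2 c1 c2 c3).elim
      · rw [c1, add_left_inj] at c2 c3
        rw [hi t ht.1 t' ht'.1 c1 c2 c3])
  rw [card_disjSum, Nat.cast_add] at b2
  have b3 : (#{t ∈ T | P (u t)} : ℝ) + #{t ∈ T | ¬ P (u t)} = #T := by
    exact_mod_cast card_filter_add_card_filter_not _
  have h : (0 : ℝ) ≤ Fintype.card F ^ n := by positivity
  split_ifs at * <;> linarith

end Data

end H64.Wall
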