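import Mathlib
import Cfsg.Agent.Lib.Wall.Count

/-!
The number of conjugacy classes of the symplectic groups in odd characteristic.
-/

set_option autoImplicit false

namespace H64.Wall

open Module

variable {F : Type*} [Field F] [Fintype F]

theorem two_ne_of_odd (hodd : Odd (Fintype.card F)) : (2 : F) ≠ 0 := Ring.two_ne_zero fun h => by
  have := FiniteField.even_card_iff_char_two.1 h
  have := Nat.odd_iff.1 hodd
  omega

theorem three_le_of_odd (hodd : Odd (Fintype.card F)) : 3 ≤ Fintype.card F := by
  have := Fintype.one_lt_card (α := F)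
  have := Nat.odd_iff.1 hodd
  omega

theorem card_sp_le (hodd : Odd (Fintype.card F)) (n : ℕ) :
    5 * Nat.card (ConjClasses (Matrix.symplecticGroup (Fin n) F)) ≤ 54 * Fintype.card F ^ n := by
  have : Finite (ConjClasses (Matrix.symplecticGroup (Fin n) F)) := Quotient.finite _
  have := Fintype.ofFinite (ConjClasses (Matrix.symplecticGroup (Fin n) F))
  let ρ : Matrix.symplecticGroup (Fin n) F →* End F (Fin n ⊕ Fin n → F) :=
    { toFun := fun g => Matrix.toLin' g.1
      map_one' := Matrix.toLin'_one
      map_mul' := fun g h => Matrix.toLin'_mul _ _ }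
  obtain ⟨u, δ₁, δ₂, h1, h3, -⟩ := exists_data (two_ne_of_odd hodd) (ε := -1) (r := 0)
    (Or.inr ⟨rfl, rfl⟩) (H66.sympBilin_nondegenerate n)
    (fun v w => by rw [← (H66.sympBilin_isAlt n).neg_eq]; ring) ρ
    (fun g h e => Subtype.ext (Matrix.toLin'.injective e))
    (fun g => (H66.mem_symplecticGroup_iff _).1 g.2) fun f hf => by
      obtain ⟨A, rfl⟩ := Matrix.toLin'.surjective f
      exact ⟨⟨A, (H66.mem_symplecticGroup_iff _).2 hf⟩, rfl⟩
  rw [Nat.card_eq_fintype_card, ← Finset.card_univ]
  exact count_sp (three_le_of_odd hodd) (two_ne_of_odd hodd)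
    (fun C _ => by simpa [two_mul] using h3 C) fun C _ C' _ => h1 C C'

theorem le_card_sp (n : ℕ) :
    Fintype.card F ^ n ≤ Nat.card (ConjClasses (Matrix.symplecticGroup (Fin n) F)) := by
  have : Finite (ConjClasses (Matrix.symplecticGroup (Fin n) F)) := Quotient.finite _
  obtain ⟨p, hp⟩ := CharP.exists F
  have : Fact p.Prime := ⟨CharP.char_is_prime F p⟩
  rw [← H72.Cls.card_sp p n]
  exact Finite.card_subtype_le _

end H64.Wall
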