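import Mathlib
import Cfsg.Agent.Lib.Wall.Sp
import Cfsg.Agent.Lib.MatConj.OData
import Cfsg.Agent.Lib.H81.ClassNum

/-!
The number of conjugacy classes of the orthogonal groups in odd characteristic.
-/

set_option autoImplicit false

namespace H64.Wall

open Module Polynomial Finset H65 H12 H80 QuadraticMap
open scoped Classical

section Grp

variable {G H : Type*} [Group G] [Group H]

theorem card_classes_congr (e : G ≃* H) :
    Nat.card (ConjClasses G) = Nat.card (ConjClasses H) :=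
  Nat.card_congr (Quotient.congr e.toEquiv fun a b =>
    ⟨fun h => MonoidHom.map_isConj e.toMonoidHom h, fun h => show IsConj a b by
      simpa using MonoidHom.map_isConj e.symm.toMonoidHom h⟩)

theorem sum_card_Cx [Fintype G] [Fintype (ConjClasses G)] (P : ConjClasses G → Prop)
    [DecidablePred P] :
    ∑ x with P (ConjClasses.mk x), Nat.card Cx⟦x⟧ = #{C | P C} * Nat.card G := by
  rw [← sum_fiberwise_of_maps_to (g := ConjClasses.mk) (t := {C | P C}) (by simp), ← smul_eq_mul,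
    ← sum_const]
  refine sum_congr rfl fun C hC => ?_
  obtain ⟨x, rfl⟩ := ConjClasses.mk_surjective C
  rw [sum_congr rfl (g := fun _ => Nat.card Cx⟦x⟧) fun y hy => by
    obtain ⟨g, rfl⟩ := isConj_iff.1 (ConjClasses.mk_eq_mk_iff_isConj.1 (mem_filter.1 hy).2)
    exact (card_Cx_conj g y).symm, sum_const, smul_eq_mul, ← card_Cx_mul_cs x, mul_comm,
    ← card_carrier_mk, Nat.card_eq_fintype_card (α := (ConjClasses.mk x).carrier),
    Fintype.card_subtype]
  congr 2
  ext y
  simp only [mem_filter, mem_univ, true_and, ConjClasses.mem_carrier_iff_mk_eq, and_iff_right_iff_imp]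
  exact fun h => h ▸ (mem_filter.1 hC).2

theorem two_mul_card_classes_ker [Fintype G] [Fintype (ConjClasses G)] (ψ : G →* ℤˣ)
    (hψ : ∃ g, ψ g = -1) : 2 * Nat.card (ConjClasses ψ.ker) = Nat.card (ConjClasses G) +
      3 * #{C : ConjClasses G | ∀ g, ConjClasses.mk g = C → ∀ z, Commute g z → ψ z = 1} := by
  set b := #{C : ConjClasses G | ∀ g, ConjClasses.mk g = C → ∀ z, Commute g z → ψ z = 1}
  let P : G → Prop := fun g => ∀ z, Commute g z → ψ z = 1
  have h1 : ∑ x with P x, Nat.card Cx⟦x⟧ = b * Nat.card G := by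
    refine Eq.trans ?_ (sum_card_Cx _)
    refine sum_congr (filter_congr fun x _ => ⟨fun h g hg z hz => ?_, fun h => h x rfl⟩) fun _ _ => rfl
    obtain ⟨c, rfl⟩ := isConj_iff.1 (ConjClasses.mk_eq_mk_iff_isConj.1 hg)
    have := h (c * z * c⁻¹) (hz.map (MulAut.conj c))
    rwa [map_mul, map_mul, mul_right_comm, ← map_mul, mul_inv_cancel, map_one, one_mul] at this
  have h2 : ∀ x, ∑ y with Commute x y, (ψ y : ℤ) = if P x then Nat.card Cx⟦x⟧ else 0 := fun x => by
    rw [sum_subtype (p := (· ∈ Cx⟦x⟧)) (F := inferInstance) _ (by simp [mem_Cx_iff_commute])]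
    split_ifs with h
    · simp [fun y : Cx⟦x⟧ => h y (mem_Cx_iff_commute.1 y.2)]
    · exact sum_hom_units_eq_zero ((Units.coeHom ℤ).comp (ψ.comp (Subgroup.subtype _))) fun e =>
        h fun z hz => Units.ext (by simpa using DFunLike.congr_fun e ⟨z, mem_Cx_iff_commute.2 hz⟩)
  have h3 : ∀ x : G, ∑ y with Commute x y, (1 : ℤ) = Nat.card Cx⟦x⟧ := fun x => by
    simp [Fintype.card_subtype, mem_Cx_iff_commute]
  have h4 : ∑ x, ∑ y with Commute x y, (ψ y : ℤ) = b * Nat.card G := by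
    simp only [h2]
    rw [sum_filter] at h1
    exact_mod_cast h1
  have h5 : ∑ x, ∑ y with Commute x y, (ψ x : ℤ) = b * Nat.card G := by
    rw [← h4, sum_comm' (t' := univ) (s' := fun y => {x | Commute y x}) fun x y => by
      simp [Commute.symm_iff]]
  have h6 : ∑ x, ∑ y with Commute x y, (ψ x * ψ y : ℤ) = b * Nat.card G := by
    rw [← h4]
    refine sum_congr rfl fun x _ => ?_
    rw [← mul_sum, h2]
    split_ifs with h
    · rw [h x (Commute.refl x), Units.val_one, one_mul]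
    · simp
  have h7 : ∑ x : G, ∑ y with Commute x y, (1 : ℤ) = Nat.card (ConjClasses G) * Nat.card G := by
    simp only [h3]
    exact_mod_cast (H81.card_conjClasses_mul_card (G := G)).symm
  have h8 : ∑ x, ∑ y with Commute x y, (1 + ψ x : ℤ) * (1 + ψ y) =
      4 * (Nat.card (ConjClasses ψ.ker) * Nat.card ψ.ker) := by
    rw [← Nat.cast_mul, H81.card_conjClasses_mul_card, Nat.cast_sum, mul_sum,
      ← sum_subset (subset_univ {x | x ∈ ψ.ker}) fun x _ hx => by
        rw [(Int.units_eq_one_or (ψ x)).resolve_left (by simpa using hx)]; simp,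
      sum_subtype (p := (· ∈ ψ.ker)) (F := inferInstance) _ (by simp)]
    refine sum_congr rfl fun x _ => ?_
    rw [card_Cx_subtype, H81.card_inf_eq_filter, show ψ x = 1 from x.2, ← filter_filter,
      card_filter, Nat.cast_sum, mul_sum]
    refine sum_congr (filter_congr fun y _ => mem_Cx_iff_commute.symm) fun y _ => ?_
    rcases Int.units_eq_one_or (ψ y) with h | h <;> simp [h]
  have h9 : ψ.ker.index = 2 := by
    rw [Subgroup.index_ker, MonoidHom.range_eq_top.2, Subgroup.card_top, Nat.card_eq_fintype_card,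
      Fintype.card_units_int]
    intro u
    rcases Int.units_eq_one_or u with rfl | rfl
    exacts [⟨1, map_one _⟩, hψ]
  have h10 := ψ.ker.card_mul_index
  simp only [add_mul, mul_add, one_mul, mul_one, sum_add_distrib, h4, h5, h6, h7] at h8
  rw [← h10, h9] at h8
  have h11 : (0 : ℤ) < Nat.card ψ.ker := by exact_mod_cast Nat.card_pos
  zify
  refine mul_right_cancel₀ (mul_ne_zero two_ne_zero h11.ne') ?_
  push_cast at h8
  linear_combination -h8

end Grp

variable {F V W : Type*} [Field F] [Fintype F] [NeZero (2 : F)] [AddCommGroup V] [Module F V]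
  [FiniteDimensional F V] [AddCommGroup W] [Module F W] [FiniteDimensional F W]
  {Q : QuadraticForm F V}

theorem exists_O {f : End F W} {δ s : ℤˣ} (h : OD f δ s) (hQ₀ : Nondeg Q)
    (hV : finrank F W = finrank F V) (hδ : Odd (finrank F V) ∨ spinFun (negO Q) = δ) :
    ∃ x : O Q, Similar f (x.1 : End F V) := by
  obtain ⟨Q', g, hQ, h1, h2, h3⟩ := h
  let b := Module.finBasis F W
  let b' := Module.finBasis F V
  have b1 := H66.gramDet_ne_zero (nondeg_iff.1 hQ) b
  have b2 := H66.gramDet_ne_zero (nondeg_iff.1 hQ₀) b'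
  obtain ⟨c, hc, hc'⟩ : ∃ c : F, c ≠ 0 ∧
      IsSquare (c ^ finrank F W * (H66.gramDet Q' b * H66.gramDet Q b')) := by
    rcases hδ with ho | e
    · refine ⟨_, mul_ne_zero b1 b2, ?_⟩
      rw [← pow_succ]
      exact (hV ▸ ho).add_one.isSquare_pow _
    · refine ⟨1, one_ne_zero, ?_⟩
      rw [← h2, ← coe_spin hQ (good_of_two_ne_zero hQ two_ne_zero),
        ← coe_spin hQ₀ (good_of_two_ne_zero hQ₀ two_ne_zero), coe_spin_negO _ _ two_ne_zero b,
        coe_spin_negO _ _ two_ne_zero b', map_mul, map_mul, Fintype.card_fin, Fintype.card_fin,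
        show (2 : F) ^ finrank F V = 2 ^ finrank F W by rw [hV],
        mul_right_inj' (mt quadraticChar_eq_zero_iff.1 (pow_ne_zero _ two_ne_zero))] at e
      rw [one_pow, one_mul, ← quadraticChar_one_iff_isSquare (mul_ne_zero b1 b2), map_mul]
      exact (congrArg _ e).trans ((_root_.sq _).symm.trans (quadraticChar_sq_one b1))
  have c1 : ∀ x y, polar (c • Q' : QuadraticForm F W) x y = c * polar Q' x y := fun x y => by
    simp [polar]; ring
  have hQ' : Nondeg (c • Q') := fun v hv => hQ v fun w => by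
    simpa [hc] using (c1 v w).symm.trans (hv w)
  obtain ⟨Φ, hΦ⟩ := H66.exists_equiv_of_isSquare_gramDet two_ne_zero (nondeg_iff.1 hQ')
    (nondeg_iff.1 hQ₀) hV b b' (by
      rwa [H66.gramDet, show (Matrix.of fun i j => polar (c • Q' : QuadraticForm F W) (b i) (b j)) =
        c • Matrix.of fun i j => polar Q' (b i) (b j) from Matrix.ext fun i j => c1 _ _,
        Matrix.det_smul, Fintype.card_fin, mul_assoc])
  let g' : O (c • Q') := ⟨g.1, fun v => by simp [g.2 v]⟩
  exact ⟨congrO Φ hΦ g', Φ, fun v => (congrArg Φ (h1 v).symm).trans (congrO_apply Φ hΦ g' v).symm⟩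

theorem od_one (a : ℕ) : (∃ δ s, OD (1 : End F (Fin a → F)) δ s) ∧
    (0 < a → ∀ δ, ∃ s, OD (1 : End F (Fin a → F)) δ s) := by
  refine ⟨pres_false_one.exists_od, fun ha δ => ?_⟩
  obtain ⟨δ', s, h⟩ := (pres_false_one (F := F) (V := Fin (a - 1) → F)).exists_od
  have := ((od_line (F := F) (δ * δ'⁻¹)).prodMap h).of_similar (f' := (1 : End F (Fin a → F)))
    ⟨LinearEquiv.ofFinrankEq _ _ (by simp; omega), fun _ => rfl⟩
  rw [inv_mul_cancel_right] at this
  exact ⟨_, this⟩

theorem realize (hQ : Nondeg Q) {a b : ℕ} {w : F[X]} (hw : Pal w) (h1 : w.eval 1 ≠ 0)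
    (h2 : w.eval (-1) ≠ 0) (hd : a + (b + w.natDegree) = finrank F V)
    (h : 0 < a + b ∨ quadraticChar F (w.eval 1 * w.eval (-1)) = spinFun (negO Q)) :
    ∃ g : O Q, (g.1 : End F V).charpoly = (X - C 1) ^ a * ((X - C (-1)) ^ b * w) := by
  generalize hl : w.natDegree = l at hd
  obtain ⟨A, -, e, hP⟩ := H72.Cls.exists_pres_core (n := Fin l) hw.monic
    (by rw [← hw.rev, coeff_zero_reverse, hw.monic.leadingCoeff]; exact one_ne_zero)
    (mt dvd_iff_isRoot.1 h1) (mt dvd_iff_isRoot.1 h2) (.of_eq hw.rev) (by rw [hl, Fintype.card_fin])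
  rw [← Matrix.charpoly_toLin'] at e
  generalize Matrix.toLin' A = x at e hP
  have a1 : LinearMap.det (1 - x) = w.eval 1 := by rw [← e, LinearMap.eval_charpoly, map_one]
  have a2 : LinearMap.det (1 + x) = w.eval (-1) := by
    rw [← e, LinearMap.eval_charpoly, map_neg, map_one, ← neg_add', ← neg_one_smul F (1 + x),
      LinearMap.det_smul, finrank_fin_fun, (show Even l from hl ▸ hw.ev).neg_one_pow, one_mul]
  have a3 : IsUnit (1 - x) := (LinearMap.isUnit_iff_isUnit_det _).2 (a1 ▸ h1.isUnit)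
  have a4 : IsUnit (1 + x) := (LinearMap.isUnit_iff_isUnit_det _).2 (a2 ▸ h2.isUnit)
  obtain ⟨δ, s, a5⟩ := (hP.swap (by
    rw [show x * x - 1 = -((1 - x) * (1 + x)) by
      rw [mul_add, mul_one, sub_mul, one_mul]; abel]
    exact (a3.mul a4).neg) false).exists_od
  obtain ⟨δ₀, -, a6, -⟩ := exists_od hQ (1 : O Q) (f := 1) fun _ => rfl
  obtain ⟨δ₁, δ₂, s₁, s₂, a7, a8, a9⟩ : ∃ δ₁ δ₂ s₁ s₂, OD (1 : End F (Fin a → F)) δ₁ s₁ ∧
      OD (1 : End F (Fin b → F)) δ₂ s₂ ∧ δ₀ = δ₁ * (δ₂ * δ) := by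
    rcases Nat.eq_zero_or_pos a with rfl | ha
    · rcases Nat.eq_zero_or_pos b with rfl | hb
      · obtain ⟨δ₁, s₁, a7⟩ := (od_one (F := F) 0).1
        refine ⟨_, _, _, _, a7, a7, Units.ext ?_⟩
        rw [← mul_assoc, Int.units_mul_self, one_mul, ← a6, ← h.resolve_left (by simp),
          ← mul_one δ, ← Int.units_mul_self s, ← mul_assoc, Units.val_mul, a5.disc_eq a3,
          a5.spin_eq a4, a1, a2, ← map_mul, mul_mul_mul_comm, map_mul _ (_ * _) (_ * _), ← _root_.sq,
          quadraticChar_sq_one' (pow_ne_zero _ two_ne_zero), one_mul]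
      · obtain ⟨δ₁, s₁, a7⟩ := (od_one (F := F) 0).1
        obtain ⟨s₂, a8⟩ := (od_one (F := F) b).2 hb (δ₁⁻¹ * δ₀ * δ⁻¹)
        exact ⟨_, _, _, _, a7, a8, by group⟩
    · obtain ⟨δ₂, s₂, a8⟩ := (od_one (F := F) b).1
      obtain ⟨s₁, a7⟩ := (od_one (F := F) a).2 ha (δ₀ * (δ₂ * δ)⁻¹)
      exact ⟨_, _, _, _, a7, a8, by group⟩
  obtain ⟨g, hg⟩ := exists_O (a7.prodMap (a8.neg.prodMap a5)) hQ (by simpa using hd)
    (Or.inr (a9 ▸ a6))
  refine ⟨g, ?_⟩
  rw [← hg.charpoly_eq, LinearMap.charpoly_prodMap, LinearMap.charpoly_prodMap, e,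
    LinearMap.charpoly_one, finrank_fin_fun]
  congr 2
  rw [← LinearMap.charpoly_toMatrix _ (Pi.basisFun F _), map_neg, LinearMap.toMatrix_one,
    ← Matrix.diagonal_one, Matrix.diagonal_neg, Matrix.charpoly_diagonal]
  simp

omit [NeZero (2 : F)] in
theorem finite_O : Finite (O Q) :=
  have := H66.finite_end (F := F) (V := V)
  Finite.of_injective (fun g : O Q => (g.1 : End F V)) fun _ _ h => O.ext (LinearMap.congr_fun h)

omit [NeZero (2 : F)] in
theorem card_le_classes (S : Finset F[X]) (h : ∀ f ∈ S, ∃ g : O Q, (g.1 : End F V).charpoly = f) :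
    #S ≤ Nat.card (ConjClasses (O Q)) := by
  have := finite_O (Q := Q)
  have : Finite (ConjClasses (O Q)) := Quotient.finite _
  choose g hg using h
  rw [← Nat.card_eq_finsetCard]
  refine Nat.card_le_card_of_injective (fun f => ConjClasses.mk (g f.1 f.2)) fun f f' e => ?_
  obtain ⟨c, hc⟩ := isConj_iff.1 (ConjClasses.mk_eq_mk_iff_isConj.1 e)
  refine Subtype.ext ((hg f.1 f.2).symm.trans (Eq.trans (Similar.charpoly_eq ⟨c.1, fun v => ?_⟩)
    (hg f'.1 f'.2)))
  rw [← hc]
  simp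

theorem core_of_pal {f : F[X]} (hf : Pal f) : ∃ a b w, Pal w ∧ w.eval 1 ≠ 0 ∧ w.eval (-1) ≠ 0 ∧
    f = (X - C 1) ^ a * ((X - C (-1)) ^ b * w) ∧ a + (b + w.natDegree) = f.natDegree := by
  obtain ⟨w, h1, h2, h3, h4⟩ := exists_core two_ne_zero hf.monic (by
    rw [du_apply, Polynomial.map_id, hf.rev, ← hf.rev, coeff_zero_reverse, hf.monic.leadingCoeff]
    simp)
  refine ⟨_, _, w, h1, h2, h3, h4, ?_⟩
  conv_rhs => rw [h4]
  rw [((monic_X_sub_C _).pow _).natDegree_mul (((monic_X_sub_C _).pow _).mul h1.monic),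
    ((monic_X_sub_C _).pow _).natDegree_mul h1.monic]
  simp only [natDegree_pow, natDegree_X_sub_C, mul_one]

theorem le_card_O_odd (hQ : Nondeg Q) {n : ℕ} (hV : finrank F V = 2 * n + 1) :
    2 * Fintype.card F ^ n ≤ Nat.card (ConjClasses (O Q)) := by
  have h : ∀ c : F, #((PalF F n).image ((X - C c) * ·)) = Fintype.card F ^ n := fun c => by
    rw [card_image_of_injective _ (mul_right_injective₀ (X_sub_C_ne_zero c)), card_PalF]
  rw [two_mul]
  nth_rw 1 [← h 1, ← h (-1)]
  rw [← card_union_of_disjoint]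
  · refine card_le_classes _ fun f hf => ?_
    rcases mem_union.1 hf with hf | hf <;> obtain ⟨p, hp, rfl⟩ := mem_image.1 hf <;>
      obtain ⟨a, b, w, h1, h2, h3, h4, h5⟩ := core_of_pal (mem_PalF.1 hp).1 <;>
      rw [(mem_PalF.1 hp).2] at h5
    · simpa only [h4, pow_succ', mul_assoc] using
        realize hQ (a := a + 1) (b := b) h1 h2 h3 (by omega) (Or.inl (by omega))
    · simpa only [h4, pow_succ', mul_assoc, mul_left_comm (X - C (-1 : F))] using
        realize hQ (a := a) (b := b + 1) h1 h2 h3 (by omega) (Or.inl (by omega))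
  · refine disjoint_left.2 fun f hf hf' => ?_
    obtain ⟨p, hp, rfl⟩ := mem_image.1 hf
    obtain ⟨p', hp', e⟩ := mem_image.1 hf'
    have key : ∀ p ∈ PalF F n, p.coeff 0 = 1 := fun p hp => by
      rw [← (mem_PalF.1 hp).1.rev, coeff_zero_reverse, (mem_PalF.1 hp).1.monic.leadingCoeff]
    have := congrArg (coeff · 0) e
    simp only [mul_coeff_zero, key p hp, key p' hp', coeff_sub, coeff_X_zero, coeff_C_zero] at this
    exact two_ne_zero (α := F) (by linear_combination this)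

theorem le_card_O_even (hQ : Nondeg Q) {n : ℕ} (hn : 2 ≤ n) (hV : finrank F V = 2 * n) :
    Fintype.card F ^ n ≤ 2 * Nat.card (ConjClasses (O Q)) := by
  obtain ⟨δ₀, -, a6, -⟩ := exists_od hQ (1 : O Q) (f := 1) fun _ => rfl
  obtain ⟨α, hα⟩ := exists_nonsq (two_ne_zero (α := F))
  let P : F[X] → Prop := fun f => quadraticChar F (f.eval 1 * f.eval (-1)) = -δ₀
  have h1 : #{f ∈ PalF F n | ¬ P f} ≤ Nat.card (ConjClasses (O Q)) := card_le_classes _ fun f hf => by
    obtain ⟨b1, b2⟩ := mem_filter.1 hf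
    obtain ⟨a, b, w, h1, h2, h3, h4, h5⟩ := core_of_pal (mem_PalF.1 b1).1
    rw [(mem_PalF.1 b1).2] at h5
    refine h4 ▸ realize hQ h1 h2 h3 (by omega) ((Nat.eq_zero_or_pos (a + b)).symm.imp_right fun h => ?_)
    obtain ⟨rfl, rfl⟩ := Nat.add_eq_zero_iff.1 h
    simp only [pow_zero, one_mul] at h4
    rw [a6]
    rcases quadraticChar_dichotomy (mul_ne_zero h2 h3) with h | h <;>
      rcases Int.units_eq_one_or δ₀ with rfl | rfl <;> simp_all [P]
  have h4 : (4 : F) ≠ 0 := by rw [show (4 : F) = 2 * 2 by norm_num]; simp [two_ne_zero]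
  obtain ⟨m, rfl⟩ : ∃ m, n = m + 2 := ⟨n - 2, by omega⟩
  have h2 : #{f ∈ PalF F (m + 2) | P f} ≤ #{f ∈ PalF F (m + 2) | ¬ P f} := by
    have key : ∀ f : F[X], (f + C ((α - 1) * f.eval 1 / 4) * (X ^ (m + 1) * (X + 1) ^ 2)).eval 1 =
        α * f.eval 1 := fun f => by
      simp only [eval_add, eval_mul, eval_C, eval_pow, eval_X, eval_one]
      field_simp
      ring
    have hα0 : α ≠ 0 := by rintro rfl; simp at hα
    refine card_le_card_of_injOn (fun f => f + C ((α - 1) * f.eval 1 / 4) *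
      (X ^ (m + 1) * (X + 1) ^ 2)) (fun f hf => ?_) fun f _ f' _ e => ?_
    · obtain ⟨b1, b2⟩ := mem_filter.1 hf
      obtain ⟨b3, b4⟩ := mem_PalF.1 b1
      refine mem_coe.2 (mem_filter.2 ⟨?_, fun h => ?_⟩)
      · beta_reduce
        generalize (α - 1) * f.eval 1 / 4 = c
        have b5 : (C c * (X ^ (m + 1) * (X + 1) ^ 2) : F[X]).natDegree ≤ m + 3 := by compute_degree
        have b6 : (f + C c * (X ^ (m + 1) * (X + 1) ^ 2)).natDegree = 2 * (m + 2) := by
          rw [natDegree_add_eq_left_of_natDegree_lt (by omega), b4]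
        refine mem_PalF.2 ⟨⟨b3.monic.add_of_left (degree_lt_degree (by omega)), ?_,
          b6 ▸ even_two_mul _⟩, b6⟩
        have b7 := b3.rev
        rw [reverse, b4] at b7
        rw [reverse, b6, reflect_add, b7, reflect_C_mul, show (X ^ (m + 1) * (X + 1) ^ 2 : F[X]) =
          X ^ (m + 3) + (X ^ (m + 2) + X ^ (m + 2)) + X ^ (m + 1) by ring]
        simp only [reflect_add, reflect_monomial]
        rw [revAt_le (by omega), revAt_le (by omega), revAt_le (by omega),
          show 2 * (m + 2) - (m + 3) = m + 1 by omega, show 2 * (m + 2) - (m + 2) = m + 2 by omega,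
          show 2 * (m + 2) - (m + 1) = m + 3 by omega]
        ring
      · simp only [P] at h b2
        rw [key, mul_assoc, map_mul, quadraticChar_neg_one_iff_not_isSquare.2 hα] at h
        simp only [eval_add, eval_mul, eval_pow, eval_X, eval_one, neg_add_cancel, ne_eq,
          OfNat.ofNat_ne_zero, not_false_eq_true, zero_pow, mul_zero, add_zero, b2] at h
        exact δ₀.ne_zero (by omega)
    · have := congrArg (eval 1) e
      simp only [key] at this
      simpa only [mul_left_cancel₀ hα0 this, add_left_inj] using e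
  have h3 : #{f ∈ PalF F (m + 2) | P f} + #{f ∈ PalF F (m + 2) | ¬ P f} = _ :=
    card_filter_add_card_filter_not _
  rw [card_PalF] at h3
  omega

theorem data_O (hQ : Nondeg Q) : ∃ (u : ConjClasses (O Q) → ℕ → F[X])
    (δ₁ δ₂ : ConjClasses (O Q) → ℕ → Fin 2),
      (∀ C C', u C = u C' → δ₁ C = δ₁ C' → δ₂ C = δ₂ C' → C = C') ∧
      (∀ C, WD 1 (finrank F V) (u C) (δ₁ C) (δ₂ C)) ∧
      (∀ C C' M, u C = u C' → finrank F V < M →
        Even (∑ a ∈ range M, ((δ₁ C a : ℕ) + δ₁ C' a) + ∑ a ∈ range M, ((δ₂ C a : ℕ) + δ₂ C' a))) ∧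
      (∀ κ C, (∀ g : O Q, ConjClasses.mk g = C → SP κ ((g.1 : End F V) - 1) (polarBilin Q) ∧
          SP κ (-(g.1 : End F V) - 1) (polarBilin Q)) →
        (∀ a, Odd a → rootMultiplicity 1 (u C a) ≤ 1 ∧ rootMultiplicity (-1) (u C a) ≤ 1) ∧
        ∀ C', (∀ g : O Q, ConjClasses.mk g = C' → SP κ ((g.1 : End F V) - 1) (polarBilin Q) ∧
          SP κ (-(g.1 : End F V) - 1) (polarBilin Q)) → u C = u C' → C = C') := by
  let ρ : O Q →* End F V := ⟨⟨fun g => g.1, rfl⟩, fun _ _ => rfl⟩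
  obtain ⟨u, δ₁, δ₂, h1, h2, h3, h4⟩ := exists_data two_ne_zero (ε := 1) (r := 1) (Or.inl ⟨rfl, rfl⟩)
    (nondeg_iff.1 hQ) (fun v w => by simp [polar_comm]) ρ
    (fun _ _ h => O.ext (LinearMap.congr_fun h)) (fun g => O.map_B g) fun f hf =>
      ⟨⟨LinearEquiv.ofBijective f ((End.isUnit_iff f).1
        (H66.isUnit_of_preserves (nondeg_iff.1 hQ) hf)), fun v => mul_left_cancel₀ two_ne_zero (by
          simpa [polar_self] using hf v v)⟩, rfl⟩
  exact ⟨u, δ₁, δ₂, h1, h2, h3 rfl, h4 rfl⟩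

theorem card_O_le (hq : 3 ≤ Fintype.card F) (hQ : Nondeg Q) {n s : ℕ} (hs : s ≤ 1)
    (hV : finrank F V = 2 * n + s) : 2 * (Nat.card (ConjClasses (O Q)) : ℝ) ≤
      (if s = 0 then 19 else 28.43) * Fintype.card F ^ n := by
  have := finite_O (Q := Q)
  have : Finite (ConjClasses (O Q)) := Quotient.finite _
  have := Fintype.ofFinite (ConjClasses (O Q))
  obtain ⟨u, δ₁, δ₂, h1, h2, h3, -⟩ := data_O hQ
  rw [hV] at h2 h3
  rw [Nat.card_eq_fintype_card, ← card_univ]
  exact count_half hq two_ne_zero hs (fun C _ => h2 C) (fun C _ C' _ => h1 C C') h3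

theorem card_O_even (hq : 3 ≤ Fintype.card F) {ι : Type} [Fintype ι] [DecidableEq ι]
    {Q : QuadraticForm F (ι → F)} (hQ : Nondeg Q) {n : ℕ} (hn : 2 ≤ n)
    (hV : finrank F (ι → F) = 2 * n) {q : (ι → F) → F} (h : ∀ v, Q v = q v) :
    Fintype.card F ^ n ≤ 2 * Nat.card (ConjClasses (Cfsg.isometryGroup F q)) ∧
      2 * Nat.card (ConjClasses (Cfsg.isometryGroup F q)) ≤ 19 * Fintype.card F ^ n := by
  rw [card_classes_congr (isoEquiv Q h)]
  refine ⟨le_card_O_even hQ hn hV, ?_⟩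
  have := card_O_le hq hQ zero_le_one hV
  rw [if_pos rfl] at this
  exact_mod_cast this

end H64.Wall
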