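import Mathlib
import Cfsg.Agent.Lib.Wall.Orth

/-!
The number of conjugacy classes of the groups `Ω` in odd dimension and odd characteristic.
-/

set_option autoImplicit false

namespace H64.Wall

open Module Polynomial Finset H65 H12 QuadraticMap
open scoped Classical

variable {F V : Type*} [Field F] [Fintype F] [NeZero (2 : F)] [AddCommGroup V] [Module F V]
  [FiniteDimensional F V] {Q : QuadraticForm F V}

theorem exists_neg_on (hQ : Nondeg Q) (g : O Q) (W : Submodule F V) (hW : ∀ v ∈ W, g.1 v ∈ W)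
    {ι : Type*} [Fintype ι] [DecidableEq ι] (b : Basis ι F W)
    (h : (Matrix.of fun i j => polar Q (b i) (b j)).det ≠ 0) :
    ∃ t : O Q, Commute g t ∧ detO Q t = (-1) ^ Fintype.card ι ∧ spinFun t =
      quadraticChar F (2 ^ Fintype.card ι * (Matrix.of fun i j => polar Q (b i) (b j)).det) := by
  have hB : GoodForm false (polarBilin Q) :=
    ⟨hQ, fun h => absurd h (by decide), fun _ x y => polar_comm _ x y⟩
  have h1 : (LinearMap.BilinForm.restrict (polarBilin Q) W).Nondegenerate :=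
    (LinearMap.BilinForm.nondegenerate_iff_det_ne_zero b).2 (by
      convert h using 2
      ext i j
      simp)
  have a1 := LinearMap.BilinForm.isCompl_orthogonal_of_restrict_nondegenerate hB.isRefl h1
  set W' := LinearMap.BilinForm.orthogonal (polarBilin Q) W
  have a2 : ∀ u ∈ W, ∀ w ∈ W', polarBilin Q u w = 0 := fun u hu w hw => hw u hu
  have b1 : Nondeg (Q.restrict W) := fun v hv => h1.1 v fun w => hv w
  have c1 : Nondeg (Q.restrict W') := fun v hv => (hB.restrict a1.symm fun w hw u hu =>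
    hB.isRefl _ _ (a2 u hu w hw)).sep v fun w => hv w
  have hW' : ∀ v ∈ W', g.1 v ∈ W' := fun v hv u hu => by
    obtain ⟨u, rfl⟩ := LinearMap.injective_iff_surjective.1 (fun x y e =>
      Subtype.ext (g.1.injective (congrArg Subtype.val e)) :
        Function.Injective ((g.1 : End F V).restrict hW)) ⟨u, hu⟩ |>.imp fun _ h => congrArg Subtype.val h
    exact (O.map_B g _ _).trans (a2 _ u.2 v hv)
  have h4 : ∀ v, Q (W.prodEquivOfIsCompl W' a1 v) = ((Q.restrict W).prod (Q.restrict W')) v :=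
    fun v => by
      rw [Submodule.coe_prodEquivOfIsCompl', Q_add,
        show polar Q v.1.1 v.2.1 = 0 from a2 _ v.1.2 _ v.2.2]
      simp
  have h5 : ∀ (u : W) (w : W'), (congrO _ h4 (H66.prodO _ _ (negO _, 1))).1 (u + w) = -u + w :=
    fun u w => congrO_apply _ h4 _ (u, w)
  refine ⟨congrO _ h4 (H66.prodO _ _ (negO _, 1)), O.ext fun v => ?_, ?_, ?_⟩
  · obtain ⟨u, w, rfl, -⟩ := Submodule.existsUnique_add_of_isCompl a1 v
    rw [O.mul_apply, O.mul_apply, h5, map_add, map_add]
    exact (h5 ⟨_, hW _ u.2⟩ ⟨_, hW' _ w.2⟩).symm ▸ by simp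
  · rw [detO_apply, ← Similar.det_eq (f := ((-1 : End F W).prodMap (1 : End F W') : End F (W × W')))
      ⟨W.prodEquivOfIsCompl W' a1, fun v => (h5 v.1 v.2).symm⟩, LinearMap.det_prodMap, map_one, mul_one,
      ← neg_one_smul F, LinearMap.det_smul, map_one, mul_one, finrank_eq_card_basis b]
  · rw [spinFun_congr (H66.nondeg_prod b1 c1), spinFun_prodO_inl b1 c1,
      ← coe_spin b1 (good_of_two_ne_zero b1 two_ne_zero), coe_spin_negO _ _ two_ne_zero b]
    rfl

theorem exists_neg_block (hQ : Nondeg Q) {a : ℕ} (ha : Odd a) : ∃ κ : F, κ ≠ 0 ∧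
    ∀ (g : O Q) (c : F) (w : V), c * c = 1 → ((c • (g.1 : End F V) - 1) ^ a) w = 0 →
      polarBilin Q w (((c • (g.1 : End F V) - 1) ^ (a - 1)) w) ≠ 0 → ∃ t : O Q, Commute g t ∧
        detO Q t = -1 ∧ spinFun t = quadraticChar F
          (κ * polarBilin Q w (((c • (g.1 : End F V) - 1) ^ (a - 1)) w)) := by
  let s : F := (Equiv.Perm.sign (Fin.revPerm (n := a)) : ℤ)
  have hs : s * s = 1 := by
    rw [← Int.cast_mul, ← Units.val_mul, Int.units_mul_self]; simp
  refine ⟨2 ^ a * (s * ∏ i : Fin a, (-1) ^ (i : ℕ)), mul_ne_zero (pow_ne_zero _ two_ne_zero)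
    (mul_ne_zero (left_ne_zero_of_mul_eq_one hs) (prod_ne_zero_iff.2 fun _ _ => by simp)),
    fun g c w hc h1 h2 => ?_⟩
  set u := c • (g.1 : End F V) with hu
  have h3 : ∀ x y, polarBilin Q (u x) (u y) = polarBilin Q x y := fun x y => by
    simp only [hu, LinearMap.smul_apply, map_smul, smul_eq_mul, ← mul_assoc, hc, one_mul]
    exact O.map_B g x y
  let v : Fin a → V := fun i => ((u - 1) ^ (i : ℕ)) w
  have h4 : ∀ i j : ℕ, a ≤ i + j → ((u - 1) ^ i) (((u - 1) ^ j) w) = 0 := fun i j h => by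
    obtain ⟨k, hk⟩ := Nat.exists_eq_add_of_le' h
    rw [← End.mul_apply, ← pow_add, hk, pow_add, End.mul_apply, h1, map_zero]
  have h5 : (Matrix.of fun i j => polar Q (v i) (v j)).det =
      s * (∏ i : Fin a, (-1) ^ (i : ℕ)) * polarBilin Q w (((u - 1) ^ (a - 1)) w) ^ a := by
    have := Matrix.det_permute' (Fin.revPerm (n := a)) (Matrix.of fun i j => polar Q (v i) (v j))
    rw [Matrix.det_of_upperTriangular, prod_congr rfl (g := fun i : Fin a => (-1) ^ (i : ℕ) *
      polarBilin Q w (((u - 1) ^ (a - 1)) w)), prod_mul_distrib, prod_const, card_univ,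
      Fintype.card_fin] at this
    · rw [mul_assoc, this, ← mul_assoc, hs, one_mul]
    · intro i _
      refine (flip_pow h3 w (h4 _ _ (by simp [Fin.val_rev]))).trans ?_
      rw [← End.mul_apply, ← pow_add]
      congr 4
      simp [Fin.val_rev]; omega
    · intro i j hij
      refine orth_left h3 (h4 _ _ ?_) w
      have : j.1 < i.1 := hij
      have := i.2
      simp only [Fin.revPerm_apply, Fin.val_rev, id]
      omega
  have h6 : (Matrix.of fun i j => polar Q (v i) (v j)).det ≠ 0 := h5 ▸ mul_ne_zero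
    (mul_ne_zero (left_ne_zero_of_mul_eq_one hs) (prod_ne_zero_iff.2 fun _ _ => by simp))
    (pow_ne_zero _ h2)
  have h7 : LinearIndependent F v := Fintype.linearIndependent_iff.2 fun e he =>
    congrFun (Matrix.eq_zero_of_vecMul_eq_zero h6 (funext fun j => by
      simpa [Matrix.vecMul, dotProduct] using congrArg (polarBilin Q · (v j)) he))
  obtain ⟨t, a1, a2, a3⟩ := exists_neg_on hQ g (Submodule.span F (Set.range v)) (fun x hx => by
    have : ∀ x ∈ Submodule.span F (Set.range v), (u - 1) x ∈ Submodule.span F (Set.range v) :=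
      fun x hx => (Submodule.map_span_le (u - 1) _ _).2 (by
        rintro _ ⟨i, rfl⟩
        by_cases hi : i + 1 < a
        · exact Submodule.subset_span ⟨⟨i + 1, hi⟩, by simp [v, pow_succ']⟩
        · rw [show (u - 1) (v i) = 0 by simpa using h4 1 i (by omega)]
          exact zero_mem _) (Submodule.mem_map_of_mem hx)
    simpa [hu, smul_smul, hc] using Submodule.smul_mem _ c (add_mem (this x hx) hx))
    (Basis.span h7) (by simpa only [Basis.span_apply] using h6)
  simp only [Basis.span_apply, h5, Fintype.card_fin] at a2 a3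
  refine ⟨t, a1, a2.trans ha.neg_one_pow, a3.trans ?_⟩
  generalize polarBilin Q w (((u - 1) ^ (a - 1)) w) = β at h2
  obtain ⟨m, rfl⟩ := ha
  rw [← mul_assoc, pow_succ' β (2 * m), ← mul_assoc, map_mul, pow_mul' β,
    quadraticChar_sq_one' (pow_ne_zero _ h2), mul_one]

theorem dk_eq_neg_one (hQ : Nondeg Q) (hG : H12.Good Q) (t : O Q) (ht : detO Q t = -1) :
    dk hQ hG t = -1 :=
  (Int.units_eq_one_or _).resolve_left fun h => two_ne_zero (α := F) (by
    linear_combination ht - (detO_eq_one_iff hQ hG two_ne_zero t).2 h)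

theorem card_split_le (hq : 3 ≤ Fintype.card F) (hQ : Nondeg Q) {n : ℕ}
    (hV : finrank F V = 2 * n + 1) {hG : H12.Good Q} (ψ : O Q →* ℤˣ)
    (h3 : ∀ g, dk hQ hG g = -1 → ψ g = spin hQ hG g * spin hQ hG (negO Q))
    (T : Finset (ConjClasses (O Q)))
    (hT : ∀ C ∈ T, ∀ g, ConjClasses.mk g = C → ∀ z, Commute g z → ψ z = 1) :
    (#T : ℝ) ≤ 4.73 * Fintype.card F ^ n := by
  obtain ⟨u, δ₁, δ₂, -, a2, -, a4⟩ := data_O hQ
  choose! κ b1 b2 using fun a ha => exists_neg_block (a := a) hQ ha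
  have a5 : ∀ C ∈ T, ∀ g : O Q, ConjClasses.mk g = C →
      SP (fun a => quadraticChar F (κ a) = spinFun (negO Q)) ((g.1 : End F V) - 1) (polarBilin Q) ∧
      SP (fun a => quadraticChar F (κ a) = spinFun (negO Q)) (-(g.1 : End F V) - 1) (polarBilin Q) := by
    intro C hC g hg
    have key : ∀ c : F, c * c = 1 → SP (fun a => quadraticChar F (κ a) = spinFun (negO Q))
        (c • (g.1 : End F V) - 1) (polarBilin Q) := fun c hc a ha w hw hw' => by
      obtain ⟨t, c1, c2, c3⟩ := b2 a ha g c w hc hw hw'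
      have c4 := (h3 t (dk_eq_neg_one hQ hG t c2)).symm.trans (hT C hC g hg t c1)
      rw [mul_eq_one_iff_eq_inv, Int.units_inv_eq_self, Units.ext_iff, coe_spin, coe_spin, c3,
        map_mul] at c4
      beta_reduce
      rw [← quadraticChar_one_iff_isSquare hw', ← c4, eq_comm (a := quadraticChar F (κ a)),
        mul_eq_left₀ (mt quadraticChar_eq_zero_iff.1 (b1 a ha))]
    exact ⟨by simpa using key 1 (one_mul 1), by simpa using key (-1) (by simp)⟩
  rw [hV] at a2
  exact count_split hq two_ne_zero (fun C _ => a2 C)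
    (fun C hC C' hC' => (a4 _ C (a5 C hC)).2 C' (a5 C' hC'))
    fun C hC => ((a4 _ C (a5 C hC)).1 1 odd_one).1

theorem exists_split_set {G : Type*} [Group G] [Finite G] (ψ : G →* ℤˣ) (hψ : ∃ g, ψ g = -1) :
    ∃ T : Finset (ConjClasses G), (∀ C ∈ T, ∀ g, ConjClasses.mk g = C → ∀ z, Commute g z → ψ z = 1) ∧
      2 * Nat.card (ConjClasses ψ.ker) = Nat.card (ConjClasses G) + 3 * #T := by
  have := Fintype.ofFinite G
  have : Finite (ConjClasses G) := Quotient.finite _
  have := Fintype.ofFinite (ConjClasses G)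
  exact ⟨_, fun C hC => (mem_filter.1 hC).2, two_mul_card_classes_ker ψ hψ⟩

theorem two_mul_card_classes_inf {G : Type*} [Group G] [Finite G] (ψ χ : G →* ℤˣ) (H : Subgroup G)
    (hH : ∀ g, g ∈ H ↔ ψ g = 1 ∧ χ g = 1) (z : G) (hz : ∀ g, z * g = g * z) (h1 : ψ z = 1)
    (h2 : χ z = -1) : 2 * Nat.card (ConjClasses H) = Nat.card (ConjClasses ψ.ker) := by
  obtain ⟨T, hT, h6⟩ := exists_split_set (χ.comp ψ.ker.subtype) ⟨⟨z, h1⟩, h2⟩
  have h3 : (χ.comp ψ.ker.subtype).ker = H.subgroupOf ψ.ker := Subgroup.ext fun g => by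
    rw [Subgroup.mem_subgroupOf, hH]
    exact ⟨fun h => ⟨g.2, h⟩, fun h => h.2⟩
  rw [h3, card_classes_congr (Subgroup.subgroupOfEquivOfLe fun g hg => ((hH g).1 hg).1),
    eq_empty_of_forall_notMem (s := T), card_empty] at h6
  · exact h6
  intro C h
  obtain ⟨g, rfl⟩ := ConjClasses.mk_surjective C
  exact absurd (h2.symm.trans (hT _ h g rfl ⟨z, h1⟩ (Subtype.ext (hz g.1).symm))) (by decide)

theorem card_Om (hq : 3 ≤ Fintype.card F) (hQ : Nondeg Q) {n : ℕ} (hn : 1 ≤ n)
    (hV : finrank F V = 2 * n + 1) : Fintype.card F ^ n ≤ 2 * Nat.card (ConjClasses (Om Q)) ∧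
      10 * Nat.card (ConjClasses (Om Q)) ≤ 73 * Fintype.card F ^ n := by
  have := finite_O (Q := Q)
  have hG := good_of_two_ne_zero hQ two_ne_zero
  have h1 : dk hQ hG (negO Q) = -1 := dk_eq_neg_one hQ hG _ (by
    rw [detO_apply, show ((negO Q).1 : End F V) = (-1 : F) • 1 from LinearMap.ext fun v => by
      simp [negO_apply], LinearMap.det_smul, hV, map_one, mul_one, (odd_two_mul_add_one n).neg_one_pow])
  obtain ⟨ψ, h2, h3⟩ : ∃ ψ : O Q →* ℤˣ, (∀ g, dk hQ hG g = 1 → ψ g = spin hQ hG g) ∧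
      ∀ g, dk hQ hG g = -1 → ψ g = spin hQ hG g * spin hQ hG (negO Q) := by
    rcases Int.units_eq_one_or (spin hQ hG (negO Q)) with h | h
    · exact ⟨spin hQ hG, fun _ _ => rfl, fun _ _ => by rw [h, mul_one]⟩
    · exact ⟨spin hQ hG * dk hQ hG, fun _ e => by simp [e], fun _ e => by simp [e, h]⟩
  obtain ⟨T, hT, h4⟩ := exists_split_set ψ (by
    obtain ⟨g, hg⟩ := dk_spin_surjective hQ hG two_ne_zero (by omega) (1, -1)
    exact ⟨g, (h2 g (congrArg Prod.fst hg)).trans (congrArg Prod.snd hg)⟩)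
  have h6 := two_mul_card_classes_inf ψ (dk hQ hG) (Om Q) (fun g => by
    rw [mem_Om_iff hQ hG]
    exact ⟨fun h => ⟨(h2 _ h.1).trans h.2, h.1⟩, fun h => ⟨h.2, (h2 _ h.2).symm.trans h.1⟩⟩)
    (negO Q) negO_comm ((h3 _ h1).trans (Int.units_mul_self _)) h1
  have h7 := le_card_O_odd hQ hV
  have h8 := card_O_le hq hQ le_rfl hV
  have a6 := card_split_le hq hQ hV ψ h3 T hT
  rw [if_neg one_ne_zero] at h8
  generalize Nat.card (ConjClasses (Om Q)) = k at *
  generalize Nat.card (ConjClasses (O Q)) = l at *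
  refine ⟨by omega, ?_⟩
  have a7 : (4 : ℝ) * k = l + 3 * #T := by exact_mod_cast (by omega : 4 * k = l + 3 * #T)
  have h : (0 : ℝ) ≤ Fintype.card F ^ n := by positivity
  exact_mod_cast (by linarith : (10 : ℝ) * k ≤ 73 * Fintype.card F ^ n)

end H64.Wall
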