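import Mathlib
import Cfsg.Agent.Lib.Wall.Dual
import Cfsg.Agent.Lib.Wall.Seq
import Cfsg.Agent.Lib.ClassNum.Count
import Cfsg.Agent.S2587

/-!
The number of conjugacy classes of the special unitary groups.
-/

set_option autoImplicit false

namespace H64.Wall

open Polynomial H65 H66 H64.CN Finset H11.U
open scoped Classical

section gen

variable (Γ : Type*) [CommGroup Γ]

/-- The subgroup generated by the `k`-th powers for the block sizes `k` that occur. -/
def KG (τ : ℕ → ℕ) : Subgroup Γ := ⨆ (k : ℕ) (_ : 0 < τ k), (powMonoidHom k : Γ →* Γ).range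

variable {Γ}

theorem exists_prod_eq' {n : ℕ} {τ : ℕ → ℕ} (h : ∀ k, n < k → τ k = 0) {a : Γ} (ha : a ∈ KG Γ τ) :
    ∃ t : ℕ → Γ, ∏ k ∈ range (n + 1) with 0 < τ k, t k ^ k = a := by
  let φ : (ℕ → Γ) →* Γ := ∏ k ∈ range (n + 1) with 0 < τ k,
    (powMonoidHom k).comp (Pi.evalMonoidHom (fun _ => Γ) k)
  have : KG Γ τ ≤ φ.range := iSup₂_le fun k hk => by
    rintro _ ⟨b, rfl⟩
    refine ⟨Pi.mulSingle k b, ?_⟩
    simp only [φ, MonoidHom.finsetProd_apply, MonoidHom.comp_apply, Pi.evalMonoidHom_apply]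
    rw [prod_eq_single k, Pi.mulSingle_eq_same]
    · intro j _ hj; simp [hj]
    · intro hn
      refine (hn (mem_filter.mpr ⟨mem_range.mpr ?_, hk⟩)).elim
      by_contra e; have := h k (by omega); omega
  obtain ⟨t, ht⟩ := this ha
  exact ⟨t, by simpa [φ] using ht⟩

theorem index_KG_dvd [IsCyclic Γ] [Finite Γ] {τ : ℕ → ℕ} {k : ℕ} (hk : 0 < τ k) :
    (KG Γ τ).index ∣ k := by
  have : IsCyclic (Γ ⧸ KG Γ τ) := isCyclic_of_surjective _ (QuotientGroup.mk'_surjective _)
  rw [Subgroup.index, ← IsCyclic.exponent_eq_card, Monoid.exponent_dvd_iff_forall_pow_eq_one]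
  rintro ⟨b⟩
  exact (QuotientGroup.eq_one_iff (b ^ k)).mpr
    (le_iSup₂_of_le (f := fun k (_ : 0 < τ k) => (powMonoidHom k : Γ →* Γ).range) k hk le_rfl ⟨b, rfl⟩)

end gen

variable {F : Type*} [Field F] [Fintype F]

theorem finite_deg (N : ℕ) : {p : F[X] | p.natDegree ≤ N}.Finite := by
  have : Finite (degreeLT F (N + 1)) := Finite.of_equiv _ (degreeLTEquiv F (N + 1)).toEquiv.symm
  refine (Set.toFinite (degreeLT F (N + 1) : Set F[X])).subset fun h hh => ?_
  rw [SetLike.mem_coe, mem_degreeLT]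
  exact degree_le_natDegree.trans_lt (by exact_mod_cast Nat.lt_succ_of_le hh)

variable {q : ℕ} [IsSq F q]

omit [Fintype F] in
theorem sd_iff {σ : F →+* F} {p : F[X]} (hm : p.Monic) (h0 : p.coeff 0 ≠ 0) : du σ p = p ↔
    p.coeff 0 * σ (p.coeff 0) = 1 ∧
      ∀ i, 0 < i → i < p.natDegree → p.coeff i = p.coeff 0 * σ (p.coeff (p.natDegree - i)) := by
  have h1 : σ (p.coeff 0) ≠ 0 := by simpa using h0
  constructor
  · intro h
    have h2 := du_coeff_zero (σ := σ) hm
    rw [h] at h2
    refine ⟨by rw [← eq_mul_inv_iff_mul_eq₀ h1, one_mul]; exact h2, fun i _ hi => ?_⟩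
    rw [← h, du_coeff, ← h2, revAt_le hi.le, h]
  · rintro ⟨h2, h3⟩
    ext i
    rw [du_coeff, ← eq_inv_of_mul_eq_one_left h2]
    rcases lt_trichotomy i p.natDegree with h | rfl | h
    · rw [revAt_le h.le]
      rcases Nat.eq_zero_or_pos i with rfl | hi
      · simp [hm.coeff_natDegree]
      · exact (h3 i hi h).symm
    · rw [revAt_le le_rfl, Nat.sub_self, h2, hm.coeff_natDegree]
    · rw [revAt_eq_self_of_lt h, coeff_eq_zero_of_natDegree_lt h]; simp

theorem card_sd (A : Finset F[X]) (hA : ∀ p ∈ A, p.Monic ∧ p.coeff 0 ≠ 0 ∧ du (cj q) p = p) (j : ℕ) :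
    #{p ∈ A | p.natDegree = j + 1} ≤ (q + 1) * q ^ j := by
  rw [← card_norm_eq (F := F) (q := q) one_ne_zero (map_one _), Nat.card_eq_fintype_card,
    Fintype.card_subtype]
  refine card_le_mul_card_image_of_maps_to (f := fun p => p.coeff 0) (fun p hp => ?_) _
    (fun c hc => ?_) |>.trans_eq (mul_comm _ _)
  · obtain ⟨a1, a2, a3⟩ := hA p (mem_filter.1 hp).1
    exact mem_filter.2 ⟨mem_univ _, ((sd_iff a1 a2).1 a3).1⟩
  · have := card_fixed_eq (K := F) (q := q) (E := Fin j → F)
      ⟨⟨fun w i => c * cj q (w i.rev), by ext; simp⟩, fun v w => by ext; simp [mul_add]⟩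
      (fun c w => by ext; simp [mul_left_comm]) fun w => by
        ext; simp [cj_cj, ← mul_assoc, (mem_filter.1 hc).2]
    rw [Module.finrank_fin_fun, Nat.card_eq_fintype_card, Fintype.card_subtype] at this
    rw [← this]
    refine card_le_card_of_injOn (fun p i => p.coeff (i + 1)) (fun p hp => ?_)
      fun p hp p' hp' h => ?_
    · simp only [coe_filter, mem_filter, Set.mem_setOf_eq, mem_univ, true_and] at hp ⊢
      obtain ⟨a1, a2, a3⟩ := hA p hp.1.1
      funext i
      have := ((sd_iff a1 a2).1 a3).2 (i + 1) (by omega) (by omega)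
      rw [this, hp.2, hp.1.2]
      change c * cj q (p.coeff (i.rev + 1)) = _
      rw [Fin.val_rev]
      congr 3
      omega
    · simp only [coe_filter, mem_filter, Set.mem_setOf_eq] at hp hp'
      ext i
      rcases i with _ | i
      · rw [hp.2, hp'.2]
      rcases lt_trichotomy i j with h1 | rfl | h1
      · exact congrFun h ⟨i, h1⟩
      · rw [← hp.1.2, (hA p hp.1.1).1.coeff_natDegree, hp.1.2, ← hp'.1.2,
          (hA p' hp'.1.1).1.coeff_natDegree]
      · rw [coeff_eq_zero_of_natDegree_lt (by omega), coeff_eq_zero_of_natDegree_lt (by omega)]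

variable (F q) in
/-- The admissible sequences of self-dual polynomials. -/
noncomputable def DU (n : ℕ) : Finset (ℕ → F[X]) := {u ∈ DS F n | ∀ k, du (cj q) (u k) = u k}

theorem mem_DU {n : ℕ} {u : ℕ → F[X]} : u ∈ DU F q n ↔ IsD n u ∧ ∀ k, du (cj q) (u k) = u k := by
  rw [DU, mem_filter, mem_DS]

theorem card_DU_aux (n : ℕ) : #(DU F q n) * (q : ℝ)⁻¹ ^ n ≤ (1 + (q : ℝ)⁻¹) *
    ∏ i ∈ Ico 1 n, (1 + (q : ℝ)⁻¹ * (q : ℝ)⁻¹ ^ i) / (1 - (q : ℝ)⁻¹ ^ i) := by
  have hq : (2 : ℝ) ≤ q := by exact_mod_cast two_le_q F q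
  have hx : (0 : ℝ) < (q : ℝ)⁻¹ := by positivity
  have hx1 : (q : ℝ)⁻¹ < 1 := inv_lt_one_of_one_lt₀ (by linarith)
  have hx2 : (q : ℝ) * (q : ℝ)⁻¹ = 1 := mul_inv_cancel₀ (by positivity)
  let A : Finset F[X] := {p ∈ (finite_deg (F := F) n).toFinset |
    p.Monic ∧ p.coeff 0 ≠ 0 ∧ du (cj q) p = p}
  have h1 : ∀ j, (#{p ∈ A | p.natDegree = j} : ℝ) ≤
      if j = 0 then (1 : ℝ) else (q + 1) * q ^ (j - 1) := by
    intro j
    rcases j with _ | j
    · rw [if_pos rfl]
      exact_mod_cast card_le_one.2 fun p hp p' hp' => by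
        rw [mem_filter, mem_filter] at hp hp'
        rw [hp.1.2.1.natDegree_eq_zero.1 hp.2, hp'.1.2.1.natDegree_eq_zero.1 hp'.2]
    · rw [if_neg j.succ_ne_zero]
      exact_mod_cast card_sd A (fun p hp => (mem_filter.1 hp).2) j
  have h2 : ∀ u ∈ DU F q n, ∀ k, u (k + 1) ∈ A := fun u hu k => by
    obtain ⟨a1, a2⟩ := mem_DU.1 hu
    refine mem_filter.2 ⟨(Set.Finite.mem_toFinset _).2 ?_, a1.monic _, a1.ne _, a2 _⟩
    have := single_le_sum (f := fun k => k * (u k).natDegree) (fun _ _ => Nat.zero_le _)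
      (mem_range.2 (show k + 1 < n + k + 2 by omega))
    rw [a1.sum _ (by omega)] at this
    exact le_trans (Nat.le_mul_of_pos_left _ k.succ_pos) this
  refine (count_le (Ico 1 n) (i0 := 0) (C := 1 + (q : ℝ)⁻¹) (fun _ => A) (fun i p => (i + 1) * p.natDegree) hx n
    (fun j => ?_) _ (fun u i => u (i + 1)) (fun u hu v hv a1 a2 => ?_) (fun u hu => h2 u hu 0)
    (fun u hu i _ => h2 u hu i) fun u hu => ?_).trans ?_
  · simp only [zero_add, one_mul]
    refine (mul_le_mul_of_nonneg_right (h1 j) (by positivity)).trans ?_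
    rcases j with _ | j
    · simp
    · rw [if_neg j.succ_ne_zero, Nat.add_sub_cancel, pow_succ', mul_mul_mul_comm, ← mul_pow, hx2,
        add_mul, hx2]
      simp
  · have b1 := (mem_DU.1 hu).1
    have b2 := (mem_DU.1 hv).1
    funext k
    rcases k with _ | _ | k
    · rw [b1.zero, b2.zero]
    · exact a1
    · by_cases hk : k + 1 < n
      · exact a2 _ (mem_Ico.2 ⟨by omega, hk⟩)
      · rcases Nat.eq_zero_or_pos n with rfl | hn
        all_goals rw [b1.eq_one (b1.deg_eq_zero (by omega)), b2.eq_one (b2.deg_eq_zero (by omega))]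
  · have b1 := (mem_DU.1 hu).1
    rcases n with _ | n
    · simp [b1.deg_eq_zero one_pos]
    · refine Eq.trans ?_ (b1.sum (n + 2) (by omega))
      rw [sum_range_succ', sum_range_succ', sum_Ico_eq_sum_range]
      simp [add_comm]
  · refine mul_le_mul_of_nonneg_left (prod_le_prod (fun _ _ => by positivity) fun i hi => ?_)
      (by positivity)
    simp only [pow_mul]
    refine sum_pow_le A natDegree _ (by positivity) h1 fun N => ?_
    have a1 : (q : ℝ)⁻¹ ^ i < 1 := pow_lt_one₀ hx.le hx1 (by have := (mem_Ico.1 hi).1; omega)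
    have a2 := geom_le (by positivity) a1 N
    have a3 : 0 < 1 - (q : ℝ)⁻¹ ^ i := by linarith
    refine (sum_le_sum_of_subset_of_nonneg (range_mono N.le_succ) fun _ _ _ => by positivity).trans ?_
    rw [sum_range_succ', if_pos rfl, sum_congr rfl (g := fun j => (q + 1) * (q : ℝ)⁻¹ ^ (i + 1) *
      ((q : ℝ)⁻¹ ^ i) ^ j) fun j _ => by
        rw [if_neg j.succ_ne_zero, Nat.add_sub_cancel, pow_succ' (_ ^ _), mul_mul_mul_comm,
          ← mul_pow, pow_succ', ← mul_assoc (q : ℝ), hx2, one_mul], ← mul_sum]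
    refine (add_le_add_left (mul_le_mul_of_nonneg_left a2 (by positivity)) _).trans (le_of_eq ?_)
    rw [pow_succ', ← mul_assoc, add_mul, hx2]
    generalize (q : ℝ)⁻¹ ^ i = y at a3
    field_simp
    ring

theorem card_DU (n : ℕ) : 100 * #(DU F q n) ≤ 826 * q ^ n ∧ (3 ≤ q → 10 * #(DU F q n) ≤ 28 * q ^ n) := by
  have hq : (2 : ℝ) ≤ q := by exact_mod_cast two_le_q F q
  have key : ∀ (x0 c : ℝ) (K : ℕ), (q : ℝ)⁻¹ ≤ x0 → x0 ≤ 2⁻¹ → 1 ≤ K → 0 ≤ c →
      (∀ y, 0 ≤ y → y ≤ x0 ^ K → (1 + x0 * y) * (1 + c * (y * x0)) ≤ (1 + c * y) * (1 - y)) →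
      #(DU F q n) ≤ (1 + x0) * ((∏ k ∈ Ico 1 K, (1 + x0 * x0 ^ k) / (1 - x0 ^ k)) *
        (1 + c * x0 ^ K)) * (q : ℝ) ^ n := by
    intro x0 c K h1 h2 hK hc h3
    have hx : (0 : ℝ) < (q : ℝ)⁻¹ := by positivity
    have h4 := card_DU_aux (F := F) (q := q) n
    rw [inv_pow, ← div_eq_mul_inv, div_le_iff₀ (by positivity)] at h4
    refine h4.trans (mul_le_mul_of_nonneg_right (mul_le_mul (by linarith) (le_trans ?_
      (prod_le_num (fun y => (1 + x0 * y) / (1 - y)) _ x0 c hx.le h1 (by linarith) hc hK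
        (fun y z a1 a2 a3 => ?_) (fun y a1 a2 => ?_) n)) (prod_nonneg fun i hi => ?_)
      (by linarith)) (by positivity))
    · refine prod_le_prod (fun i hi => ?_) fun i hi => ?_
      all_goals have : (q : ℝ)⁻¹ ^ i < 1 :=
        pow_lt_one₀ hx.le (by linarith) (by have := (mem_Ico.1 hi).1; omega)
      · exact div_nonneg (by positivity) (by linarith)
      · gcongr
    · rw [pow_one] at a3
      have : 0 ≤ x0 := by linarith
      exact ⟨(one_le_div (by linarith)).2 (by nlinarith), by gcongr <;> nlinarith⟩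
    · have : x0 ^ K ≤ x0 := pow_le_of_le_one (by linarith) (by linarith) (by omega)
      rw [div_mul_eq_mul_div, div_le_iff₀ (by linarith)]
      exact h3 y a1 a2
    · have : (q : ℝ)⁻¹ ^ i < 1 :=
        pow_lt_one₀ hx.le (by linarith) (by have := (mem_Ico.1 hi).1; omega)
      exact div_nonneg (by positivity) (by linarith)
  constructor
  · have := key 2⁻¹ 4 12 (inv_anti₀ two_pos hq) le_rfl (by norm_num) (by norm_num)
      fun y h1 h2 => by nlinarith
    simp only [prod_Ico_eq_prod_range, prod_range_succ, prod_range_zero] at this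
    have h : (100 * #(DU F q n) : ℝ) ≤ 826 * q ^ n := by
      have : (0 : ℝ) ≤ q ^ n := by positivity
      norm_num at *
      linarith
    exact_mod_cast h
  · intro h3
    have := key 3⁻¹ 3 6 (inv_anti₀ three_pos (by exact_mod_cast h3)) (by norm_num) (by norm_num)
      (by norm_num) fun y h1 h2 => by nlinarith
    simp only [prod_Ico_eq_prod_range, prod_range_succ, prod_range_zero] at this
    have h : (10 * #(DU F q n) : ℝ) ≤ 28 * q ^ n := by
      have : (0 : ℝ) ≤ q ^ n := by positivity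
      norm_num at *
      linarith
    exact_mod_cast h

/-- Rescaling the constant term of a self-dual polynomial. -/
noncomputable def act1 (t b : F) (p : F[X]) : F[X] :=
  if 0 < p.natDegree then C b * p + C (1 - b) * X ^ p.natDegree + C ((t - b) * p.coeff 0) else p

omit [Fintype F] in
theorem act1_coeff (t b : F) {p : F[X]} (hm : p.Monic) (h : 0 < p.natDegree) (i : ℕ) :
    (act1 t b p).coeff i =
      if i = 0 then t * p.coeff 0 else if i = p.natDegree then 1 else b * p.coeff i := by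
  rw [act1, if_pos h, coeff_add, coeff_add, coeff_C_mul, coeff_C_mul, coeff_X_pow, coeff_C]
  split_ifs with h1 h2 h2
  · omega
  · subst h1; rw [hm.coeff_natDegree]; ring
  · subst h2; ring
  · ring

omit [Fintype F] in
theorem act1_monic (t b : F) {p : F[X]} (hm : p.Monic) :
    (act1 t b p).natDegree = p.natDegree ∧ (act1 t b p).Monic := by
  by_cases h : 0 < p.natDegree
  · have h1 : (act1 t b p).natDegree ≤ p.natDegree := natDegree_le_iff_coeff_eq_zero.2 fun i hi => by
      rw [act1_coeff t b hm h, if_neg (by omega), if_neg hi.ne', coeff_eq_zero_of_natDegree_lt hi,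
        mul_zero]
    have h2 : (act1 t b p).coeff p.natDegree = 1 := by
      rw [act1_coeff t b hm h, if_neg h.ne', if_pos rfl]
    exact ⟨natDegree_eq_of_le_of_coeff_ne_zero h1 (h2 ▸ one_ne_zero),
      monic_of_natDegree_le_of_coeff_eq_one _ h1 h2⟩
  · rw [act1, if_neg h]; exact ⟨rfl, hm⟩

variable (q) in
/-- The index of the determinants of the centraliser. -/
noncomputable def gu (u : ℕ → F[X]) : ℕ :=
  (KG (rootsOfUnity (q + 1) F) fun k => (u k).natDegree).index

theorem hroot (a : rootsOfUnity (q + 1) F) : ((a : Fˣ) : F) * cj q ((a : Fˣ) : F) = 1 := by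
  rw [mul_cj]; exact (mem_rootsOfUnity' _ _).mp a.2

theorem card_root : Nat.card (rootsOfUnity (q + 1) F) = q + 1 := by
  refine Eq.trans ?_ (card_norm_eq (F := F) (q := q) one_ne_zero (map_one _))
  exact Nat.card_congr
    { toFun := fun a => ⟨_, hroot a⟩
      invFun := fun a => ⟨Units.mk0 a.1 (left_ne_zero_of_mul_eq_one a.2), by
        rw [mem_rootsOfUnity', ← mul_cj]; exact a.2⟩
      left_inv := fun a => Subtype.ext (Units.ext rfl)
      right_inv := fun a => rfl }

theorem avg_le (n : ℕ) (s : F) :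
    (q + 1) * ∑ u ∈ DU F q n with cst n u = s, gu q u ≤ ∑ u ∈ DU F q n, gu q u ^ 2 := by
  have := Fintype.ofFinite (rootsOfUnity (q + 1) F)
  have h0 : ∀ (τ : ℕ → ℕ) (a : rootsOfUnity (q + 1) F), ∃ t : ℕ → rootsOfUnity (q + 1) F,
      (∀ k, n < k → τ k = 0) → a ∈ KG _ τ → ∏ k ∈ range (n + 1) with 0 < τ k, t k ^ k = a := by
    intro τ a
    by_cases h : (∀ k, n < k → τ k = 0) ∧ a ∈ KG _ τ
    · obtain ⟨t, ht⟩ := exists_prod_eq' h.1 h.2
      exact ⟨t, fun _ _ => ht⟩
    · exact ⟨1, fun h1 h2 => absurd ⟨h1, h2⟩ h⟩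
  choose t ht using h0
  choose b hb hb' using fun a : rootsOfUnity (q + 1) F => exists_div_cj_eq (hroot a)
  let act : (ℕ → rootsOfUnity (q + 1) F) → (ℕ → F[X]) → ℕ → F[X] := fun t u k =>
    act1 ((t k : Fˣ) : F) (b (t k)) (u k)
  have a1 : ∀ t u, IsD n u → ∀ k, (act t u k).natDegree = (u k).natDegree := fun t u hu k =>
    (act1_monic _ _ (hu.monic k)).1
  have a2 : ∀ t u, IsD n u → ∀ k, (act t u k).coeff 0 =
      (if 0 < (u k).natDegree then ((t k : Fˣ) : F) else 1) * (u k).coeff 0 := fun t u hu k => by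
    split_ifs with h
    · exact (act1_coeff _ _ (hu.monic k) h 0).trans (if_pos rfl)
    · simp only [act, act1, if_neg h, one_mul]
  have a3 : ∀ t u, IsD n u → cst n (act t u) = ((∏ k ∈ range (n + 1) with 0 < (u k).natDegree,
      t k ^ k : rootsOfUnity (q + 1) F) : Fˣ) * cst n u := fun t u hu => by
    simp only [cst, a2 t u hu, mul_pow, prod_mul_distrib, prod_filter, Units.coe_prod,
      SubmonoidClass.coe_finsetProd]
    congr 1
    exact prod_congr rfl fun k _ => by split_ifs <;> simp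
  have a4 : ∀ t, ∀ u ∈ DU F q n, act t u ∈ DU F q n := fun t u hu => by
    obtain ⟨c1, c2⟩ := mem_DU.1 hu
    have c3 : ∀ k, (act t u k).coeff 0 ≠ 0 := fun k => by
      rw [a2 t u c1]; exact mul_ne_zero (by split_ifs <;> simp) (c1.ne k)
    refine mem_DU.2 ⟨⟨fun k => (act1_monic _ _ (c1.monic k)).2, c3, by simp [act, act1, c1.zero],
      fun N hN => by simp only [a1 t u c1]; exact c1.sum N hN⟩, fun k => ?_⟩
    by_cases h : 0 < (u k).natDegree
    swap
    · simp only [act, act1, if_neg h, c2]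
    obtain ⟨d1, d2⟩ := (sd_iff (c1.monic k) (c1.ne k)).1 (c2 k)
    refine (sd_iff (act1_monic _ _ (c1.monic k)).2 (c3 k)).2 ⟨?_, fun i h1 h2 => ?_⟩
    · rw [act1_coeff _ _ (c1.monic k) h, if_pos rfl, map_mul, mul_mul_mul_comm, d1, hroot, one_mul]
    · rw [(act1_monic _ _ (c1.monic k)).1] at h2 ⊢
      simp only [act1_coeff _ _ (c1.monic k) h]
      rw [if_neg h1.ne', if_neg h2.ne, if_pos trivial, if_neg (by omega), if_neg (by omega), map_mul,
        mul_mul_mul_comm, hb', ← d2 i h1 h2]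
  let S := ({u ∈ DU F q n | cst n u = s} : Finset _).sigma fun u =>
    ({a | a ∈ KG _ fun k => (u k).natDegree} : Finset (rootsOfUnity (q + 1) F))
  let Ψ : (Σ _ : ℕ → F[X], rootsOfUnity (q + 1) F) → ℕ → F[X] := fun x =>
    act (t (fun k => (x.1 k).natDegree) x.2) x.1
  have h1 : (q + 1) * ∑ u ∈ DU F q n with cst n u = s, gu q u = ∑ x ∈ S, gu q (Ψ x) ^ 2 := by
    rw [mul_sum, sum_sigma]
    refine sum_congr rfl fun u hu => ?_
    simp only [Ψ, gu, a1 _ u (mem_DU.1 (mem_filter.1 hu).1).1, sum_const, smul_eq_mul]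
    rw [← Fintype.card_subtype, ← Nat.card_eq_fintype_card, sq, ← mul_assoc]
    congr 1
    exact (card_root (F := F)).symm.trans (Subgroup.card_mul_index _).symm
  have h2 : Set.InjOn Ψ S := by
    rintro ⟨u, a⟩ hu ⟨v, a'⟩ hv h
    simp only [S, mem_coe, mem_sigma, mem_filter, mem_DU, mem_univ, true_and] at hu hv
    have hu1 := hu.1.1.1
    have hv1 := hv.1.1.1
    have e1 : (fun k => (u k).natDegree) = fun k => (v k).natDegree := by
      funext k
      have := congrArg (fun w => (w k).natDegree) h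
      simpa only [Ψ, a1 _ u hu1, a1 _ v hv1] using this
    have e2 := congrArg (cst n) h
    simp only [Ψ, a3 _ u hu1, a3 _ v hv1] at e2
    rw [ht _ _ (fun k => hu1.deg_eq_zero) hu.2, ht _ _ (fun k => hv1.deg_eq_zero) hv.2,
      hu.1.2, hv.1.2] at e2
    have hs : s ≠ 0 := hu.1.2 ▸ prod_ne_zero_iff.mpr fun k _ => pow_ne_zero _ (hu1.ne k)
    obtain rfl : a = a' := Subtype.ext (Units.ext (mul_right_cancel₀ hs e2))
    simp only [Ψ, e1] at h
    congr 1
    funext k
    have e3 : (u k).natDegree = (v k).natDegree := congrFun e1 k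
    have e4 := congrFun h k
    by_cases h0 : 0 < (u k).natDegree
    · ext i
      have e5 := congrArg (coeff · i) e4
      simp only [act, act1_coeff _ _ (hu1.monic k) h0, act1_coeff _ _ (hv1.monic k) (e3 ▸ h0),
        ← e3] at e5
      split_ifs at e5 with h3 h4
      · rw [h3]; exact mul_left_cancel₀ (Units.ne_zero _) e5
      · rw [h4, (hu1.monic k).coeff_natDegree, e3, (hv1.monic k).coeff_natDegree]
      · exact mul_left_cancel₀ (hb _) e5
    · simpa only [act, act1, if_neg h0, ← e3] using e4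
  rw [h1, ← sum_image (f := fun u => gu q u ^ 2) h2]
  exact sum_le_sum_of_subset (image_subset_iff.mpr fun x hx =>
    a4 _ _ (mem_filter.mp (mem_sigma.mp hx).1).1)

theorem card_gu_le {n g : ℕ} (hg : 0 < g) : #{u ∈ DU F q n | gu q u = g} ≤ #(DU F q (n / g)) := by
  have h0 : ∀ u : ℕ → F[X], gu q u = g → ∀ k, (u k).natDegree ≠ 0 → g ∣ k := fun u hu k hk =>
    hu ▸ index_KG_dvd (Nat.pos_of_ne_zero hk)
  refine card_le_card_of_injOn (fun u j => u (g * j)) (fun u hu => ?_) fun u hu v hv h => ?_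
  · obtain ⟨h1, h2⟩ := mem_filter.mp hu
    obtain ⟨h1, h3⟩ := mem_DU.mp h1
    refine mem_DU.mpr ⟨⟨fun _ => h1.monic _, fun _ => h1.ne _, h1.zero, fun N hN => ?_⟩,
      fun _ => h3 _⟩
    have := h1.sum (g * N) ((Nat.div_lt_iff_lt_mul hg).mp hN |>.trans_eq (mul_comm _ _))
    rw [sum_mul_range hg _ fun k hk => h0 u h2 k (right_ne_zero_of_mul hk)] at this
    rw [← this]
    simp only [mul_assoc, ← mul_sum]
    rw [Nat.mul_div_cancel_left _ hg]
  · obtain ⟨h1, h2⟩ := mem_filter.mp hu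
    obtain ⟨h3, h4⟩ := mem_filter.mp hv
    funext k
    by_cases hk : g ∣ k
    · obtain ⟨j, rfl⟩ := hk
      exact congrFun h j
    · rw [(mem_DU.mp h1).1.eq_one (by_contra fun e => hk (h0 u h2 k e)),
        (mem_DU.mp h3).1.eq_one (by_contra fun e => hk (h0 v h4 k e))]

theorem sum_sq_le' (n : ℕ) : ∑ u ∈ DU F q n, gu q u ^ 2 ≤ #(DU F q n) +
    ∑ g ∈ range (q + 2) with 2 ≤ g ∧ g ∣ n ∧ g ∣ q + 1, (g ^ 2 - 1) * #(DU F q (n / g)) := by
  calc _ ≤ ∑ u ∈ DU F q n, (1 + ∑ g ∈ range (q + 2) with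
        2 ≤ g ∧ g ∣ n ∧ g ∣ q + 1, if gu q u = g then g ^ 2 - 1 else 0) := by
        refine sum_le_sum fun u hu => ?_
        have h1 : gu q u ∣ q + 1 := (Subgroup.index_dvd_card _).trans card_root.dvd
        have h2 : gu q u ∣ n := by
          rw [← (mem_DU.mp hu).1.sum (n + 1) (by omega)]
          refine dvd_sum fun k _ => ?_
          rcases Nat.eq_zero_or_pos (u k).natDegree with h | h
          · simp [h]
          · exact (index_KG_dvd h).mul_right _
        have h3 := Nat.le_of_dvd (by omega) h1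
        rw [sum_ite_eq]
        split_ifs with h
        · omega
        · have : gu q u ≤ 1 := by
            by_contra e
            exact h (mem_filter.mpr ⟨mem_range.mpr (by omega), by omega, h2, h1⟩)
          exact (Nat.pow_le_pow_left this 2).trans (by simp)
    _ ≤ _ := by
        rw [sum_add_distrib, sum_comm, card_eq_sum_ones]
        refine Nat.add_le_add_left (sum_le_sum fun g hg => ?_) _
        rw [← sum_filter, sum_const, smul_eq_mul, mul_comm]
        exact Nat.mul_le_mul_left _ (card_gu_le (by have := (mem_filter.mp hg).2.1; omega))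

theorem card_SU_le {n : ℕ} (hn : 1 ≤ n) : Nat.card (ConjClasses (Cfsg.SU n F q)) ≤
    ∑ u ∈ DU F q n with cst n u = (-1) ^ n, gu q u := by
  have := Fintype.ofFinite (ConjClasses (Cfsg.SU n F q))
  choose g hg using ConjClasses.mk_surjective (α := Cfsg.SU n F q)
  choose u hu using fun C => exists_has (Matrix.toLin' (g C).1.1)
  have hU : ∀ C, cstar (cj q) (g C).1.1 * (g C).1.1 = 1 := fun C =>
    (mem_SU_iff (σ := cj q) (fun _ => rfl) _).1 (g C).2
  rw [Nat.card_eq_fintype_card, ← card_univ, card_eq_sum_card_fiberwise (f := u)]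
  · refine sum_le_sum fun v _ => ?_
    rcases ({C | u C = v} : Finset _).eq_empty_or_nonempty with h | ⟨C0, h0⟩
    · simp [h]
    obtain rfl := (mem_filter.mp h0).2
    let φ : Cfsg.GU n F q →* rootsOfUnity (q + 1) F :=
      (Matrix.GeneralLinearGroup.det.comp (Cfsg.GU n F q).subtype).codRestrict _ fun g => by
        rw [mem_rootsOfUnity', ← mul_cj]
        exact IsIso.det_mul_cj (q := q) g.2
    have hφ : ∀ g, ((φ g : Fˣ) : F) = g.1.1.det := fun g => rfl
    have hsurj : Function.Surjective φ := fun a => by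
      obtain ⟨g, hg, -⟩ := exists_gu_det_eq (q := q) (w := Pi.single (⟨0, hn⟩ : Fin n) 1)
        (by simp [form_single_single]) (hroot a)
      exact ⟨g, Subtype.ext (Units.ext hg)⟩
    have h1 := card_conjClasses_split (suToGU n F q) suToGU_injective φ hsurj (by
      ext g
      rw [mem_range_suToGU, MonoidHom.mem_ker, Subtype.ext_iff, Units.ext_iff, hφ]
      rfl) (g C0)
    have h2 : KG _ (fun k => (u C0 k).natDegree) ≤
        (Subgroup.centralizer {suToGU n F q (g C0)}).map φ := iSup₂_le fun k hk => by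
      rintro _ ⟨b, rfl⟩
      obtain ⟨w, w1, w2, w3⟩ := exists_unitary_det cj_cj (exists_cj_ne F q) (hU C0) (hu C0) hk
        (hroot b)
      obtain ⟨y, rfl⟩ := exists_GU_of_cstar_mul (q := q) (fun _ => rfl) w w1
      exact ⟨y, Subgroup.mem_centralizer_singleton_iff.mpr (Subtype.ext (Units.ext w2.eq.symm)),
        Subtype.ext (Units.ext (by simpa [hφ] using w3))⟩
    refine le_trans ?_ (h1.le.trans (Subgroup.index_antitone h2))
    rw [← Nat.card_eq_finsetCard]
    refine Nat.card_le_card_of_injective (fun C => ⟨C.1, g C.1, hg _,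
      (Cfsg.Agent.S2587.result IsSq.card_eq _ _).2
        ((isConj_gl_iff_similar _ _).mpr ((hu C0).similar ?_))⟩) fun C D h => ?_
    · have e : u C.1 = u C0 := (mem_filter.mp C.2).2
      have := hu C.1
      rw [e] at this
      exact this
    · exact Subtype.ext (congrArg (fun x => x.1) h)
  · intro C _
    refine mem_filter.mpr ⟨mem_DU.mpr ⟨by simpa using (hu C).isD (by simp),
      du_eq_of_pres cj_cj isUnit_one (by rw [mul_one, hU]) (hu C)⟩, ?_⟩
    simpa [cst] using (hu C).cst (N := n + 1) (by simp)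

theorem sum_w_le (N : ℕ) : ∑ g ∈ range N with 2 ≤ g, ((g : ℝ) ^ 2 - 1) / 4 ^ (g - 1) ≤ 7 / 4 := by
  have key : ∀ N, ∑ g ∈ range (N + 3) with 2 ≤ g, ((g : ℝ) ^ 2 - 1) / 4 ^ (g - 1) + 1 / 2 ^ N ≤
      7 / 4 := by
    intro N
    induction N with
    | zero => simp only [sum_filter, sum_range_succ]; norm_num
    | succ N ih =>
      rw [sum_filter, sum_range_succ, ← sum_filter, if_pos (by omega)]
      have h1 : ((N + 3 : ℕ) : ℝ) ^ 2 - 1 ≤ 8 * 2 ^ N := by
        clear ih
        induction N with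
        | zero => norm_num
        | succ N ih =>
          have : (N : ℝ) + 1 ≤ 2 ^ N := by exact_mod_cast Nat.lt_two_pow_self
          push_cast at ih ⊢
          rw [pow_succ 2]; nlinarith
      have h2 : (((N + 3 : ℕ) : ℝ) ^ 2 - 1) / 4 ^ (N + 3 - 1) ≤ 1 / 2 ^ (N + 1) := by
        rw [div_le_div_iff₀ (by positivity) (by positivity), show N + 3 - 1 = N + 2 from rfl,
          show (4 : ℝ) = 2 * 2 by norm_num, mul_pow, pow_succ 2 (N + 1), pow_succ 2 N]
        have : (0 : ℝ) < 2 ^ N := by positivity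
        nlinarith
      have h3 : (1 : ℝ) / 2 ^ N = 1 / 2 ^ (N + 1) + 1 / 2 ^ (N + 1) := by field_simp; ring
      linarith
  refine le_trans (sum_le_sum_of_subset_of_nonneg (filter_subset_filter _ (range_mono
    (Nat.le_add_right N 3))) fun g hg _ => ?_) (le_trans (le_add_of_nonneg_right (by positivity)) (key N))
  have : (2 : ℝ) ≤ g := by exact_mod_cast (mem_filter.1 hg).2
  exact div_nonneg (by nlinarith) (by positivity)

theorem card_SU_le' {n : ℕ} (hn : 2 ≤ n) :
    100 * Nat.card (ConjClasses (Cfsg.SU n F q)) ≤ 826 * q ^ (n - 1) := by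
  have hq := two_le_q F q
  have h1 := (Nat.mul_le_mul_left (q + 1) (card_SU_le (F := F) (q := q) (by omega : 1 ≤ n))).trans
    ((avg_le n _).trans (sum_sq_le' n))
  obtain ⟨n, rfl⟩ : ∃ m, n = m + 1 := ⟨n - 1, by omega⟩
  refine Nat.le_of_mul_le_mul_left (c := q + 1) ?_ (by omega)
  rw [mul_left_comm]
  refine (Nat.mul_le_mul_left _ h1).trans ?_
  have h2 := fun n => (card_DU (F := F) (q := q) n).1
  have h3 := fun n => (card_DU (F := F) (q := q) n).2
  have h4 : ∀ g, g ∣ n + 1 → q ^ ((n + 1) / g) * q ^ (g - 1) ≤ q ^ (n + 1) := fun g hg => by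
    obtain ⟨m, hm⟩ := hg
    rw [← pow_add, hm]
    rcases g with _ | g
    · omega
    rcases m with _ | m
    · omega
    rw [Nat.mul_div_cancel_left _ g.succ_pos]
    exact Nat.pow_le_pow_right (by omega) (by rw [Nat.add_sub_cancel]; nlinarith)
  rw [Nat.add_sub_cancel]
  rcases (show q = 2 ∨ q = 3 ∨ 4 ≤ q by omega) with rfl | rfl | h
  · have a1 := h2 (n + 1)
    simp only [sum_filter, sum_range_succ]
    norm_num
    split_ifs with h
    · obtain ⟨m, hm⟩ := h
      rw [hm, Nat.mul_div_cancel_left _ three_pos]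
      rw [hm] at a1
      rcases m with _ | _ | m
      · omega
      · have a2 := card_DU_aux (F := F) (q := 2) 1
        norm_num at a2
        have a3 : #(DU F 2 1) ≤ 3 := by exact_mod_cast (show (#(DU F 2 1) : ℝ) ≤ 3 by linarith)
        obtain rfl : n = 2 := by omega
        norm_num at a1 ⊢
        omega
      · have a2 := h2 (m + 1 + 1)
        obtain rfl : n = 3 * m + 5 := by omega
        have a3 : 2 ^ m ≤ 2 ^ (3 * m) := Nat.pow_le_pow_right two_pos (by omega)
        simp only [mul_add, pow_add] at a1 a2 ⊢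
        omega
    · rw [pow_succ] at a1
      omega
  · have a1 := h3 (n + 1) le_rfl
    have a2 := h3 ((n + 1) / 2) le_rfl
    have a3 := h3 ((n + 1) / 4) le_rfl
    have a4 := h4 2
    have a5 := h4 4
    simp only [sum_filter, sum_range_succ]
    norm_num at a4 a5 ⊢
    rw [pow_succ] at a1 a4 a5
    split_ifs with b1 b2 b2
    · have := a4 b1; have := a5 b2; omega
    · have := a4 b1; omega
    · have := a5 b2; omega
    · omega
  · have a1 : ((∑ g ∈ range (q + 2) with 2 ≤ g ∧ g ∣ n + 1 ∧ g ∣ q + 1,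
        (g ^ 2 - 1) * #(DU F q ((n + 1) / g)) : ℕ) : ℝ) ≤ 7 / 4 * (28 / 10 * q ^ (n + 1)) := by
      refine le_trans ?_ (mul_le_mul_of_nonneg_right (sum_w_le (q + 2)) (by positivity))
      rw [sum_mul, Nat.cast_sum]
      refine le_trans (sum_le_sum fun g hg => ?_) (sum_le_sum_of_subset_of_nonneg
        (monotone_filter_right _ fun g _ hg => hg.1) fun g hg _ => ?_)
      · obtain ⟨-, b1, b2, -⟩ := mem_filter.1 hg
        have b3 : (10 * #(DU F q ((n + 1) / g)) : ℝ) ≤ 28 * q ^ ((n + 1) / g) := by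
          exact_mod_cast h3 _ (by omega)
        have b4 : (q : ℝ) ^ ((n + 1) / g) * 4 ^ (g - 1) ≤ q ^ (n + 1) := by
          exact_mod_cast (Nat.mul_le_mul_left _ (Nat.pow_le_pow_left h _)).trans (h4 g b2)
        have b5 : (2 : ℝ) ≤ g := by exact_mod_cast b1
        rw [Nat.cast_mul, Nat.cast_sub (Nat.one_le_pow _ _ (by omega)), div_mul_eq_mul_div,
          mul_div_assoc]
        push_cast
        refine mul_le_mul_of_nonneg_left ?_ (by nlinarith)
        rw [le_div_iff₀ (by positivity)]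
        have : (0 : ℝ) ≤ 4 ^ (g - 1) := by positivity
        nlinarith
      · have : (2 : ℝ) ≤ g := by exact_mod_cast (mem_filter.1 hg).2
        exact mul_nonneg (div_nonneg (by nlinarith) (by positivity)) (by positivity)
    have a2 := h3 (n + 1) (by omega)
    generalize ∑ g ∈ range (q + 2) with 2 ≤ g ∧ g ∣ n + 1 ∧ g ∣ q + 1,
        (g ^ 2 - 1) * #(DU F q ((n + 1) / g)) = S at a1
    have a3 : 10 * S ≤ 49 * q ^ (n + 1) := by
      exact_mod_cast (show (10 * S : ℝ) ≤ 49 * q ^ (n + 1) by linarith)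
    rw [pow_succ] at a2 a3
    nlinarith [Nat.zero_le (q ^ n)]

end H64.Wall
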